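import Cfsg.Agent.H721.FR.Base
import Cfsg.Agent.H705.Indicator
import Cfsg.Agent.CharactersDeep.NormalInd
import Cfsg.Agent.H955.FSDefs
import Cfsg.Agent.H692.RealOver
import Cfsg.Agent.S0188
import Cfsg.Agent.H955.FSAmb
import Cfsg.Agent.Characters.Central
import Cfsg.Agent.Characters.Values
import Cfsg.Agent.Solvable.UniqueOrderP
import Cfsg.Agent.Characters.SchurBound
import Mathlib.LinearAlgebra.Semisimple
import Cfsg.Agent.Characters.CCBasic
import Mathlib
import Cfsg.Agent.FastGrp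
import Cfsg.Agent.Prune
set_option linter.all false

section
prune_inst 0x7ffceefbaba8a9dfdfff7e3fa6dacdf831848fffa4dff94bffe06bbfcbdf030209c5638d09e000fe0e77c21410a87843f97eceffe06bdc7ffffd5ff41ffbee0ff5f7b50911d488340f340ff603f0778e6f3ffffffffffffffffffff7ffffffbeffbff3feffff

-- part: H839/FR/IndexTwo
section
prune_inst 0x301045002562000000180590132020602000042200400000c80003020b43d042208308400b001d10020e888100000020021000b0400000000a0004000004000000800600a0480108a20096002000000000000000000000000000800000041004008000000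
set_option linter.all false
open scoped Cfsg.Agent.FastGrp

/-!
# Frobenius-Schur indicators of subgroups of index two

* `indicator_restrict_rev`: if `χ` is irreducible with indicator one, `ψ` a real irreducible character of a
  subgroup and `[χ_H, ψ] = 1` then `ψ` has indicator one.
* `exists_over_index_two`: every irreducible character of a subgroup of index two is a constituent of
  multiplicity one of the restriction of an irreducible character.
* `index_two`, `index_two_hom`: `FSGood False` is inherited by subgroups of index two with real elements.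
-/

set_option autoImplicit false
set_option linter.unusedSectionVars false
set_option linter.style.haveILetI false
set_option linter.unusedVariables false

universe u

namespace Cfsg.Agent.H839.FR

open Cfsg Representation
open Cfsg.Agent.H955.FS
open Cfsg.Agent.Characters.Core
open scoped ComplexConjugate

section rep

variable {G : Type*} [Group G] [Fintype G] {H : Type*} [Group H] [Fintype H]
  {V : Type*} [AddCommGroup V] [Module ℂ V] [FiniteDimensional ℂ V]
  {W : Type*} [AddCommGroup W] [Module ℂ W] [FiniteDimensional ℂ W]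

/-- The sign of an irreducible representation agrees with the sign of a constituent of
multiplicity one of its restriction. -/
theorem sign_restrict_gen (f : H →* G) (ρ : Representation ℂ G V) (σ : Representation ℂ H W)
    [ρ.IsIrreducible] [σ.IsIrreducible]
    (hmult : Module.finrank ℂ (IntertwiningMap (ρ.comp f) σ) = 1)
    (f₀ : IntertwiningMap ρ ρ.dual) (hf₀ : f₀ ≠ 0)
    (B : IntertwiningMap σ σ.dual) (hB : B ≠ 0) (δ : ℂ) (hsymm : ∀ v w, B v w = δ * B w v)
    (i : IntertwiningMap σ (ρ.comp f)) (hi : i ≠ 0) :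
    ∃ v w : V, f₀ v w ≠ 0 ∧ f₀ v w = δ * f₀ w v := by
  have hinj : Function.Injective i := (IsIrreducible.injective_or_eq_zero i).resolve_right hi
  obtain ⟨p, hp⟩ := Cfsg.Agent.H705.Indicator.exists_retraction (ρ.comp f) σ i hinj
  have hf₀b := Cfsg.Agent.S0158.bijective_of_ne_zero ρ f₀ hf₀
  have hBb := Cfsg.Agent.S0158.bijective_of_ne_zero σ B hB
  have hsw : ∀ (g : G) (v w : V), f₀ (ρ g v) (ρ g w) = f₀ v w :=
    fun g v w => Cfsg.Agent.S0158.dual_swap ρ f₀ g v w
  -- the map `v ↦ (w ↦ f₀ v (i w))`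
  let q : IntertwiningMap (ρ.comp f) σ.dual :=
    LinearMap.intertwiningMap_of_isIntertwiningMap (ρ.comp f) σ.dual
      (LinearMap.compl₂ (show V →ₗ[ℂ] V →ₗ[ℂ] ℂ from f₀.toLinearMap) i.toLinearMap) (by
        intro h v
        ext w
        simp only [Representation.dual_apply, Module.Dual.transpose_apply, LinearMap.coe_comp,
          Function.comp_apply, LinearMap.compl₂_apply]
        have h1 := hsw (f h) v (i (σ h⁻¹ w))
        have h2 : i (σ h⁻¹ w) = ρ (f h⁻¹) (i w) := i.isIntertwining σ (ρ.comp f) h⁻¹ w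
        have h3 : ρ (f h) (i (σ h⁻¹ w)) = i w := by
          rw [h2, ← Module.End.mul_apply, ← map_mul, ← map_mul, mul_inv_cancel, map_one, map_one,
            Module.End.one_apply]
        rw [h3] at h1
        exact h1)
  have hq : ∀ v w, q v w = f₀ v (i w) := fun _ _ => rfl
  let e := B.ofBijective hBb
  have hp0 : p ≠ 0 := by
    intro h0
    obtain ⟨w, hw⟩ : ∃ w : W, w ≠ 0 := by
      by_contra hcon
      push Not at hcon
      apply hB
      apply IntertwiningMap.ext
      apply LinearMap.ext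
      intro v
      rw [hcon v]
      exact (map_zero B.toLinearMap)
    have h1 := hp w
    rw [h0] at h1
    exact hw h1.symm
  obtain ⟨c, hc⟩ := (finrank_eq_one_iff_of_nonzero' p hp0).1 hmult (e.symm.toIntertwiningMap.comp q)
  have hqc : ∀ v w, f₀ v (i w) = c * B (p v) w := by
    intro v w
    have h1 : e.symm (q v) = c • p v := by
      have := congrArg (fun k : IntertwiningMap (ρ.comp f) σ => k v) hc
      simpa only [_root_.Representation.IntertwiningMap.comp_apply, _root_.Representation.Equiv.coe_toIntertwiningMap, _root_.Representation.IntertwiningMap.coe_smul, _root_.Pi.smul_apply] using this.symm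
    have h2 : e (e.symm (q v)) = q v := Representation.Equiv.apply_symm_apply e (q v)
    rw [h1] at h2
    have h3 : e (c • p v) = c • B (p v) := by
      show B (c • p v) = c • B (p v)
      exact map_smul B c (p v)
    rw [h3] at h2
    rw [← hq v w, ← h2]
    rfl
  obtain ⟨w, w', hww⟩ : ∃ w w' : W, B w w' ≠ 0 := by
    by_contra hcon
    push Not at hcon
    apply hB
    apply IntertwiningMap.ext
    apply LinearMap.ext
    intro v
    apply LinearMap.ext
    intro w
    exact hcon v w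
  have hc0 : c ≠ 0 := by
    rintro rfl
    have hw' : w' ≠ 0 := by
      rintro rfl
      exact hww (map_zero (B w))
    have hiw : i w' ≠ 0 := fun h0 => hw' (hinj (by rw [h0]; exact (map_zero i.toLinearMap).symm))
    refine hiw ((Module.forall_dual_apply_eq_zero_iff ℂ (i w')).1 fun φ => ?_)
    obtain ⟨v, rfl⟩ := hf₀b.2 φ
    rw [hqc, zero_mul]
  refine ⟨i w, i w', ?_, ?_⟩
  · rw [hqc, hp]
    exact mul_ne_zero hc0 hww
  · rw [hqc, hqc, hp, hp, hsymm]
    ring

end rep

section char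

variable {G : Type*} [Group G] [Fintype G] {H : Type*} [Group H] [Fintype H]

/-- The space of invariant forms of a real irreducible representation is one dimensional. -/
theorem finrank_dual_of_real {n : ℕ} (ρ : Representation ℂ G (Fin n → ℂ)) [ρ.IsIrreducible]
    (hreal : ∀ g, (ρ.character g).im = 0) :
    (Module.finrank ℂ (IntertwiningMap ρ ρ.dual) : ℂ) = 1 := by
  haveI : Invertible (Nat.card G : ℂ) := invertibleOfNonzero (by
    exact_mod_cast Nat.card_pos.ne')
  have hinvρ : ∀ g : G, ρ.character g⁻¹ = ρ.character g := by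
    intro g
    rw [Cfsg.Agent.S0158.char_inv]
    exact Complex.conj_eq_iff_im.2 (hreal g)
  have hself : (Nat.card G : ℂ)⁻¹ * ∑ g : G, ρ.character g * ρ.character g⁻¹ = 1 := by
    rw [card_inv_mul_sum_char_mul_char_eq_finrank ρ ρ]
    simp
  rw [← Cfsg.Agent.H705.Indicator.finrank_dual, ← hself]
  simp only [hinvρ]

/-- **Indicators and restriction, from the group to the subgroup.** -/
theorem indicator_restrict_rev (f : H →* G) {χ : G → ℂ} (hχ : IsIrrCharacter G χ)
    (hreal : ∀ g, (χ g).im = 0) {ψ : H → ℂ} (hψ : IsIrrCharacter H ψ)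
    (hψreal : ∀ g, (ψ g).im = 0)
    (hν : (Nat.card G : ℂ)⁻¹ * ∑ s : G, χ (s * s) = 1)
    (hmult : classInner (fun h => χ (f h)) ψ = 1) :
    (Nat.card H : ℂ)⁻¹ * ∑ s : H, ψ (s * s) = 1 := by
  classical
  haveI : Invertible (Nat.card G : ℂ) := invertibleOfNonzero (by
    exact_mod_cast Nat.card_pos.ne')
  haveI : Invertible (Nat.card H : ℂ) := invertibleOfNonzero (by
    exact_mod_cast Nat.card_pos.ne')
  obtain ⟨n, ρ, hρ, rfl⟩ := hχ
  obtain ⟨m, σ, hσ, rfl⟩ := hψ
  obtain ⟨ε, hε, hε1, hε2⟩ := Cfsg.Agent.H705.Indicator.indicator_eq ρ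
  obtain ⟨δ, hδ, hδ1, hδ2⟩ := Cfsg.Agent.H705.Indicator.indicator_eq σ
  have hrank := finrank_dual_of_real ρ hreal
  have hrank' := finrank_dual_of_real σ hψreal
  rw [hrank, mul_one, hν] at hε2
  rw [hrank', mul_one] at hδ2
  subst hε2
  obtain ⟨B, hB⟩ := Cfsg.Agent.H705.Indicator.exists_ne_zero (n := m) (ρ := σ) (σ := σ.dual) (by
    intro h0
    rw [h0] at hrank'
    simp at hrank')
  obtain ⟨f₀, hf₀⟩ := Cfsg.Agent.H705.Indicator.exists_ne_zero (n := n) (ρ := ρ) (σ := ρ.dual) (by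
    intro h0
    rw [h0] at hrank
    simp at hrank)
  have hm1 : Module.finrank ℂ (IntertwiningMap σ (ρ.comp f)) = 1 := by
    have h1 := card_inv_mul_sum_char_mul_char_eq_finrank (k := ℂ) σ (ρ.comp f)
    have h2 : (Nat.card H : ℂ)⁻¹ * ∑ g : H, Representation.character (ρ.comp f) g * σ.character g⁻¹ = 1 := by
      rw [← hmult, Cfsg.Agent.H705.Indicator.classInner_eq_sum]
      congr 1
      refine Finset.sum_congr rfl fun g _ => ?_
      rw [Cfsg.Agent.S0158.char_inv]
      rfl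
    rw [h2] at h1
    exact_mod_cast h1.symm
  have hm2 : Module.finrank ℂ (IntertwiningMap (ρ.comp f) σ) = 1 := by
    have h1 := card_inv_mul_sum_char_mul_char_eq_finrank (k := ℂ) (ρ.comp f) σ
    have h2 : (Nat.card H : ℂ)⁻¹ * ∑ g : H, σ.character g * Representation.character (ρ.comp f) g⁻¹ = 1 := by
      rw [← map_one (starRingEnd ℂ), ← hmult, Cfsg.Agent.H705.Indicator.classInner_eq_sum, map_mul, map_inv₀,
        Complex.conj_natCast, map_sum]
      congr 1
      refine Finset.sum_congr rfl fun g _ => ?_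
      rw [Cfsg.Agent.S0158.char_inv, map_mul, Complex.conj_conj, mul_comm]
      rfl
    rw [h2] at h1
    exact_mod_cast h1.symm
  obtain ⟨i, hi⟩ := Cfsg.Agent.H705.Indicator.exists_ne_zero (n := m) (ρ := σ) (σ := ρ.comp f)
    (by rw [hm1]; norm_num)
  obtain ⟨v, w, hvw, hs⟩ := sign_restrict_gen f ρ σ hm2 f₀ hf₀ B hB δ (hδ1 B) i hi
  rw [hδ2]
  rcases hδ with h | h
  · exact h
  · exfalso
    have h1 := hε1 f₀ v w
    rw [one_mul] at h1
    rw [h, ← h1] at hs
    apply hvw
    linear_combination hs / 2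

end char

/-- Every irreducible character of a subgroup of index two is a constituent of multiplicity one of the
restriction of an irreducible character. -/
theorem exists_over_index_two {G : Type*} [Group G] [Fintype G] (N : Subgroup G) [Fintype N]
    (hN : N.index = 2) {ψ : N → ℂ} (hψ : IsIrrCharacter N ψ) :
    ∃ χ : G → ℂ, IsIrrCharacter G χ ∧ classInner (fun n : N => χ n) ψ = 1 := by
  classical
  obtain ⟨χ, hχ, hne⟩ : ∃ χ : G → ℂ, IsIrrCharacter G χ ∧ classInner (indFun N ψ) χ ≠ 0 := by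
    by_contra hcon
    push Not at hcon
    have h0 := classFunction_eq_zero (CharactersDeep.NormalInd.indFun_isClassFunction N ψ) hcon
    have h1 := CharactersDeep.NormalInd.indFun_one N ψ
    rw [h0, hN] at h1
    have h2 := isIrr_apply_one_ne_zero hψ
    apply h2
    have h3 : (0 : ℂ) = 2 * ψ 1 := by exact_mod_cast h1
    linear_combination -h3 / 2
  rw [CharactersDeep.NormalInd.classInner_indFun N ψ χ (isIrr_isClassFunction hχ)] at hne
  refine ⟨χ, hχ, ?_⟩
  have hres : IsCharacter N (fun n : N => χ n) := isCharacter_comp N.subtype (isIrr_isCharacter hχ)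
  obtain ⟨m, hm⟩ := classInner_isNat hres (isIrr_isCharacter hψ)
  have hm0 : m ≠ 0 := by
    rintro rfl
    apply hne
    rw [← classInner_conj_symm, hm]
    simp
  have hm' : classInner ψ (fun n : N => χ n) = m := by
    rw [← classInner_conj_symm, hm]
    simp
  -- Bessel
  have hB : ((m : ℝ) ^ 2 : ℝ) ≤ ((Nat.card N : ℝ)⁻¹ * ∑ n : N, Complex.normSq (χ n) : ℝ) := by
    have h1 := classInner_self_eq_ofReal (fun n : N => χ n)
    have h2 := classInner_self_eq_ofReal ((fun n : N => χ n) - (m : ℂ) • ψ)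
    rw [classInner_sub_left, classInner_sub_right, classInner_sub_right, classInner_smul_left,
      classInner_smul_right, classInner_smul_left, classInner_smul_right, classInner_irr_self hψ, hm, hm',
      h1] at h2
    rw [Complex.conj_natCast] at h2
    have h3 : ((Nat.card N : ℝ)⁻¹ * ∑ n : N, Complex.normSq (χ n) : ℝ) - (m : ℝ) ^ 2 =
        ((Nat.card N : ℝ)⁻¹ * ∑ g : N, Complex.normSq (((fun n : N => χ n) - (m : ℂ) • ψ) g) : ℝ) := by
      apply Complex.ofReal_injective
      rw [← h2]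
      push_cast
      ring
    have h4 : (0 : ℝ) ≤ ((Nat.card N : ℝ)⁻¹ *
        ∑ g : N, Complex.normSq (((fun n : N => χ n) - (m : ℂ) • ψ) g) : ℝ) :=
      mul_nonneg (inv_nonneg.2 (Nat.cast_nonneg _)) (Finset.sum_nonneg fun g _ => Complex.normSq_nonneg _)
    linarith only [h3, h4]
  have hG : ((Nat.card G : ℝ)⁻¹ * ∑ g : G, Complex.normSq (χ g) : ℝ) = 1 := by
    apply Complex.ofReal_injective
    rw [← classInner_self_eq_ofReal, classInner_irr_self hχ]
    simp
  have hle : ∑ n : N, Complex.normSq (χ n) ≤ ∑ g : G, Complex.normSq (χ g) := by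
    rw [← Finset.sum_subtype (Finset.univ.filter (fun g : G => g ∈ N)) (p := fun g : G => g ∈ N)
      (fun x => by simp) (fun g : G => Complex.normSq (χ g))]
    exact Finset.sum_le_sum_of_subset_of_nonneg (Finset.filter_subset _ _)
      fun g _ _ => Complex.normSq_nonneg _
  have hcard : (Nat.card G : ℝ) = Nat.card N * 2 := by
    rw [← Subgroup.card_mul_index N, hN]
    push_cast
    ring
  have hNpos : (0 : ℝ) < Nat.card N := by exact_mod_cast Nat.card_pos
  have hGsum : ∑ g : G, Complex.normSq (χ g) = Nat.card N * 2 := by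
    rw [hcard] at hG
    field_simp at hG
    linarith only [hG]
  have h2 : (m : ℝ) ^ 2 ≤ 2 := by
    refine hB.trans ?_
    rw [inv_mul_le_iff₀ hNpos]
    linarith only [hle, hGsum]
  have h3 : m ^ 2 ≤ 2 := by exact_mod_cast h2
  have h4 : m = 1 := by
    have : m < 2 := by nlinarith only [h3]
    omega
  rw [hm, h4, Nat.cast_one]

/-- **Subgroups of index two.** -/
theorem index_two {G : Type u} [Group G] [Finite G] (N : Subgroup G)
    (hN : N.index = 2) (h : FSGood False G) (hr : ∀ g : N, IsConj g g⁻¹) : FSGood False N := by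
  classical
  have := Fintype.ofFinite G
  have := Fintype.ofFinite N
  intro ψ hψ
  left
  obtain ⟨χ, hχ, hm⟩ := exists_over_index_two N hN hψ
  have hν : fsi χ = 1 := by
    rcases h χ hχ with h1 | h1
    · exact h1
    · exact h1.1.elim
  have hreal := real_of_fsi_ne_zero hχ (by rw [hν]; exact one_ne_zero)
  rw [fsi_eq_sum] at hν ⊢
  exact indicator_restrict_rev N.subtype hχ hreal hψ (im_eq_zero_of_isConj_inv hψ hr) hν hm

end Cfsg.Agent.H839.FR
end

-- part: H138/FR/Cover_mg
section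
prune_inst 0x100000112202000018001040201c0282000422000800000000030207800c0020820820a9a005000202084500300020020000200000000000000000011c00800000040080480108800098000000000000000000000000000000000000000000000000000
set_option linter.all false
open scoped Cfsg.Agent.FastGrp

-- part: H955/FSParity
section
/-!
# Parity of multiplicities in the restriction of a character with indicator `-1` (helper852, task B of FS_even)
-/

set_option autoImplicit false

namespace Cfsg.Agent.H955.FS

open Cfsg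
open Cfsg.Agent.Characters.Core Cfsg.Agent.Characters.Clifford
open Cfsg.Agent.H692.SqRoot
open scoped ComplexConjugate

universe u

theorem Parity.fsi_eq_nu {G : Type u} [Group G] [Fintype G] (χ : G → ℂ) : fsi χ = nu χ := by
  unfold fsi nu
  rw [finsum_eq_sum_of_fintype]

/-- splitting a function invariant under an involution -/
theorem Parity.exists_split {I : Type*} [Fintype I] (σ : I → I) (hσ : ∀ i, σ (σ i) = i) (m : I → ℕ)
    (hm : ∀ i, m (σ i) = m i) (h2 : ∀ i, σ i = i → Even (m i)) :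
    ∃ k : I → ℕ, ∀ i, k i + k (σ i) = m i := by
  classical
  let e := Fintype.equivFin I
  refine ⟨fun i => if e i < e (σ i) then m i else if σ i = i then m i / 2 else 0, fun i => ?_⟩
  simp only [hσ]
  rcases lt_trichotomy (e i) (e (σ i)) with h | h | h
  · rw [if_pos h, if_neg (not_lt.2 h.le), if_neg (fun h1 => absurd (congrArg e h1) h.ne), add_zero]
  · have h1 : σ i = i := (e.injective h).symm
    rw [h1, if_neg (lt_irrefl _), if_pos rfl]
    obtain ⟨k, hk⟩ := h2 i h1
    omega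
  · rw [if_neg (not_lt.2 h.le), if_neg (fun h1 => absurd (congrArg e h1) h.ne), if_pos h, zero_add, hm]

end Cfsg.Agent.H955.FS
end

-- part: H138/FR/Cover
section
/-!
# TEAM SR, second part (S4970): the covering principle with a central element

* `exists_half_gen` : parity for both signs of the indicator;
* `fsz_of_cover_odd`, `isom_of_cov_odd` : the covering principle, over the elements `c` of odd order.
-/

set_option autoImplicit false

universe u

namespace Cfsg.Agent.H138.FR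

open Cfsg Cfsg.Agent.H721.FR
open Cfsg.Agent.Characters.Core Cfsg.Agent.Characters.Clifford Cfsg.Agent.H692.SqRoot
open Cfsg.Agent.H955.FS (fsi Parity.fsi_eq_nu Parity.exists_split fsi_cases)
open scoped ComplexConjugate

/-- the multiplicity of a real character `ψ` in the restriction of a real character `χ` is even if the
indicators are different -/
theorem even_mult {G : Type u} [Group G] [Fintype G] {χ : G → ℂ} (hχ : IsIrrCharacter G χ)
    (hχr : ∀ g, (χ g).im = 0) (X : Subgroup G) [Fintype X] {ψ : X → ℂ} (hψ : IsIrrCharacter X ψ)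
    (hreal : ∀ x, conj (ψ x) = ψ x) (hν : nu χ * nu ψ ≠ 1) {m : ℕ}
    (hm : classInner (fun x : X => χ x) ψ = m) : Even m := by
  classical
  by_contra hodd
  rw [Nat.not_even_iff_odd] at hodd
  let Θ : G × X → ℂ := fun x => χ x.1 * ψ x.2
  have hΘ : IsIrrCharacter (G × X) Θ := (Cfsg.Agent.S0188.result Θ).2 ⟨χ, ψ, hχ, hψ, rfl⟩
  have hΘr : ∀ g, (Θ g).im = 0 := by
    intro g
    have h1 : (ψ g.2).im = 0 := Complex.conj_eq_iff_im.1 (hreal _)
    change (χ g.1 * ψ g.2).im = 0
    rw [Complex.mul_im, hχr, h1, mul_zero, zero_mul, add_zero]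
  have hΘν : nu Θ = nu χ * nu ψ := by
    unfold nu
    rw [Nat.card_prod, Fintype.sum_prod_type]
    simp only [Θ, Prod.mk_mul_mk]
    rw [← Finset.sum_mul_sum]
    push_cast
    rw [mul_inv]
    ring
  let δ : X →* G × X := X.subtype.prod (MonoidHom.id X)
  have hδ : Function.Injective δ := fun a b h => congrArg Prod.snd h
  let e : X ≃* δ.range := MonoidHom.ofInjective hδ
  have hfin : Fintype δ.range := Fintype.ofFinite _
  have h1 := Cfsg.Agent.H692.RealOver.nu_eq_one_of_odd_mult hΘ hΘr δ.range m hodd (by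
    rw [← classInner_comp_mulEquiv e, ← hm]
    unfold classInner
    congr 1
    refine Finset.sum_congr rfl fun x _ => ?_
    rw [hreal]
    simp only [Function.comp_apply, map_one, mul_one]
    rfl)
  rw [hΘν] at h1
  exact hν h1

/-- the restriction of a real character, when no real constituent has the same indicator -/
theorem exists_half_gen {G : Type u} [Group G] [Finite G] {χ : G → ℂ} (hχ : IsIrrCharacter G χ)
    (hr : ∀ g, (χ g).im = 0) (X : Subgroup G)
    (hX : ∀ ψ : X → ℂ, IsIrrCharacter X ψ → (∀ x, conj (ψ x) = ψ x) → ∑ᶠ x : X, χ x * conj (ψ x) ≠ 0 →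
      fsi χ * fsi ψ ≠ 1) :
    ∃ α : X → ℂ, IsCharacter X α ∧ ∀ x : X, χ x = α x + conj (α x) := by
  classical
  have hG := Fintype.ofFinite G
  have hfX := Fintype.ofFinite X
  have hχr : ∀ g, conj (χ g) = χ g := fun g => Complex.conj_eq_iff_im.2 (hr g)
  have := finite_irr (G := X)
  have hI := Fintype.ofFinite (IrrCharacter X)
  have hres : IsCharacter X (fun x : X => χ x) := isCharacter_restrict X (isIrr_isCharacter hχ)
  obtain ⟨m, hm⟩ := exists_nat_comb hres
  have hmult : ∀ ψ : IrrCharacter X, classInner (fun x : X => χ x) (ψ : X → ℂ) = m ψ := by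
    intro ψ
    rw [hm]
    exact classInner_sum_nsmul_irr m ψ
  let σ : IrrCharacter X → IrrCharacter X := fun ψ => ⟨fun x => conj ((ψ : X → ℂ) x), isIrr_conj ψ.2⟩
  have hσ : ∀ ψ, σ (σ ψ) = ψ := by
    intro ψ
    apply Subtype.ext
    funext x
    exact Complex.conj_conj _
  have hmσ : ∀ ψ, m (σ ψ) = m ψ := by
    intro ψ
    have h1 : (m (σ ψ) : ℂ) = m ψ := by
      rw [← hmult, ← hmult, classInner_def, classInner_def]
      have h2 : ∀ x : X, χ x * conj ((σ ψ : X → ℂ) x) = conj (χ x * conj ((ψ : X → ℂ) x)) := by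
        intro x
        rw [map_mul, hχr]
      simp only [h2]
      have h3 : (Nat.card X : ℂ)⁻¹ * ∑ x : X, conj (χ x * conj ((ψ : X → ℂ) x)) =
          conj ((Nat.card X : ℂ)⁻¹ * ∑ x : X, χ x * conj ((ψ : X → ℂ) x)) := by
        rw [map_mul, map_inv₀, map_natCast, map_sum]
      rw [h3, ← classInner_def (fun x : X => χ x), hmult, map_natCast]
    exact_mod_cast h1
  have heven : ∀ ψ, σ ψ = ψ → Even (m ψ) := by
    intro ψ hψ
    rcases Nat.eq_zero_or_pos (m ψ) with h0 | h0
    · rw [h0]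
      exact Even.zero
    · have hψr : ∀ x, conj ((ψ : X → ℂ) x) = (ψ : X → ℂ) x := fun x => congrFun (congrArg Subtype.val hψ) x
      refine even_mult hχ hr X ψ.2 hψr ?_ (hmult ψ)
      rw [← Parity.fsi_eq_nu, ← Parity.fsi_eq_nu]
      refine hX _ ψ.2 hψr ?_
      rw [finsum_eq_sum_of_fintype]
      intro h1
      have h2 := hmult ψ
      rw [classInner_def, h1, mul_zero] at h2
      have h3 : m ψ = 0 := by exact_mod_cast h2.symm
      omega
  obtain ⟨k, hk⟩ := Parity.exists_split σ hσ m hmσ heven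
  refine ⟨∑ ψ : IrrCharacter X, k ψ • (ψ : X → ℂ), isCharacter_sum _ fun ψ _ =>
    isCharacter_nsmul _ (isIrr_isCharacter ψ.2), fun x => ?_⟩
  have h1 : χ x = ∑ ψ : IrrCharacter X, (m ψ : ℂ) * (ψ : X → ℂ) x := by
    have h2 := congrFun hm x
    rw [h2, Finset.sum_apply]
    refine Finset.sum_congr rfl fun ψ _ => ?_
    rw [Pi.smul_apply, nsmul_eq_mul]
  have h2 : (∑ ψ : IrrCharacter X, k ψ • (ψ : X → ℂ)) x = ∑ ψ : IrrCharacter X, (k ψ : ℂ) * (ψ : X → ℂ) x := by
    rw [Finset.sum_apply]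
    refine Finset.sum_congr rfl fun ψ _ => ?_
    rw [Pi.smul_apply, nsmul_eq_mul]
  have h3 : conj (∑ ψ : IrrCharacter X, (k ψ : ℂ) * (ψ : X → ℂ) x) =
      ∑ ψ : IrrCharacter X, (k (σ ψ) : ℂ) * (ψ : X → ℂ) x := by
    rw [map_sum]
    refine Fintype.sum_equiv ⟨σ, σ, hσ, hσ⟩ _ _ fun ψ => ?_
    rw [map_mul, map_natCast]
    change _ = (k (σ (σ ψ)) : ℂ) * (σ ψ : X → ℂ) x
    rw [hσ]
  rw [h2, h3, h1, ← Finset.sum_add_distrib]
  refine Finset.sum_congr rfl fun ψ _ => ?_
  rw [← hk ψ]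
  push_cast
  ring

/-- central elements act by scalars -/
theorem exists_central {G : Type u} [Group G] [Finite G] {χ : G → ℂ} (hχ : IsIrrCharacter G χ) {z : G}
    (hzc : ∀ g, g * z = z * g) (hz : z * z = 1) :
    ∃ w : ℂ, (w = 1 ∨ w = -1) ∧ ∀ g : G, χ (z * g) = w * χ g := by
  have h0 : χ 1 ≠ 0 := by
    obtain ⟨d, hd, hd1⟩ := isIrr_apply_one hχ
    rw [hd1]
    exact_mod_cast hd.ne'
  obtain ⟨n, ρ, hρ, rfl⟩ := hχ
  obtain ⟨c, hc⟩ := Characters.Central.exists_smul_of_comm ρ hρ (ρ z) (fun g => by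
    rw [← map_mul, ← map_mul, hzc g])
  have h1 : ∀ h : G, ρ.character (z * h) = c * ρ.character h := by
    intro h
    change LinearMap.trace ℂ _ (ρ (z * h)) = c * LinearMap.trace ℂ _ (ρ h)
    rw [map_mul, hc, smul_mul_assoc, one_mul, map_smul, smul_eq_mul]
  refine ⟨c, ?_, h1⟩
  have h2 : c * c = 1 := by
    have h3 : ρ.character (z * (z * 1)) = c * (c * ρ.character 1) := by rw [h1, h1]
    rw [← mul_assoc, hz, one_mul] at h3
    apply mul_right_cancel₀ h0
    rw [one_mul, mul_assoc]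
    exact h3.symm
  exact mul_self_eq_one_iff.1 h2

/-- extending a `2`-subgroup with a property to a maximal one -/
theorem exists_max {G : Type u} [Group G] [Finite G] (Q : Subgroup G → Prop) (P : Subgroup G) (hP : Q P) :
    ∃ M : Subgroup G, P ≤ M ∧ Q M ∧ ∀ M' : Subgroup G, M ≤ M' → Q M' → M' = M := by
  obtain ⟨M, hPM, hM⟩ := (Set.toFinite {K : Subgroup G | Q K}).exists_le_maximal hP
  exact ⟨M, hPM, hM.prop, fun M' h1 h2 => le_antisymm (hM.le_of_ge h2 h1) h1⟩

/-- **The covering principle with a central element `z` of order at most two.** -/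
theorem fsz_of_cover_odd' {G : Type u} [Group G] [Finite G] (z : G) (hzc : ∀ g, g * z = z * g) (hz : z * z = 1)
    (h : ∀ c : G, Odd (orderOf c) → ∀ P : Subgroup G, IsPGroup 2 P →
      (∀ g ∈ P, g * c * g⁻¹ = c ∨ g * c * g⁻¹ = c⁻¹) →
      (∃ g ∈ P, g * c * g⁻¹ = c⁻¹) →
      (∀ P' : Subgroup G, P ≤ P' → IsPGroup 2 P' → (∀ g ∈ P', g * c * g⁻¹ = c ∨ g * c * g⁻¹ = c⁻¹) → P' = P) →
      ∃ Y : Subgroup G, c ∈ Y ∧ P ≤ Y ∧ FSZs Y z) : FSZ z := by
  intro χ hχ hbad
  have h0 : χ 1 ≠ 0 := by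
    obtain ⟨d, hd, hd1⟩ := isIrr_apply_one hχ
    rw [hd1]
    exact_mod_cast hd.ne'
  obtain ⟨w, hw, hχw⟩ := exists_central hχ hzc hz
  have hχz : χ z = w * χ 1 := by
    rw [← hχw, mul_one]
  have hfw : fsi χ * w = -1 := by
    apply mul_right_cancel₀ h0
    rw [mul_assoc, ← hχz, hbad]
    ring
  have hww : w * w = 1 := by
    rcases hw with rfl | rfl <;> norm_num
  have hreal : ∀ g, (χ g).im = 0 := by
    apply Cfsg.Agent.H955.FS.real_of_fsi_ne_zero hχ
    intro h1
    rw [h1, zero_mul] at hfw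
    norm_num at hfw
  have hff : fsi χ * fsi χ = 1 := by
    rcases fsi_cases hχ with h1 | h1 | h1
    · rw [h1, zero_mul] at hfw
      norm_num at hfw
    · rw [h1]; norm_num
    · rw [h1]; norm_num
  obtain ⟨c, P, hc, hP, hcP, ⟨t, htP, ht⟩, hnot⟩ := H592.FSPar.exists_not_half_real hχ hreal
  obtain ⟨M, hPM, ⟨hM2, hMc⟩, hMm⟩ := exists_max
    (fun K : Subgroup G => IsPGroup 2 K ∧ ∀ g ∈ K, g * c * g⁻¹ = c ∨ g * c * g⁻¹ = c⁻¹) P ⟨hP, hcP⟩
  obtain ⟨Y, hcY, hMY, hzY, hY⟩ := h c hc M hM2 hMc ⟨t, hPM htP, ht⟩ fun P' h1 h2 h3 => hMm P' h1 ⟨h2, h3⟩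
  refine hnot Y hcY (hPM.trans hMY) ?_
  refine exists_half_gen hχ hreal Y fun ψ hψ hψr hne h1 => ?_
  have := Fintype.ofFinite Y
  obtain ⟨w', hw', hψw⟩ := exists_central hψ (z := (⟨z, hzY⟩ : Y)) (fun g => Subtype.ext (hzc g)) (Subtype.ext hz)
  have hw'w' : w' * w' = 1 := by
    rcases hw' with rfl | rfl <;> norm_num
  have hw'c : conj w' = w' := by
    rcases hw' with rfl | rfl <;> simp
  -- the scalars agree
  have hS : ∑ x : Y, χ x * conj (ψ x) = w * w' * ∑ x : Y, χ x * conj (ψ x) := by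
    rw [Finset.mul_sum]
    refine (Fintype.sum_equiv (Equiv.mulLeft (⟨z, hzY⟩ : Y)) _ _ fun x => ?_)
    have h2 : χ (((⟨z, hzY⟩ : Y) * x : Y) : G) = w * χ x := hχw x
    have h3 : ψ ((⟨z, hzY⟩ : Y) * x) = w' * ψ x := hψw x
    rw [Equiv.coe_mulLeft, h2, h3, map_mul, hw'c]
    calc χ x * conj (ψ x) = (w * w) * (w' * w') * (χ x * conj (ψ x)) := by rw [hww, hw'w']; ring
      _ = _ := by ring
  have hw1 : w * w' = 1 := by
    rw [finsum_eq_sum_of_fintype] at hne
    apply mul_right_cancel₀ hne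
    rw [one_mul]
    exact hS.symm
  have hw2 : w' = w := by
    calc w' = (w * w) * w' := by rw [hww, one_mul]
      _ = w * (w * w') := by ring
      _ = w := by rw [hw1, mul_one]
  have hψz : ψ ⟨z, hzY⟩ = w * ψ 1 := by
    rw [← hw2, ← hψw, mul_one]
  refine hY ψ hψ ?_
  have h4 : fsi ψ = fsi χ := by
    calc fsi ψ = (fsi χ * fsi χ) * fsi ψ := by rw [hff, one_mul]
      _ = fsi χ * (fsi χ * fsi ψ) := by ring
      _ = fsi χ := by rw [h1, mul_one]
  rw [h4, hψz, ← mul_assoc, hfw]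
  ring

/-! ### transport -/

theorem FSZ.congr {G H : Type u} [Group G] [Group H] [Finite G] (e : G ≃* H) {z : G} (h : FSZ z) :
    FSZ (e z) := by
  intro χ hχ h1
  refine h (χ ∘ e.toMonoidHom) (isIrr_comp e.toMonoidHom e.surjective hχ) ?_
  rw [Cfsg.Agent.H955.FS.fsi_comp e.toMonoidHom e.surjective]
  have h2 : (χ ∘ e.toMonoidHom) 1 = χ 1 := by
    change χ (e 1) = χ 1
    rw [map_one]
  rw [h2]
  exact h1


/-- The covering principle for a subgroup of an ambient group. -/
theorem fszs_of_cover_amb {Γ : Type u} [Group Γ] (G : Subgroup Γ) [Finite G] {z : Γ} (hzG : z ∈ G)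
    (hzc : ∀ g ∈ G, g * z = z * g) (hz : z * z = 1)
    (h : ∀ c ∈ G, Odd (orderOf c) → ∀ P : Subgroup Γ, P ≤ G → IsPGroup 2 P →
      (∀ g ∈ P, g * c * g⁻¹ = c ∨ g * c * g⁻¹ = c⁻¹) → (∃ g ∈ P, g * c * g⁻¹ = c⁻¹) →
      (∀ P' : Subgroup Γ, P ≤ P' → P' ≤ G → IsPGroup 2 P' →
        (∀ g ∈ P', g * c * g⁻¹ = c ∨ g * c * g⁻¹ = c⁻¹) → P' = P) →
      ∃ Y : Subgroup Γ, Y ≤ G ∧ c ∈ Y ∧ P ≤ Y ∧ FSZs Y z) :
    FSZs G z := by
  refine ⟨hzG, fsz_of_cover_odd' _ (fun g => Subtype.ext (hzc g g.2)) (Subtype.ext hz) fun c hc P hP hcP ht hm => ?_⟩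
  obtain ⟨t, htP, ht⟩ := ht
  obtain ⟨Y, hYG, hcY, hPY, hzY, hY⟩ := h c c.2 (by rwa [Subgroup.orderOf_coe]) (P.map G.subtype)
    (by
      rintro _ ⟨x, -, rfl⟩
      exact x.2)
    (hP.map G.subtype)
    (by
      rintro _ ⟨x, hx, rfl⟩
      rcases hcP x hx with h | h
      · exact Or.inl (congrArg Subtype.val h)
      · exact Or.inr (congrArg Subtype.val h))
    ⟨t, ⟨t, htP, rfl⟩, congrArg Subtype.val ht⟩
    (by
      intro P' h1 h2 h3 h4
      have h5 : P ≤ P'.subgroupOf G := by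
        intro x hx
        exact Subgroup.mem_subgroupOf.2 (h1 ⟨x, hx, rfl⟩)
      have h6 := hm (P'.subgroupOf G) h5 (h3.comap_of_injective G.subtype G.subtype_injective) (by
        intro g hg
        rcases h4 g (Subgroup.mem_subgroupOf.1 hg) with h | h
        · exact Or.inl (Subtype.ext h)
        · exact Or.inr (Subtype.ext h))
      rw [← h6, Subgroup.subgroupOf_map_subtype, inf_eq_left.2 h2])
  refine ⟨Y.subgroupOf G, Subgroup.mem_subgroupOf.2 hcY, fun x hx => ?_, Subgroup.mem_subgroupOf.2 hzY, ?_⟩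
  · exact Subgroup.mem_subgroupOf.2 (hPY ⟨x, hx, rfl⟩)
  · have : Finite Y := Finite.of_injective (Subgroup.inclusion hYG)
      (Subgroup.inclusion_injective hYG)
    exact FSZ.congr (Subgroup.subgroupOfEquivOfLe hYG).symm hY

/-! ### the geometric form -/

section Geo

variable {F V : Type u} [Field F] [AddCommGroup V] [Module F V]

theorem finite_gl [Finite F] [FiniteDimensional F V] : Finite (V ≃ₗ[F] V) := by
  have : Finite V := Module.finite_of_finite F
  exact Finite.of_injective (fun g : V ≃ₗ[F] V => (g : V → V)) DFunLike.coe_injective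

theorem zel_comm (ε : F) (g : V ≃ₗ[F] V) : g * zel V ε = zel V ε * g := by
  unfold zel
  split_ifs with h
  · rw [mul_one, one_mul]
  · apply LinearEquiv.ext
    intro x
    change g (-x) = - g x
    rw [map_neg]

theorem zel_sq (ε : F) : zel V ε * zel V ε = 1 := by
  unfold zel
  split_ifs with h
  · rw [mul_one]
  · apply LinearEquiv.ext
    intro x
    change - (-x) = x
    rw [neg_neg]

theorem zel_mem (ε : F) (B : V →ₗ[F] V →ₗ[F] F) : zel V ε ∈ Isom B := by
  intro x y
  unfold zel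
  split_ifs with h
  · rfl
  · change B (-x) (-y) = B x y
    rw [map_neg, map_neg, LinearMap.neg_apply, neg_neg]

/-- **the covering principle**, for the elements `c` of odd order which are inverted by an element of `P` -/
theorem isom_of_cov_odd' [Finite F] [FiniteDimensional F V] {B : V →ₗ[F] V →ₗ[F] F} {ε : F}
    (h : ∀ (c : V ≃ₗ[F] V) (P : Subgroup (V ≃ₗ[F] V)), c ∈ Isom B → Odd (orderOf c) →
      (∃ g ∈ P, g * c * g⁻¹ = c⁻¹) → Mx B c P → Cov B ε c P) : FSZs (Isom B) (zel V ε) := by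
  have := finite_gl (F := F) (V := V)
  refine fszs_of_cover_amb (Isom B) (zel_mem ε B) (fun g _ => zel_comm ε g) (zel_sq ε)
    fun c hc ho P h1 h2 h3 h4 h5 => ?_
  exact h c P hc ho h4 ⟨h1, h2, h3, h5⟩

/-- **the covering principle**, for the elements `c` of odd order -/
theorem isom_of_cov_odd [Finite F] [FiniteDimensional F V] {B : V →ₗ[F] V →ₗ[F] F} {ε : F}
    (h : ∀ (c : V ≃ₗ[F] V) (P : Subgroup (V ≃ₗ[F] V)), c ∈ Isom B → Odd (orderOf c) →
      Mx B c P → Cov B ε c P) : FSZs (Isom B) (zel V ε) :=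
  isom_of_cov_odd' fun c P h1 h2 _ h3 => h c P h1 h2 h3

end Geo

end Cfsg.Agent.H138.FR
end

-- part: H467/FRSmall
section
/-!
# S4970, task FR-SMALL: `Hyp 0`, `Hyp 1`, `Hyp 2`

* `fsz_of_sq`: if for some `t` and all `g` one of `g`, `t g` has square `z` then `FSZ z` (counting squares);
* `hyp_zero`, `hyp_one`, `fszs_two_one` (dimension two, `ε = 1`);
* `cov_two` : the covering condition in dimension two, `ε = -1`; `hyp_two_of` : `Hyp 2` from the cover principle.
-/

set_option autoImplicit false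

universe u

namespace Cfsg.Agent.H467.FRSmall

open Cfsg Cfsg.Agent.H955.FS Cfsg.Agent.H721.FR Module

theorem norm_le_of_isIrr {G : Type u} [Group G] [Finite G] {χ : G → ℂ} (hχ : IsIrrCharacter G χ)
    {n : ℕ} (hn : χ 1 = n) (x : G) : ‖χ x‖ ≤ n := by
  obtain ⟨m, ρ, rfl⟩ := Characters.Core.isIrr_isCharacter hχ
  have h1 := Characters.Values.norm_character_le ρ x
  have h2 : ρ.character 1 = (Module.finrank ℂ (Fin m → ℂ) : ℂ) := Representation.char_one ρ
  rw [hn] at h2
  have h3 : n = Module.finrank ℂ (Fin m → ℂ) := by exact_mod_cast h2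
  rw [h3]
  exact h1

/-- **Counting squares.** -/
theorem fsz_of_sq {G : Type u} [Group G] [Finite G] (z t : G)
    (h : ∀ g : G, g * g = z ∨ (t * g) * (t * g) = z) : FSZ z := by
  classical
  have := Fintype.ofFinite G
  intro χ hχ h0
  obtain ⟨n, hn, hn1⟩ := Characters.Core.isIrr_apply_one hχ
  have hb : ∀ x : G, |(χ x).re| ≤ n := fun x =>
    (Complex.abs_re_le_norm _).trans (norm_le_of_isIrr hχ hn1 x)
  have hcard : (Nat.card G : ℂ) ≠ 0 := by exact_mod_cast Nat.card_pos.ne'
  have hsum : (Nat.card G : ℂ) * fsi χ = ∑ s : G, χ (s * s) := by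
    rw [fsi_eq_sum, ← mul_assoc, mul_inv_cancel₀ hcard, one_mul]
  have hsum2 : 2 * ((Nat.card G : ℂ) * fsi χ) = ∑ s : G, (χ (s * s) + χ ((t * s) * (t * s))) := by
    rw [Finset.sum_add_distrib, hsum, two_mul]
    congr 1
    exact (Fintype.sum_bijective (fun s : G => t * s) (Group.mulLeft_bijective t)
      (fun s => χ ((t * s) * (t * s))) (fun s => χ (s * s)) (fun s => rfl)).symm
  have hpos : (0 : ℝ) < Nat.card G := by exact_mod_cast Nat.card_pos
  rcases fsi_cases hχ with h1 | h1 | h1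
  · rw [h1, zero_mul, hn1] at h0
    have : (n : ℂ) = 0 := by linear_combination h0
    exact hn.ne' (by exact_mod_cast this)
  · rw [h1, one_mul, hn1] at h0
    rw [h1, mul_one] at hsum2
    have h2 : ∀ s : G, (χ (s * s) + χ ((t * s) * (t * s))).re ≤ 0 := by
      intro s
      rw [Complex.add_re]
      have hz : (χ z).re = -n := by
        rw [h0]
        simp
      rcases h s with h3 | h3
      · rw [h3, hz]
        have := (abs_le.1 (hb ((t * s) * (t * s)))).2
        linarith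
      · rw [h3, hz]
        have := (abs_le.1 (hb (s * s))).2
        linarith
    have h3 := congrArg Complex.re hsum2
    rw [Complex.re_sum] at h3
    have h4 : ∑ s : G, (χ (s * s) + χ ((t * s) * (t * s))).re ≤ 0 :=
      Finset.sum_nonpos fun s _ => h2 s
    rw [← h3] at h4
    have h5 : ((2 : ℂ) * (Nat.card G : ℂ)).re = 2 * (Nat.card G : ℝ) := by simp
    rw [h5] at h4
    linarith
  · rw [h1, hn1] at h0
    rw [h1] at hsum2
    have hz : (χ z).re = n := by
      have : χ z = n := by linear_combination -h0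
      rw [this]
      simp
    have h2 : ∀ s : G, 0 ≤ (χ (s * s) + χ ((t * s) * (t * s))).re := by
      intro s
      rw [Complex.add_re]
      rcases h s with h3 | h3
      · rw [h3, hz]
        have := (abs_le.1 (hb ((t * s) * (t * s)))).1
        linarith
      · rw [h3, hz]
        have := (abs_le.1 (hb (s * s))).1
        linarith
    have h3 := congrArg Complex.re hsum2
    rw [Complex.re_sum] at h3
    have h4 : 0 ≤ ∑ s : G, (χ (s * s) + χ ((t * s) * (t * s))).re :=
      Finset.sum_nonneg fun s _ => h2 s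
    rw [← h3] at h4
    have h5 : ((2 : ℂ) * ((Nat.card G : ℂ) * -1)).re = - (2 * (Nat.card G : ℝ)) := by simp
    rw [h5] at h4
    linarith

/-- the same for a subgroup of an ambient group -/
theorem fszs_of_sq {Γ : Type u} [Group Γ] (Y : Subgroup Γ) [Finite Y] {z t : Γ} (hz : z ∈ Y)
    (ht : t ∈ Y) (h : ∀ g ∈ Y, g * g = z ∨ (t * g) * (t * g) = z) : FSZs Y z := by
  refine ⟨hz, fsz_of_sq _ ⟨t, ht⟩ fun g => ?_⟩
  rcases h g g.2 with h1 | h1
  · exact Or.inl (Subtype.ext h1)
  · exact Or.inr (Subtype.ext h1)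

/-! ### Geometry -/

section Geo

variable {F V : Type u} [Field F] [AddCommGroup V] [Module F V]

theorem zel_one : zel V (1 : F) = 1 := by
  unfold zel
  rw [if_pos rfl]

theorem zel_neg_one (h2 : (2 : F) ≠ 0) : zel V (-1 : F) = LinearEquiv.neg F := by
  unfold zel
  rw [if_neg]
  intro h
  apply h2
  linear_combination -h

theorem neg_mem_isom (B : V →ₗ[F] V →ₗ[F] F) : (LinearEquiv.neg F : V ≃ₗ[F] V) ∈ Isom B := by
  intro x y
  simp

theorem zel_mem_isom (B : V →ₗ[F] V →ₗ[F] F) (ε : F) : zel V ε ∈ Isom B := by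
  unfold zel
  split_ifs
  · exact one_mem _
  · exact neg_mem_isom B

instance finite_end [Finite F] [FiniteDimensional F V] : Finite (V ≃ₗ[F] V) := by
  have : Finite V := Module.finite_of_finite F
  exact Finite.of_injective (fun g : V ≃ₗ[F] V => (g : V → V)) DFunLike.coe_injective

/-! ### coordinates in dimension two -/

theorem exists_coord [FiniteDimensional F V] (hd : finrank F V = 2) {u w : V}
    (h : ∀ a b : F, a • u + b • w = 0 → a = 0 ∧ b = 0) (x : V) : ∃ a b : F, x = a • u + b • w := by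
  have hli : LinearIndependent F ![u, w] := LinearIndependent.pair_iff.2 h
  have hs := hli.span_eq_top_of_card_eq_finrank (by rw [hd]; rfl)
  have hx : x ∈ Submodule.span F (Set.range ![u, w]) := by
    rw [hs]
    exact Submodule.mem_top
  rw [Matrix.range_cons, Matrix.range_cons, Matrix.range_empty, Set.union_empty,
    Set.singleton_union, Submodule.mem_span_pair] at hx
  obtain ⟨a, b, h1⟩ := hx
  exact ⟨a, b, h1.symm⟩

/-! ### dimension zero and one -/

theorem hyp_zero : Hyp.{u} 0 := by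
  intro F V _ _ _ _ _ B ε hF hd
  have hV : Subsingleton V := Module.finrank_zero_iff.1 hd
  refine fszs_of_sq (Isom B) (zel_mem_isom B ε) (one_mem _) fun g _ => Or.inl ?_
  exact LinearEquiv.ext fun x => Subsingleton.elim _ _

theorem hyp_one : Hyp.{u} 1 := by
  intro F V _ _ _ _ _ B ε hF hd
  obtain ⟨v, hv, hs⟩ := finrank_eq_one_iff'.1 hd
  have hB : B v v ≠ 0 := by
    intro h
    apply hv
    refine hF.nondeg v fun y => ?_
    obtain ⟨a, rfl⟩ := hs y
    rw [map_smul, h, smul_zero]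
  rcases hF.eps with h1 | ⟨h1, -⟩
  · subst h1
    rw [show zel V (1 : F) = 1 from zel_one]
    refine fszs_of_sq (Isom B) (one_mem _) (one_mem _) fun g hg => Or.inl ?_
    obtain ⟨a, ha⟩ := hs (g v)
    have h2 : a * a = 1 := by
      have h3 := hg v v
      rw [← ha] at h3
      simp only [map_smul, LinearMap.smul_apply, smul_eq_mul] at h3
      apply mul_right_cancel₀ hB
      linear_combination h3
    refine LinearEquiv.ext fun x => ?_
    obtain ⟨b, rfl⟩ := hs x
    show g (g (b • v)) = b • v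
    rw [map_smul, ← ha, smul_smul, map_smul, ← ha, smul_smul, mul_assoc, h2, mul_one]
  · exfalso
    have h2 := hF.symm v v
    rw [h1] at h2
    apply hB
    apply (mul_eq_zero.1 (show (2 : F) * B v v = 0 by linear_combination h2)).resolve_left hF.two

/-! ### dimension two, `ε = 1` -/

/-- a non-isotropic vector -/
theorem exists_anis {B : V →ₗ[F] V →ₗ[F] F} (hF : Fm B 1) (hne : ∃ v : V, v ≠ 0) :
    ∃ u, B u u ≠ 0 := by
  by_contra hcon
  push Not at hcon
  obtain ⟨v, hv⟩ := hne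
  apply hv
  refine hF.nondeg v fun y => ?_
  have h1 := hcon (v + y)
  simp only [map_add, LinearMap.add_apply] at h1
  rw [hcon v, hcon y, hF.symm y v] at h1
  exact (mul_eq_zero.1 (show (2 : F) * B v y = 0 by linear_combination h1)).resolve_left hF.two

theorem fszs_two_one [Finite F] [FiniteDimensional F V] {B : V →ₗ[F] V →ₗ[F] F} (hF : Fm B 1)
    (hd : finrank F V = 2) : FSZs (Isom B) (zel V (1 : F)) := by
  have hne : ∃ v : V, v ≠ 0 := by
    have : Nontrivial V := Module.nontrivial_of_finrank_pos (R := F) (by omega)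
    exact exists_ne 0
  obtain ⟨u, hu⟩ := exists_anis hF hne
  have hsym : ∀ x y, B x y = B y x := fun x y => by rw [hF.symm x y, one_mul]
  -- a vector outside the line of `u`
  have hy : ∃ y : V, ∀ a : F, y ≠ a • u := by
    by_contra hcon
    push Not at hcon
    have h1 : finrank F V ≤ 1 := finrank_le_one u fun w => by
      obtain ⟨a, ha⟩ := hcon w
      exact ⟨a, ha.symm⟩
    omega
  obtain ⟨y, hy⟩ := hy
  obtain ⟨w, hw, hwu⟩ : ∃ w : V, w ≠ 0 ∧ B u w = 0 := by
    refine ⟨y - (B u y / B u u) • u, sub_ne_zero.2 (hy _), ?_⟩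
    rw [map_sub, map_smul, smul_eq_mul, div_mul_cancel₀ _ hu, sub_self]
  have hwu' : B w u = 0 := by rw [hsym, hwu]
  have hli : ∀ a b : F, a • u + b • w = 0 → a = 0 ∧ b = 0 := by
    intro a b hab
    have h1 : a = 0 := by
      have h2 := congrArg (B u) hab
      rw [map_add, map_smul, map_smul, hwu, map_zero, smul_zero, add_zero, smul_eq_mul] at h2
      exact (mul_eq_zero.1 h2).resolve_right hu
    refine ⟨h1, ?_⟩
    rw [h1, zero_smul, zero_add] at hab
    exact (smul_eq_zero.1 hab).resolve_right hw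
  have hco := exists_coord hd hli
  have hw2 : B w w ≠ 0 := by
    intro h
    apply hw
    refine hF.nondeg w fun x => ?_
    obtain ⟨a, b, rfl⟩ := hco x
    simp [hwu', h]
  -- Parseval
  have hpar : ∀ x, B w w * (B x u) ^ 2 + B u u * (B x w) ^ 2 = B u u * B w w * B x x := by
    intro x
    obtain ⟨a, b, rfl⟩ := hco x
    simp only [map_add, map_smul, LinearMap.add_apply, LinearMap.smul_apply, smul_eq_mul, hwu, hwu']
    ring
  -- self-adjoint isometries are involutions
  have hinv : ∀ g ∈ Isom B, B (g u) w = B u (g w) → g * g = 1 := by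
    intro g hg h
    have hsa : ∀ x y, B (g x) y = B x (g y) := by
      intro x y
      obtain ⟨a, b, rfl⟩ := hco x
      obtain ⟨a', b', rfl⟩ := hco y
      simp only [map_add, map_smul, LinearMap.add_apply, LinearMap.smul_apply, smul_eq_mul]
      rw [hsym (g u) u, hsym (g w) w, h, hsym (g w) u, ← h, hsym w (g u)]
    refine LinearEquiv.ext fun x => ?_
    show g (g x) = x
    refine sub_eq_zero.1 (hF.nondeg _ fun y => ?_)
    rw [map_sub, LinearMap.sub_apply, hsa, hg, sub_self]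
  -- the reflection
  let f : V →ₗ[F] F := (2 / B w w) • B.flip w
  have hf : ∀ x, f x = 2 / B w w * B x w := fun x => rfl
  have hfw : f w = 2 := by rw [hf, div_mul_cancel₀ _ hw2]
  let t : V ≃ₗ[F] V := Module.reflection hfw
  have ht : ∀ x, t x = x - (2 / B w w * B x w) • w := fun x => by
    show Module.reflection hfw x = _
    rw [Module.reflection_apply, hf]
  have htB : ∀ x y, B (t x) y = B x (t y) := by
    intro x y
    rw [ht, ht]
    simp only [map_sub, map_smul, LinearMap.sub_apply, LinearMap.smul_apply, smul_eq_mul]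
    rw [hsym w y]
    ring
  have htu : t u = u := by rw [ht, hwu, mul_zero, zero_smul, sub_zero]
  have htw : t w = -w := by
    rw [ht, div_mul_cancel₀ _ hw2, two_smul]
    abel
  have htt : ∀ x, t (t x) = x := fun x => Module.involutive_reflection hfw x
  have htm : t ∈ Isom B := by
    intro x y
    rw [htB, htt]
  rw [zel_one]
  refine fszs_of_sq (Isom B) (one_mem _) htm fun g hg => ?_
  have hsq : (B (g u) w) ^ 2 = (B u (g w)) ^ 2 := by
    have h1 := hpar (g u)
    have h2 := hpar (g⁻¹ u)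
    have h3 : B (g⁻¹ u) (g⁻¹ u) = B u u := (inv_mem hg) u u
    have h4 : ∀ z, B (g⁻¹ u) z = B u (g z) := fun z => by
      rw [← hg (g⁻¹ u) z]
      congr 2
      exact LinearEquiv.apply_symm_apply g u
    rw [hg u u] at h1
    rw [h3, h4, h4, ← hsym (g u) u] at h2
    apply mul_left_cancel₀ hu
    linear_combination h1 - h2
  rcases sq_eq_sq_iff_eq_or_eq_neg.1 hsq with h | h
  · exact Or.inl (hinv g hg h)
  · right
    refine hinv (t * g) (mul_mem htm hg) ?_
    show B (t (g u)) w = B u (t (g w))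
    rw [htB, htw, map_neg, h, neg_neg, ← htB, htu]

/-! ### dimension two, `ε = -1` -/

/-- the isometries centralising or inverting `c` -/
def invC (B : V →ₗ[F] V →ₗ[F] F) (c : V ≃ₗ[F] V) : Subgroup (V ≃ₗ[F] V) where
  carrier := {g | g ∈ Isom B ∧ (g * c * g⁻¹ = c ∨ g * c * g⁻¹ = c⁻¹)}
  mul_mem' := by
    rintro a b ⟨ha, ha'⟩ ⟨hb, hb'⟩
    refine ⟨mul_mem ha hb, ?_⟩
    have h1 : a * b * c * (a * b)⁻¹ = a * (b * c * b⁻¹) * a⁻¹ := by group
    rw [h1]
    rcases hb' with h | h
    · rw [h]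
      exact ha'
    · rw [h]
      have h2 : a * c⁻¹ * a⁻¹ = (a * c * a⁻¹)⁻¹ := by group
      rw [h2]
      rcases ha' with h | h
      · rw [h]
        exact Or.inr rfl
      · rw [h, inv_inv]
        exact Or.inl rfl
  one_mem' := ⟨one_mem _, Or.inl (by group)⟩
  inv_mem' := by
    rintro a ⟨ha, ha'⟩
    refine ⟨inv_mem ha, ?_⟩
    rw [inv_inv]
    rcases ha' with h | h
    · left
      calc a⁻¹ * c * a = a⁻¹ * (a * c * a⁻¹) * a := by rw [h]
        _ = c := by group
    · right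
      calc a⁻¹ * c * a = (a⁻¹ * c⁻¹ * a)⁻¹ := by group
        _ = (a⁻¹ * (a * c * a⁻¹) * a)⁻¹ := by rw [h]
        _ = c⁻¹ := by group

section Alt

variable {B : V →ₗ[F] V →ₗ[F] F}

theorem alt_self (hF : Fm B (-1)) (x : V) : B x x = 0 := by
  have h2 := hF.symm x x
  exact (mul_eq_zero.1 (show (2 : F) * B x x = 0 by linear_combination h2)).resolve_left hF.two

theorem alt_swap (hF : Fm B (-1)) (x y : V) : B x y = - B y x := by
  rw [hF.symm x y, neg_one_mul]

theorem alt_li (hF : Fm B (-1)) {u w : V} (h : B u w ≠ 0) (a b : F) (hab : a • u + b • w = 0) :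
    a = 0 ∧ b = 0 := by
  have h1 : a = 0 := by
    have h2 := congrArg (fun x => B x w) hab
    simp only [map_add, map_smul, LinearMap.add_apply, LinearMap.smul_apply, smul_eq_mul,
      alt_self hF w, mul_zero, add_zero, map_zero, LinearMap.zero_apply] at h2
    exact (mul_eq_zero.1 h2).resolve_right h
  refine ⟨h1, ?_⟩
  have h2 := congrArg (fun x => B u x) hab
  simp only [map_add, map_smul, smul_eq_mul, alt_self hF u, mul_zero, zero_add, map_zero] at h2
  exact (mul_eq_zero.1 h2).resolve_right h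

/-- an isometry plus its inverse is a scalar -/
theorem exists_trace [FiniteDimensional F V] (hF : Fm B (-1)) (hd : finrank F V = 2)
    {g : V ≃ₗ[F] V} (hg : g ∈ Isom B) : ∃ τ : F, ∀ x, g x + g⁻¹ x = τ • x := by
  have hne : ∃ u w : V, B u w ≠ 0 := by
    by_contra hcon
    push Not at hcon
    have : Nontrivial V := Module.nontrivial_of_finrank_pos (R := F) (by omega)
    obtain ⟨v, hv⟩ := exists_ne (0 : V)
    exact hv (hF.nondeg v (hcon v))
  obtain ⟨u, w, huw⟩ := hne
  have hco := exists_coord hd (alt_li hF huw)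
  obtain ⟨a, b, hu⟩ := hco (g u)
  obtain ⟨c, d, hw⟩ := hco (g w)
  have hdet : a * d - b * c = 1 := by
    have h1 := hg u w
    rw [hu, hw] at h1
    simp only [map_add, map_smul, LinearMap.add_apply, LinearMap.smul_apply, smul_eq_mul,
      alt_self hF u, alt_self hF w, alt_swap hF w u] at h1
    apply mul_right_cancel₀ huw
    linear_combination h1
  have hu' : g⁻¹ u = d • u - b • w := by
    show g.symm u = _
    rw [LinearEquiv.symm_apply_eq, map_sub, map_smul, map_smul, hu, hw]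
    have : (1 : F) • u = u := one_smul _ _
    nth_rewrite 1 [← this]
    rw [← hdet]
    module
  have hw' : g⁻¹ w = a • w - c • u := by
    show g.symm w = _
    rw [LinearEquiv.symm_apply_eq, map_sub, map_smul, map_smul, hu, hw]
    have : (1 : F) • w = w := one_smul _ _
    nth_rewrite 1 [← this]
    rw [← hdet]
    module
  refine ⟨a + d, fun x => ?_⟩
  obtain ⟨p, q, rfl⟩ := hco x
  rw [map_add, map_smul, map_smul, map_add, map_smul, map_smul, hu, hw, hu', hw']
  module

/-- an isometry inverting `c`, `c² ≠ 1`, has square `-1` -/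
theorem sq_of_inv [FiniteDimensional F V] (hF : Fm B (-1)) (hd : finrank F V = 2)
    {c t : V ≃ₗ[F] V} (hc : c * c ≠ 1) (ht : t ∈ Isom B) (h : t * c * t⁻¹ = c⁻¹) :
    t * t = LinearEquiv.neg F := by
  obtain ⟨τ, hτ⟩ := exists_trace hF hd ht
  obtain ⟨v, hv⟩ : ∃ v, c v - c⁻¹ v ≠ 0 := by
    by_contra hcon
    push Not at hcon
    apply hc
    refine LinearEquiv.ext fun x => ?_
    show c (c x) = x
    have h1 := hcon (c x)
    rw [sub_eq_zero] at h1
    rw [h1]
    exact LinearEquiv.symm_apply_apply c x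
  have e1 : ∀ x, t (c x) = c⁻¹ (t x) := by
    intro x
    have h1 : t * c = c⁻¹ * t := by rw [← h]; group
    exact LinearEquiv.congr_fun h1 x
  have e2 : ∀ x, t (c⁻¹ x) = c (t x) := by
    intro x
    have h1 : t * c⁻¹ = c * t := by
      have h2 : c = t * c⁻¹ * t⁻¹ := by
        calc c = (c⁻¹)⁻¹ := (inv_inv c).symm
          _ = (t * c * t⁻¹)⁻¹ := by rw [h]
          _ = t * c⁻¹ * t⁻¹ := by group
      nth_rewrite 2 [h2]
      group
    exact LinearEquiv.congr_fun h1 x
  have e3 : ∀ x, t⁻¹ (c x) = c⁻¹ (t⁻¹ x) := by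
    intro x
    have h1 : t⁻¹ * c = c⁻¹ * t⁻¹ := by
      have h2 : t * (t⁻¹ * c) = t * (c⁻¹ * t⁻¹) := by
        have h3 : t * c⁻¹ = c * t := by
          refine LinearEquiv.ext fun y => e2 y
        rw [← mul_assoc, ← mul_assoc, h3]
        group
      exact mul_left_cancel h2
    exact LinearEquiv.congr_fun h1 x
  have e4 : ∀ x, t⁻¹ (c⁻¹ x) = c (t⁻¹ x) := by
    intro x
    have h1 : t⁻¹ * c⁻¹ = c * t⁻¹ := by
      have h2 : t * (t⁻¹ * c⁻¹) = t * (c * t⁻¹) := by
        have h3 : t * c = c⁻¹ * t := by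
          refine LinearEquiv.ext fun y => e1 y
        rw [← mul_assoc, ← mul_assoc, h3]
        group
      exact mul_left_cancel h2
    exact LinearEquiv.congr_fun h1 x
  have h1 := hτ (c v - c⁻¹ v)
  rw [map_sub, map_sub, e1, e2, e3, e4] at h1
  have h2 : c⁻¹ (t v) + c⁻¹ (t⁻¹ v) - (c (t v) + c (t⁻¹ v)) = τ • (c v - c⁻¹ v) := by
    rw [← h1]
    abel
  rw [← map_add, ← map_add, hτ v, map_smul, map_smul] at h2
  have h3 : (2 * τ) • (c v - c⁻¹ v) = 0 := by
    have h4 : (2 * τ) • (c v - c⁻¹ v) = τ • (c v - c⁻¹ v) - (τ • c⁻¹ v - τ • c v) := by module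
    rw [h4, h2, sub_self]
  have h4 : τ = 0 := by
    rcases smul_eq_zero.1 h3 with h5 | h5
    · exact (mul_eq_zero.1 h5).resolve_left hF.two
    · exact absurd h5 hv
  refine LinearEquiv.ext fun x => ?_
  show t (t x) = -x
  have h5 := hτ (t x)
  have h6 : t⁻¹ (t x) = x := LinearEquiv.symm_apply_apply t x
  rw [h4, zero_smul, h6] at h5
  exact eq_neg_of_add_eq_zero_left h5

/-- an isometry inverting `c` -/
theorem exists_inverter [Finite F] [FiniteDimensional F V] (hF : Fm B (-1)) (hd : finrank F V = 2)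
    {c : V ≃ₗ[F] V} (hc : c * c ≠ 1) (hcB : c ∈ Isom B) :
    ∃ t ∈ Isom B, t * c * t⁻¹ = c⁻¹ := by
  obtain ⟨τ, hτ⟩ := exists_trace hF hd hcB
  -- the square root of `-1`
  obtain ⟨i, hi⟩ : ∃ i : F, i * i = -1 := by
    classical
    have := Fintype.ofFinite F
    have h1 : IsSquare (-1 : F) := by
      rw [FiniteField.isSquare_neg_one_iff]
      rcases hF.eps with h | h
      · exfalso
        apply hF.two
        linear_combination -h
      · rw [← Nat.card_eq_fintype_card, h.2]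
        norm_num
    obtain ⟨i, hi⟩ := h1
    exact ⟨i, hi.symm⟩
  have hadj : ∀ x y, B (c⁻¹ x) y = B x (c y) := fun x y => by
    rw [← hcB (c⁻¹ x) y]
    congr 2
    exact LinearEquiv.apply_symm_apply c x
  have hadj' : ∀ x y, B (c x) y = B x (c⁻¹ y) := fun x y => by
    rw [← hcB x (c⁻¹ y)]
    congr 1
    exact (LinearEquiv.apply_symm_apply c y).symm
  have hcc : ∀ x, c (c⁻¹ x) = x := fun x => LinearEquiv.apply_symm_apply c x
  have hcc' : ∀ x, c⁻¹ (c x) = x := fun x => LinearEquiv.symm_apply_apply c x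
  -- a vector with `B v (c v - c⁻¹ v) ≠ 0`
  obtain ⟨v, hv⟩ : ∃ v, B v (c v - c⁻¹ v) ≠ 0 := by
    by_contra hcon
    push Not at hcon
    apply hc
    refine LinearEquiv.ext fun x => ?_
    show c (c x) = x
    have hz : ∀ u y : V, B u (c y - c⁻¹ y) = 0 := by
      intro u y
      have h1 := hcon (u + y)
      have h2 := hcon u
      have h3 := hcon y
      have h4 : B y (c u - c⁻¹ u) = B u (c y - c⁻¹ y) := by
        rw [map_sub, map_sub, ← hadj, ← hadj', alt_swap hF _ u, alt_swap hF _ u]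
        ring
      rw [map_add c, map_add c⁻¹] at h1
      have h5 : c u + c y - (c⁻¹ u + c⁻¹ y) = (c u - c⁻¹ u) + (c y - c⁻¹ y) := by abel
      rw [h5, map_add (B (u + y)), map_add B, LinearMap.add_apply, LinearMap.add_apply, h2, h3, h4] at h1
      exact (mul_eq_zero.1 (show (2 : F) * B u (c y - c⁻¹ y) = 0 by
        linear_combination h1)).resolve_left hF.two
    have h1 : c (c x) - c⁻¹ (c x) = 0 := by
      refine hF.nondeg _ fun y => ?_
      rw [alt_swap hF, hz, neg_zero]
    rw [hcc', sub_eq_zero] at h1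
    exact h1
  set w : V := c v - c⁻¹ v with hw
  have hco := exists_coord hd (alt_li hF hv)
  have hi0 : i ≠ 0 := by
    rintro rfl
    rw [mul_zero] at hi
    exact one_ne_zero (neg_eq_zero.1 hi.symm)
  let f : V →ₗ[F] F := (2 / B v w) • B v
  have hf : ∀ x, f x = 2 / B v w * B v x := fun x => rfl
  have hfw : f w = 2 := by rw [hf, div_mul_cancel₀ _ hv]
  let t : V ≃ₗ[F] V := LinearEquiv.smulOfNeZero F V i hi0 * Module.reflection hfw
  have ht : ∀ x, t x = i • (x - (2 / B v w * B v x) • w) := fun x => by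
    show i • (Module.reflection hfw x) = _
    rw [Module.reflection_apply, hf]
  have htv : t v = i • v := by rw [ht, alt_self hF, mul_zero, zero_smul, sub_zero]
  have htw : t w = -(i • w) := by
    rw [ht, div_mul_cancel₀ _ hv]
    module
  have htm : t ∈ Isom B := by
    intro x y
    obtain ⟨a, b, rfl⟩ := hco x
    obtain ⟨a', b', rfl⟩ := hco y
    simp only [map_add, map_smul, LinearMap.add_apply, LinearMap.smul_apply, smul_eq_mul, htv, htw,
      map_neg, LinearMap.neg_apply, alt_self hF v, alt_self hF w, alt_swap hF w v]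
    linear_combination (-(a * b' * B v w) + b * a' * B v w) * hi
  refine ⟨t, htm, ?_⟩
  have hcv : (2 : F) • c v = τ • v + w := by
    rw [← hτ v, hw, two_smul]
    abel
  have hcv' : (2 : F) • c⁻¹ v = τ • v - w := by
    rw [← hτ v, hw, two_smul]
    abel
  have hcw : c w = τ • c v - (2 : F) • v := by
    rw [hw, map_sub, hcc]
    have h1 := hτ (c v)
    rw [hcc'] at h1
    rw [← h1, two_smul]
    abel
  have hcw' : c⁻¹ w = (2 : F) • v - τ • c⁻¹ v := by
    rw [hw, map_sub, hcc']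
    have h1 := hτ (c⁻¹ v)
    rw [hcc] at h1
    rw [← h1, two_smul]
    abel
  have h2inj : ∀ x y : V, (2 : F) • x = (2 : F) • y → x = y := fun x y h =>
    smul_right_injective V hF.two h
  have k1 : t (c v) = i • c⁻¹ v := by
    apply h2inj
    rw [← map_smul, hcv, map_add, map_smul, htv, htw, smul_comm (2 : F) i, hcv']
    module
  have k2 : t (c w) = -(i • c⁻¹ w) := by
    rw [hcw, map_sub, map_smul, map_smul, k1, htv, hcw']
    module
  have key : t * c = c⁻¹ * t := by
    refine LinearEquiv.ext fun x => ?_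
    show t (c x) = c⁻¹ (t x)
    obtain ⟨a, b, rfl⟩ := hco x
    simp only [map_add, map_smul, k1, k2, htv, htw, map_neg]
  rw [key]
  group

theorem neg_mul_self : (LinearEquiv.neg F : V ≃ₗ[F] V) * LinearEquiv.neg F = 1 :=
  LinearEquiv.ext fun x => neg_neg x

theorem neg_comm (g : V ≃ₗ[F] V) : g * LinearEquiv.neg F = LinearEquiv.neg F * g :=
  LinearEquiv.ext fun x => map_neg g x

/-- the group `invC B c` is good -/
theorem fszs_invC [Finite F] [FiniteDimensional F V] (hF : Fm B (-1)) (hd : finrank F V = 2)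
    {c : V ≃ₗ[F] V} (hc : c * c ≠ 1) (hcB : c ∈ Isom B) : FSZs (invC B c) (zel V (-1 : F)) := by
  obtain ⟨t, htB, htc⟩ := exists_inverter hF hd hc hcB
  rw [zel_neg_one hF.two]
  refine fszs_of_sq (invC B c) ?_ (t := t) ⟨htB, Or.inr htc⟩ ?_
  · refine ⟨neg_mem_isom B, Or.inl ?_⟩
    rw [← neg_comm, mul_assoc, mul_inv_cancel, mul_one]
  · rintro g ⟨hgB, hg | hg⟩
    · right
      refine sq_of_inv hF hd hc (mul_mem htB hgB) ?_
      have h1 : t * g * c * (t * g)⁻¹ = t * (g * c * g⁻¹) * t⁻¹ := by group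
      rw [h1, hg, htc]
    · left
      exact sq_of_inv hF hd hc hgB hg

/-- involutions are central -/
theorem sq_one [FiniteDimensional F V] (hF : Fm B (-1)) (hd : finrank F V = 2)
    {g : V ≃ₗ[F] V} (hg : g ∈ Isom B) (h : g * g = 1) : g = 1 ∨ g = LinearEquiv.neg F := by
  obtain ⟨τ, hτ⟩ := exists_trace hF hd hg
  have hinv : g⁻¹ = g := inv_eq_of_mul_eq_one_right h
  rw [hinv] at hτ
  have hg2 : ∀ x, g x = (τ / 2) • x := by
    intro x
    have h1 : (2 : F) • g x = τ • x := by rw [two_smul, hτ]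
    rw [div_eq_mul_inv, mul_comm, mul_smul, ← h1, smul_smul, inv_mul_cancel₀ hF.two, one_smul]
  have : Nontrivial V := Module.nontrivial_of_finrank_pos (R := F) (by omega)
  obtain ⟨v, hv⟩ := exists_ne (0 : V)
  have h1 : (τ / 2) * (τ / 2) = 1 := by
    have h2 : g (g v) = v := LinearEquiv.congr_fun h v
    rw [hg2, hg2, smul_smul] at h2
    have h3 : (τ / 2 * (τ / 2) - 1) • v = 0 := by rw [sub_smul, h2, one_smul, sub_self]
    exact sub_eq_zero.1 ((smul_eq_zero.1 h3).resolve_right hv)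
  rcases mul_self_eq_one_iff.1 h1 with h2 | h2
  · left
    refine LinearEquiv.ext fun x => ?_
    rw [hg2, h2, one_smul]
    rfl
  · right
    refine LinearEquiv.ext fun x => ?_
    rw [hg2, h2, neg_one_smul]
    rfl

/-- an isometry whose square is not one (a transvection) -/
theorem exists_sq_ne [FiniteDimensional F V] (hF : Fm B (-1)) (hd : finrank F V = 2) :
    ∃ s ∈ Isom B, s * s ≠ 1 := by
  have hne : ∃ u w : V, B u w ≠ 0 := by
    by_contra hcon
    push Not at hcon
    have : Nontrivial V := Module.nontrivial_of_finrank_pos (R := F) (by omega)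
    obtain ⟨v, hv⟩ := exists_ne (0 : V)
    exact hv (hF.nondeg v (hcon v))
  obtain ⟨u, w, huw⟩ := hne
  have huu := alt_self hF u
  let s : V ≃ₗ[F] V := LinearEquiv.ofLinearMap (LinearMap.id + (B u).smulRight u)
    (LinearMap.id - (B u).smulRight u)
    (by
      refine LinearMap.ext fun x => ?_
      simp [huu])
    (by
      refine LinearMap.ext fun x => ?_
      simp [huu])
  have hs : ∀ x, s x = x + B u x • u := fun x => rfl
  refine ⟨s, fun x y => ?_, fun h => ?_⟩
  · rw [hs, hs]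
    simp only [map_add, map_smul, LinearMap.add_apply, LinearMap.smul_apply, smul_eq_mul, huu,
      alt_swap hF x u]
    ring
  · have h1 : s (s w) = w := LinearEquiv.congr_fun h w
    rw [hs, hs, map_add, map_smul, huu, smul_zero, add_zero] at h1
    have h2 : (2 * B u w) • u = 0 := by
      have h3 : (2 * B u w) • u = (w + B u w • u + B u w • u) - w := by module
      rw [h3, h1, sub_self]
    rcases smul_eq_zero.1 h2 with h3 | h3
    · exact huw ((mul_eq_zero.1 h3).resolve_left hF.two)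
    · apply huw
      rw [h3, map_zero, LinearMap.zero_apply]

/-- the subgroup `{1, -1}` -/
def pm (F V : Type u) [Field F] [AddCommGroup V] [Module F V] : Subgroup (V ≃ₗ[F] V) where
  carrier := {g | g = 1 ∨ g = LinearEquiv.neg F}
  mul_mem' := by
    rintro a b (rfl | rfl) (rfl | rfl)
    · exact Or.inl (one_mul _)
    · exact Or.inr (one_mul _)
    · exact Or.inr (mul_one _)
    · exact Or.inl neg_mul_self
  one_mem' := Or.inl rfl
  inv_mem' := by
    rintro a (rfl | rfl)
    · exact Or.inl inv_one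
    · exact Or.inr (inv_eq_of_mul_eq_one_right neg_mul_self)

instance pm_normal : (pm F V).Normal := by
  constructor
  rintro n (rfl | rfl) g
  · left
    group
  · right
    rw [neg_comm, mul_assoc, mul_inv_cancel, mul_one]

theorem pm_isPGroup : IsPGroup 2 (pm F V) := by
  rintro ⟨g, hg⟩
  refine ⟨1, Subtype.ext ?_⟩
  show g ^ (2 ^ 1) = 1
  rw [pow_one, pow_two]
  rcases hg with rfl | rfl
  · exact one_mul _
  · exact neg_mul_self

/-- a 2-group of isometries centralises or inverts some isometry of square not one -/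
theorem exists_normalized [Finite F] [FiniteDimensional F V] (hF : Fm B (-1))
    (hd : finrank F V = 2) {P : Subgroup (V ≃ₗ[F] V)} (hPB : P ≤ Isom B) (hP : IsPGroup 2 P) :
    ∃ s ∈ Isom B, s * s ≠ 1 ∧ ∀ g ∈ P, g * s * g⁻¹ = s ∨ g * s * g⁻¹ = s⁻¹ := by
  classical
  have hpmB : pm F V ≤ Isom B := by
    rintro g (rfl | rfl)
    · exact one_mem _
    · exact neg_mem_isom B
  have hP' : IsPGroup 2 (P ⊔ pm F V : Subgroup (V ≃ₗ[F] V)) :=
    hP.to_sup_of_normal_right pm_isPGroup
  have hPB' : P ⊔ pm F V ≤ Isom B := sup_le hPB hpmB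
  have hle : P ≤ P ⊔ pm F V := le_sup_left
  generalize P ⊔ pm F V = R at hP' hPB' hle
  by_cases hall : ∀ g ∈ R, g * g = 1
  · obtain ⟨s, hs, hss⟩ := exists_sq_ne hF hd
    refine ⟨s, hs, hss, fun g hg => Or.inl ?_⟩
    rcases sq_one hF hd (hPB hg) (hall g (hle hg)) with rfl | rfl
    · group
    · rw [← neg_comm, mul_assoc, mul_inv_cancel, mul_one]
  · push Not at hall
    obtain ⟨g0, hg0, hg0'⟩ := hall
    have hnt : Nontrivial (R ⧸ (pm F V).subgroupOf R) := by
      refine ⟨⟨((⟨g0, hg0⟩ : R) : R ⧸ (pm F V).subgroupOf R), 1, fun h => ?_⟩⟩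
      rw [QuotientGroup.eq_one_iff, Subgroup.mem_subgroupOf] at h
      apply hg0'
      rcases h with h | h
      · have h' : g0 = 1 := h
        rw [h', one_mul]
      · have h' : g0 = LinearEquiv.neg F := h
        rw [h']
        exact neg_mul_self
    have hfin : Finite (R ⧸ (pm F V).subgroupOf R) := inferInstance
    have hpq : IsPGroup 2 (R ⧸ (pm F V).subgroupOf R) := hP'.to_quotient _
    have hcn := hpq.center_nontrivial
    obtain ⟨⟨cb, hcb⟩, hcb1⟩ := exists_ne (1 : Subgroup.center (R ⧸ (pm F V).subgroupOf R))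
    obtain ⟨⟨s, hsR⟩, rfl⟩ := QuotientGroup.mk_surjective cb
    have hs1 : ¬ (s ∈ pm F V) := by
      intro h
      apply hcb1
      refine Subtype.ext ?_
      show ((⟨s, hsR⟩ : R) : R ⧸ (pm F V).subgroupOf R) = 1
      rw [QuotientGroup.eq_one_iff, Subgroup.mem_subgroupOf]
      exact h
    have hsB := hPB' hsR
    refine ⟨s, hsB, fun h => hs1 (sq_one hF hd hsB h), fun g hg => ?_⟩
    have h1 := Subgroup.mem_center_iff.1 hcb ((⟨g, hle hg⟩ : R) : R ⧸ (pm F V).subgroupOf R)
    rw [← QuotientGroup.mk_mul, ← QuotientGroup.mk_mul, eq_comm, QuotientGroup.eq,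
      Subgroup.mem_subgroupOf] at h1
    have h2 : (s * g)⁻¹ * (g * s) = 1 ∨ (s * g)⁻¹ * (g * s) = LinearEquiv.neg F := h1
    rcases h2 with h2 | h2
    · left
      have h3 : g * s = s * g := (inv_mul_eq_one.1 h2).symm
      rw [h3]
      group
    · right
      have h3 : g * s = s * g * LinearEquiv.neg F := by rw [← h2]; group
      have h4 : g * s * g⁻¹ = LinearEquiv.neg F * s := by
        rw [h3, mul_assoc s g, neg_comm g, ← mul_assoc, neg_comm s]
        group
      rw [h4]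
      obtain ⟨τ, hτ⟩ := exists_trace hF hd hsB
      have h5 : g * s⁻¹ * g⁻¹ = LinearEquiv.neg F * s⁻¹ := by
        have h6 : g * s⁻¹ * g⁻¹ = (g * s * g⁻¹)⁻¹ := by group
        rw [h6, h4, mul_inv_rev, inv_eq_of_mul_eq_one_right neg_mul_self, neg_comm]
      have : Nontrivial V := Module.nontrivial_of_finrank_pos (R := F) (by omega)
      obtain ⟨v, hv⟩ := exists_ne (0 : V)
      have h6 : g (s (g⁻¹ v)) = - s v := LinearEquiv.congr_fun h4 v
      have h7 : g (s⁻¹ (g⁻¹ v)) = - s⁻¹ v := LinearEquiv.congr_fun h5 v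
      have h8 := congrArg g (hτ (g⁻¹ v))
      have h9 : g (g⁻¹ v) = v := LinearEquiv.apply_symm_apply g v
      rw [map_add, h6, h7, map_smul, h9, ← hτ v] at h8
      have h10 : (2 * τ) • v = 0 := by
        rw [mul_smul, ← hτ v, two_smul]
        nth_rewrite 1 [← h8]
        abel
      have h11 : τ = 0 := by
        rcases smul_eq_zero.1 h10 with h | h
        · exact (mul_eq_zero.1 h).resolve_left hF.two
        · exact absurd h hv
      refine LinearEquiv.ext fun x => ?_
      have h12 := hτ x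
      rw [h11, zero_smul] at h12
      exact (eq_neg_of_add_eq_zero_right h12).symm

/-- **The covering condition in dimension two, symplectic case.** -/
theorem cov_two [Finite F] [FiniteDimensional F V] (hF : Fm B (-1)) (hd : finrank F V = 2)
    {c : V ≃ₗ[F] V} {P : Subgroup (V ≃ₗ[F] V)} (hcB : c ∈ Isom B) (hc : c = 1 ∨ c * c ≠ 1)
    (hPB : P ≤ Isom B) (hP : IsPGroup 2 P)
    (hPc : ∀ g ∈ P, g * c * g⁻¹ = c ∨ g * c * g⁻¹ = c⁻¹) : Cov B (-1) c P := by
  rcases hc with rfl | hc
  · obtain ⟨s, hsB, hs, hPs⟩ := exists_normalized hF hd hPB hP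
    exact ⟨invC B s, fun g hg => hg.1, one_mem _, fun g hg => ⟨hPB hg, hPs g hg⟩,
      fszs_invC hF hd hs hsB⟩
  · refine ⟨invC B c, fun g hg => hg.1, ⟨hcB, Or.inl ?_⟩, fun g hg => ⟨hPB hg, hPc g hg⟩,
      fszs_invC hF hd hc hcB⟩
    group

end Alt

end Geo

end Cfsg.Agent.H467.FRSmall
end
end

-- part: H619/FR/Cls
section
prune_inst 0x11100140454002000000059211205c46860004b2006b0000b940034207ca576089822761ada01c10020a2e1500310008111000e00200000000000800011c00800028040091480108a20098003087000000000000000000000000800000041004008000000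
set_option linter.all false
open scoped Cfsg.Agent.FastGrp

/-!
# S4970, the class lemma (helper619)

`Y = A E ⟨t⟩`, `A` normal and commutative, `E` of exponent 2, `t` commuting with `E` and inverting `A`, `t² = z`
central: `ν(χ) χ(z) / χ(1) = (T₁ χ + ω T₂ χ) / (2 |AE| |A|)` with
`T₁ χ = ∑_{b ∈ A, y ∈ AE} χ(y b⁻¹ y⁻¹ b)`, `T₂ χ = ∑_{b ∈ A, y ∈ AE} χ(y b y⁻¹ b)`; the real part is not negative.
-/

set_option autoImplicit false

universe u

namespace Cfsg.Agent.H619.FR

open Cfsg Cfsg.Agent.H955.FS Cfsg.Agent.H721.FR Cfsg.Agent.Characters.Core Cfsg.Agent.Characters.Central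
open scoped ComplexConjugate

section Pos

variable {G : Type u} [Group G]

theorem re_nonneg_aux (c : ℂ) {ω : ℝ} (hω : ω = 1 ∨ ω = -1) : 0 ≤ (conj c * c + (ω : ℂ) * (c * c)).re := by
  have h1 : (conj c * c + (ω : ℂ) * (c * c)).re = c.re * c.re + c.im * c.im + ω * (c.re * c.re - c.im * c.im) := by
    simp [Complex.add_re, Complex.mul_re]
  rw [h1]
  rcases hω with rfl | rfl
  · nlinarith [mul_self_nonneg c.re]
  · nlinarith [mul_self_nonneg c.im]

/-- for irreducible characters -/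
theorem pos_irr [Fintype G] {ι : Type*} [Fintype ι] (b : ι → G) {ψ : G → ℂ} (hψ : IsIrrCharacter G ψ)
    {ω : ℝ} (hω : ω = 1 ∨ ω = -1) :
    0 ≤ (∑ i, ∑ y : G, (ψ (y * (b i)⁻¹ * y⁻¹ * b i) + (ω : ℂ) * ψ (y * b i * y⁻¹ * b i))).re := by
  obtain ⟨d, hd, hd1⟩ := isIrr_apply_one hψ
  rw [Complex.re_sum]
  refine Finset.sum_nonneg fun i _ => ?_
  have h1 : ∑ y : G, (ψ (y * (b i)⁻¹ * y⁻¹ * b i) + (ω : ℂ) * ψ (y * b i * y⁻¹ * b i)) =
      (((Nat.card G : ℝ) / d : ℝ) : ℂ) * (conj (ψ (b i)) * ψ (b i) + (ω : ℂ) * (ψ (b i) * ψ (b i))) := by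
    rw [Finset.sum_add_distrib, ← Finset.mul_sum, sum_char_conj_mul hψ, sum_char_conj_mul hψ, hd1,
      isCharacter_apply_inv (isIrr_isCharacter hψ)]
    push_cast
    ring
  rw [h1, Complex.re_ofReal_mul]
  exact mul_nonneg (by positivity) (re_nonneg_aux _ hω)

/-- for all characters -/
theorem pos_char [Fintype G] {ι : Type*} [Fintype ι] (b : ι → G) {χ : G → ℂ} (hχ : IsCharacter G χ)
    {ω : ℝ} (hω : ω = 1 ∨ ω = -1) :
    0 ≤ (∑ i, ∑ y : G, (χ (y * (b i)⁻¹ * y⁻¹ * b i) + (ω : ℂ) * χ (y * b i * y⁻¹ * b i))).re := by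
  classical
  have := finite_irr (G := G)
  have := Fintype.ofFinite (IrrCharacter G)
  obtain ⟨m, rfl⟩ := exists_nat_comb hχ
  have h0 : ∀ g : G, (∑ ψ : IrrCharacter G, m ψ • (ψ : G → ℂ)) g = ∑ ψ : IrrCharacter G, ((m ψ : ℝ) : ℂ) * (ψ : G → ℂ) g := by
    intro g
    rw [Finset.sum_apply]
    refine Finset.sum_congr rfl fun ψ _ => ?_
    rw [Pi.smul_apply, nsmul_eq_mul]
    push_cast
    rfl
  have h1 : ∑ i, ∑ y : G, ((∑ ψ : IrrCharacter G, m ψ • (ψ : G → ℂ)) (y * (b i)⁻¹ * y⁻¹ * b i) +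
      (ω : ℂ) * (∑ ψ : IrrCharacter G, m ψ • (ψ : G → ℂ)) (y * b i * y⁻¹ * b i)) =
      ∑ ψ : IrrCharacter G, ((m ψ : ℝ) : ℂ) * ∑ i, ∑ y : G, ((ψ : G → ℂ) (y * (b i)⁻¹ * y⁻¹ * b i) +
        (ω : ℂ) * (ψ : G → ℂ) (y * b i * y⁻¹ * b i)) := by
    simp only [h0, Finset.mul_sum]
    rw [Finset.sum_comm (γ := IrrCharacter G) (s := Finset.univ (α := IrrCharacter G))]
    refine Finset.sum_congr rfl fun i _ => ?_
    rw [Finset.sum_comm (γ := IrrCharacter G) (s := Finset.univ (α := IrrCharacter G))]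
    refine Finset.sum_congr rfl fun y _ => ?_
    rw [← Finset.sum_add_distrib]
    refine Finset.sum_congr rfl fun ψ _ => ?_
    ring
  rw [h1, Complex.re_sum]
  refine Finset.sum_nonneg fun ψ _ => ?_
  rw [Complex.re_ofReal_mul]
  exact mul_nonneg (by positivity) (pos_irr b ψ.2 hω)

end Pos

/-- reindexing by left multiplication in a subgroup -/
theorem sum_left {Y : Type u} [Group Y] (H : Subgroup Y) [Fintype H] (g : Y → ℂ) (a : H) :
    ∑ x : H, g ((x : Y) * a) = ∑ x : H, g x :=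
  Fintype.sum_bijective (fun x : H => x * a) (Group.mulRight_bijective a) _ _ fun x => rfl

section Main

variable {Y : Type u} [Group Y] [Finite Y] {A E : Subgroup Y}

/-- **The class lemma, with `z`.** -/
theorem fsz_cls (hAn : A.Normal) (hA : ∀ a ∈ A, ∀ b ∈ A, a * b = b * a) (hE2 : ∀ e ∈ E, e * e = 1) {t z : Y}
    (hzA : z ∈ A) (hzc : ∀ y, y * z = z * y) (hz2 : z * z = 1) (htE : ∀ e ∈ E, t * e = e * t) (htt : t * t = z)
    (htA : ∀ a ∈ A, t * a * t⁻¹ = a⁻¹) (htop : Subgroup.closure ((A : Set Y) ∪ E ∪ {t}) = ⊤) : FSZ z := by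
  classical
  have := Fintype.ofFinite Y
  set Y₀ : Subgroup Y := A ⊔ E with hY₀
  have hA0 : A ≤ Y₀ := le_sup_left
  have hE0 : E ≤ Y₀ := le_sup_right
  -- decompositions
  have hdec0 : ∀ y ∈ Y₀, ∃ a ∈ A, ∃ e ∈ E, y = a * e := by
    intro y hy
    obtain ⟨a, ha, e, he, rfl⟩ := Subgroup.mem_sup_of_normal_left.1 hy
    exact ⟨a, ha, e, he, rfl⟩
  have htY0 : ∀ y ∈ Y₀, t * y * t⁻¹ ∈ Y₀ := by
    intro y hy
    obtain ⟨a, ha, e, he, rfl⟩ := hdec0 y hy
    have h1 : t * (a * e) * t⁻¹ = (t * a * t⁻¹) * e := by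
      calc t * (a * e) * t⁻¹ = (t * a * t⁻¹) * (t * e) * t⁻¹ := by group
        _ = (t * a * t⁻¹) * e := by rw [htE e he]; group
    rw [h1, htA a ha]
    exact mul_mem (inv_mem (hA0 ha)) (hE0 he)
  have hti : t⁻¹ = z * t := by
    rw [inv_eq_iff_mul_eq_one, ← mul_assoc, hzc, mul_assoc, htt, hz2]
  have hdec : ∀ y : Y, y ∈ Y₀ ∨ y * t⁻¹ ∈ Y₀ := by
    have hclosure : ∀ y ∈ Subgroup.closure ((A : Set Y) ∪ E ∪ {t}), y ∈ Y₀ ∨ y * t⁻¹ ∈ Y₀ := by
      intro y hy
      induction hy using Subgroup.closure_induction with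
      | mem x hx =>
        rcases hx with (hx | hx) | hx
        · exact Or.inl (hA0 hx)
        · exact Or.inl (hE0 hx)
        · right
          rw [Set.mem_singleton_iff.1 hx, mul_inv_cancel]
          exact one_mem _
      | one => exact Or.inl (one_mem _)
      | mul x y _ _ hx hy =>
        rcases hx with hx | hx <;> rcases hy with hy | hy
        · exact Or.inl (mul_mem hx hy)
        · right
          rw [mul_assoc]
          exact mul_mem hx hy
        · right
          have h1 : x * y * t⁻¹ = (x * t⁻¹) * (t * y * t⁻¹) := by group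
          rw [h1]
          exact mul_mem hx (htY0 y hy)
        · left
          have h1 : x * y = (x * t⁻¹) * (t * (y * t⁻¹) * t⁻¹) * (t * t) := by group
          rw [h1, htt]
          exact mul_mem (mul_mem hx (htY0 _ hy)) (hA0 hzA)
      | inv x _ hx =>
        rcases hx with hx | hx
        · exact Or.inl (inv_mem hx)
        · right
          have h1 : x⁻¹ * t⁻¹ = (t * (x * t⁻¹) * t⁻¹ * (t * t))⁻¹ := by group
          rw [h1, htt]
          exact inv_mem (mul_mem (htY0 _ hx) (hA0 hzA))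
    intro y
    exact hclosure y (by rw [htop]; exact Subgroup.mem_top y)
  intro χ hχ h0
  -- the sign `ω`
  obtain ⟨d, hd, hd1⟩ := isIrr_apply_one hχ
  have hz : ∃ ω : ℝ, (ω = 1 ∨ ω = -1) ∧ ∀ g, χ (g * z) = (ω : ℂ) * χ g := by
    have h2 : ∀ g, χ (g * z) = (χ z / χ 1) * χ g := by
      intro g
      have h3 := sum_char_conj_mul hχ z g
      have h4 : ∑ a : Y, χ (a * z * a⁻¹ * g) = (Nat.card Y : ℂ) * χ (g * z) := by
        rw [Finset.sum_congr rfl (g := fun _ => χ (g * z)) (fun a _ => by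
          rw [hzc a, mul_inv_cancel_right, hzc g]), Finset.sum_const, nsmul_eq_mul, Nat.card_eq_fintype_card,
          Finset.card_univ]
      rw [h4] at h3
      have hYc : (Nat.card Y : ℂ) ≠ 0 := by exact_mod_cast Nat.card_pos.ne'
      apply mul_left_cancel₀ hYc
      rw [h3]
      ring
    have h5 : (χ z / χ 1) * (χ z / χ 1) = 1 := by
      have h6 := h2 z
      rw [hz2] at h6
      have h7 : χ 1 ≠ 0 := isIrr_apply_one_ne_zero hχ
      rw [mul_div_assoc', ← h6, div_self h7]
    rcases mul_self_eq_one_iff.1 h5 with h6 | h6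
    · exact ⟨1, Or.inl rfl, fun g => by rw [h2, h6]; push_cast; rfl⟩
    · exact ⟨-1, Or.inr rfl, fun g => by rw [h2, h6]; push_cast; rfl⟩
  obtain ⟨ω, hω, hωz⟩ := hz
  have hωω : (ω : ℂ) * ω = 1 := by
    rcases hω with rfl | rfl <;> norm_num
  have hd0 : (d : ℂ) ≠ 0 := by exact_mod_cast hd.ne'
  have hχz : χ z = ω * d := by
    rw [← hd1, ← hωz, one_mul]
  have h1 : fsi χ * ω = -1 := by
    rw [hχz, hd1] at h0
    apply mul_right_cancel₀ hd0
    rw [← mul_assoc] at h0
    rw [h0]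
    ring
  -- the sums
  let F : Y → ℂ := fun y => χ (y * y)
  have hFz : ∀ y, F (y * z) = F y := by
    intro y
    show χ (y * z * (y * z)) = χ (y * y)
    have h2 : y * z * (y * z) = y * y * (z * z) := by
      calc y * z * (y * z) = y * (z * y) * z := by group
        _ = y * (y * z) * z := by rw [← hzc y]
        _ = y * y * (z * z) := by group
    rw [h2, hz2, mul_one]
  let g : Y → ℂ := fun y => F y + F (y * t)
  have hgt : ∀ y, g (y * t) = g y := by
    intro y
    show F (y * t) + F (y * t * t) = F y + F (y * t)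
    rw [mul_assoc y t t, htt, hFz, add_comm]
  have h2 : ∑ y : Y, g y = 2 * ∑ y : Y, F y := by
    show ∑ y : Y, (F y + F (y * t)) = _
    rw [Finset.sum_add_distrib, Fintype.sum_bijective (fun y : Y => y * t) (Group.mulRight_bijective t)
      (fun y => F (y * t)) F (fun _ => rfl)]
    ring
  have h3 : (Nat.card Y₀ : ℂ) * ∑ y : Y, g y = (Nat.card Y : ℂ) * ∑ x : Y₀, g x := by
    have h4 : ∀ y : Y, ∑ x : Y₀, g ((x : Y) * y) = ∑ x : Y₀, g x := by
      intro y
      rcases hdec y with hy | hy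
      · exact sum_left Y₀ g ⟨y, hy⟩
      · have h5 : ∀ x : Y₀, g ((x : Y) * y) = g ((x : Y) * (y * t⁻¹)) := by
          intro x
          rw [← hgt ((x : Y) * (y * t⁻¹))]
          congr 1
          group
        rw [Finset.sum_congr rfl fun x _ => h5 x]
        exact sum_left Y₀ g ⟨y * t⁻¹, hy⟩
    have h5 : ∑ y : Y, ∑ x : Y₀, g ((x : Y) * y) = (Nat.card Y : ℂ) * ∑ x : Y₀, g x := by
      rw [Finset.sum_congr rfl fun y _ => h4 y, Finset.sum_const, nsmul_eq_mul, Nat.card_eq_fintype_card, Finset.card_univ]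
    rw [← h5, Finset.sum_comm]
    have h6 : ∀ x : Y₀, ∑ y : Y, g ((x : Y) * y) = ∑ y : Y, g y := fun x =>
      Fintype.sum_bijective (fun y : Y => (x : Y) * y) (Group.mulLeft_bijective (x : Y)) _ _ fun _ => rfl
    rw [Finset.sum_congr rfl fun x _ => h6 x, Finset.sum_const, nsmul_eq_mul, Nat.card_eq_fintype_card, Finset.card_univ]
  -- the restriction to `Y₀`
  let f : Y₀ → ℂ := fun x => χ x
  have hf : IsCharacter Y₀ f := isCharacter_comp Y₀.subtype (isIrr_isCharacter hχ)
  have hpos := pos_char (G := Y₀) (fun b : A => (⟨b, hA0 b.2⟩ : Y₀)) hf hω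
  -- pointwise computation
  have h7 : ∀ y : Y₀, ∑ b : A, g ((b : Y) * y) =
      ∑ b : A, ((ω : ℂ) * χ (y * (b : Y)⁻¹ * (y : Y)⁻¹ * b) + χ (y * (b : Y) * (y : Y)⁻¹ * b)) := by
    intro y
    obtain ⟨a, ha, e, he, hy⟩ := hdec0 y y.2
    have h8 : ∑ b : A, g ((b : Y) * y) = ∑ b : A, g ((b : Y) * e) := by
      rw [← sum_left A (fun x => g (x * e)) ⟨a, ha⟩]
      refine Finset.sum_congr rfl fun b _ => ?_
      rw [hy, mul_assoc]
    rw [h8]
    refine Finset.sum_congr rfl fun b _ => ?_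
    have hb := b.2
    have he1 : e⁻¹ = e := by rw [inv_eq_iff_mul_eq_one, hE2 e he]
    -- `y c y⁻¹ = e c e⁻¹` for `c ∈ A`
    have hyc : ∀ c ∈ A, (y : Y) * c * (y : Y)⁻¹ = e * c * e⁻¹ := by
      intro c hc
      have h9 := hAn.conj_mem c hc e
      have h10 := hA a ha _ h9
      rw [hy]
      calc a * e * c * (a * e)⁻¹ = (a * (e * c * e⁻¹)) * a⁻¹ := by group
        _ = e * c * e⁻¹ := by rw [h10]; group
    rw [hyc _ hb, hyc _ (inv_mem hb)]
    have h9 : F ((b : Y) * e) = χ (e * b * e⁻¹ * b) := by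
      have h10 := hA b hb _ (hAn.conj_mem b hb e)
      show χ (b * e * (b * e)) = _
      rw [← h10]
      congr 1
      calc (b : Y) * e * (b * e) = b * (e * b * e⁻¹) * (e * e) := by group
        _ = _ := by rw [hE2 e he, mul_one]
    have h11 : F ((b : Y) * e * t) = (ω : ℂ) * χ (e * (b : Y)⁻¹ * e⁻¹ * b) := by
      have h10 := hA b hb _ (hAn.conj_mem _ (inv_mem hb) e)
      rw [← h10, ← hωz]
      show χ (b * e * t * (b * e * t)) = _
      congr 1
      calc (b : Y) * e * t * (b * e * t) = b * e * (t * b * t⁻¹) * (t * e) * t := by group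
        _ = b * e * (b : Y)⁻¹ * (e * t) * t := by rw [htA b hb, htE e he]
        _ = b * (e * (b : Y)⁻¹ * e⁻¹) * (e * e) * (t * t) := by group
        _ = _ := by rw [hE2 e he, htt, mul_one]
    show F ((b : Y) * e) + F ((b : Y) * e * t) = _
    rw [h9, h11, add_comm]
  have h12 : (Nat.card A : ℂ) * ∑ x : Y₀, g x =
      ∑ x : Y₀, ∑ b : A, ((ω : ℂ) * χ (x * (b : Y)⁻¹ * (x : Y)⁻¹ * b) + χ (x * (b : Y) * (x : Y)⁻¹ * b)) := by
    rw [← Finset.sum_congr rfl fun x _ => h7 x, Finset.sum_comm]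
    have h6 : ∀ b : A, ∑ x : Y₀, g ((b : Y) * x) = ∑ x : Y₀, g x := fun b =>
      Fintype.sum_bijective (fun x : Y₀ => (⟨b, hA0 b.2⟩ : Y₀) * x) (Group.mulLeft_bijective _) _ _ fun _ => rfl
    rw [Finset.sum_congr rfl fun x _ => h6 x, Finset.sum_const, nsmul_eq_mul, Nat.card_eq_fintype_card, Finset.card_univ]
  have h13 : (ω : ℂ) * ((Nat.card A : ℂ) * ∑ x : Y₀, g x) =
      ∑ b : A, ∑ x : Y₀, (f (x * (⟨b, hA0 b.2⟩ : Y₀)⁻¹ * x⁻¹ * ⟨b, hA0 b.2⟩) +
        (ω : ℂ) * f (x * ⟨b, hA0 b.2⟩ * x⁻¹ * ⟨b, hA0 b.2⟩)) := by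
    rw [h12, Finset.sum_comm, Finset.mul_sum]
    refine Finset.sum_congr rfl fun b _ => ?_
    rw [Finset.mul_sum]
    refine Finset.sum_congr rfl fun x _ => ?_
    rw [mul_add, ← mul_assoc, hωω, one_mul]
    rfl
  rw [← h13] at hpos
  -- conclusion
  have hYc : (Nat.card Y : ℂ) ≠ 0 := by exact_mod_cast Nat.card_pos.ne'
  have h14 : ∑ y : Y, F y = (Nat.card Y : ℂ) * fsi χ := by
    rw [fsi_eq_sum, ← mul_assoc, mul_inv_cancel₀ hYc, one_mul]
  have h15 : ∑ x : Y₀, g x = 2 * (Nat.card Y₀ : ℂ) * fsi χ := by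
    rw [h2, h14] at h3
    apply mul_left_cancel₀ hYc
    rw [← h3]
    ring
  rw [h15] at hpos
  have h16 : (ω : ℂ) * ((Nat.card A : ℂ) * (2 * (Nat.card Y₀ : ℂ) * fsi χ)) =
      ((-(2 * Nat.card A * Nat.card Y₀ : ℕ) : ℝ) : ℂ) := by
    have h17 : (ω : ℂ) * ((Nat.card A : ℂ) * (2 * (Nat.card Y₀ : ℂ) * fsi χ)) =
        2 * (Nat.card A : ℂ) * (Nat.card Y₀ : ℂ) * (fsi χ * ω) := by ring
    rw [h17, h1]
    push_cast
    ring
  rw [h16, Complex.ofReal_re] at hpos
  have h18 : 0 < (2 * Nat.card A * Nat.card Y₀ : ℕ) := by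
    have := Nat.card_pos (α := A)
    have := Nat.card_pos (α := Y₀)
    positivity
  have h19 : (0 : ℝ) < ((2 * Nat.card A * Nat.card Y₀ : ℕ) : ℝ) := by exact_mod_cast h18
  linarith

/-- **The class lemma**: all indicators are one. -/
theorem fsGood_cls (hAn : A.Normal) (hA : ∀ a ∈ A, ∀ b ∈ A, a * b = b * a) (hE2 : ∀ e ∈ E, e * e = 1)
    (hAE : A ⊔ E = ⊤) {t : Y} (htE : t ∈ E) (htA : ∀ a ∈ A, t * a * t⁻¹ = a⁻¹) : FSGood False Y := by
  have hE : ∀ e ∈ E, ∀ f ∈ E, e * f = f * e := by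
    intro e he f hf
    have h1 := hE2 (e * f) (mul_mem he hf)
    have he1 : e⁻¹ = e := by rw [inv_eq_iff_mul_eq_one, hE2 e he]
    have hf1 : f⁻¹ = f := by rw [inv_eq_iff_mul_eq_one, hE2 f hf]
    have h2 : (e * f)⁻¹ = e * f := by rw [inv_eq_iff_mul_eq_one, h1]
    rw [← h2, mul_inv_rev, he1, hf1]
  have h1 : FSZ (1 : Y) := by
    refine fsz_cls (A := A) (E := E) (t := t) hAn hA hE2 (one_mem _) (fun y => by rw [mul_one, one_mul]) (mul_one _)
      (fun e he => hE t htE e he) (hE2 t htE) htA ?_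
    rw [eq_top_iff, ← hAE, sup_le_iff]
    exact ⟨fun x hx => Subgroup.subset_closure (Or.inl (Or.inl hx)),
      fun x hx => Subgroup.subset_closure (Or.inl (Or.inr hx))⟩
  refine (fsz_one_iff.1 h1).of_isConj_inv fun y => ?_
  have hy : y ∈ A ⊔ E := by rw [hAE]; exact Subgroup.mem_top y
  obtain ⟨a, ha, e, he, rfl⟩ := Subgroup.mem_sup_of_normal_left.1 hy
  have he1 : e⁻¹ = e := by rw [inv_eq_iff_mul_eq_one, hE2 e he]
  refine isConj_iff.2 ⟨e * t, ?_⟩
  calc e * t * (a * e) * (e * t)⁻¹ = e * ((t * a * t⁻¹) * (t * e) * t⁻¹) * e⁻¹ := by group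
    _ = e * (a⁻¹ * (e * t) * t⁻¹) * e⁻¹ := by rw [htA a ha, hE t htE e he]
    _ = e * a⁻¹ := by group
    _ = (a * e)⁻¹ := by rw [mul_inv_rev, he1]

end Main

/-! ### Ambient forms -/

section Amb

variable {Γ : Type u} [Group Γ] {A E Y : Subgroup Γ} [Finite Y]

/-- **The class lemma with `z`**, for a subgroup `Y = closure (A ∪ E ∪ {t})` of an ambient group. -/
theorem fszs_cls (hAY : A ≤ Y) (hEY : E ≤ Y) (hAn : ∀ y ∈ Y, ∀ a ∈ A, y * a * y⁻¹ ∈ A)
    (hA : ∀ a ∈ A, ∀ b ∈ A, a * b = b * a) (hE2 : ∀ e ∈ E, e * e = 1) {t z : Γ} (htY : t ∈ Y)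
    (hzA : z ∈ A) (hzc : ∀ y ∈ Y, y * z = z * y) (hz2 : z * z = 1) (htE : ∀ e ∈ E, t * e = e * t) (htt : t * t = z)
    (htA : ∀ a ∈ A, t * a * t⁻¹ = a⁻¹) (hgen : Y ≤ Subgroup.closure ((A : Set Γ) ∪ E ∪ {t})) : FSZs Y z := by
  refine ⟨hAY hzA, ?_⟩
  refine fsz_cls (Y := Y) (A := A.subgroupOf Y) (E := E.subgroupOf Y) (t := ⟨t, htY⟩) (z := ⟨z, hAY hzA⟩)
    ⟨fun a ha y => hAn y y.2 a ha⟩ (fun a ha b hb => Subtype.ext (hA a ha b hb))
    (fun e he => Subtype.ext (hE2 e he)) hzA (fun y => Subtype.ext (hzc y y.2)) (Subtype.ext hz2)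
    (fun e he => Subtype.ext (htE e he)) (Subtype.ext htt) (fun a ha => Subtype.ext (htA a ha)) ?_
  rw [eq_top_iff]
  intro y _
  have h1 : ∀ x ∈ Subgroup.closure ((A : Set Γ) ∪ E ∪ {t}), ∃ hx : x ∈ Y, (⟨x, hx⟩ : Y) ∈
      Subgroup.closure (((A.subgroupOf Y : Subgroup Y) : Set Y) ∪ (E.subgroupOf Y : Subgroup Y) ∪ {(⟨t, htY⟩ : Y)}) := by
    intro x hx
    induction hx using Subgroup.closure_induction with
    | mem x hx =>
      rcases hx with (hx | hx) | hx
      · exact ⟨hAY hx, Subgroup.subset_closure (Or.inl (Or.inl hx))⟩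
      · exact ⟨hEY hx, Subgroup.subset_closure (Or.inl (Or.inr hx))⟩
      · have hx' := Set.mem_singleton_iff.1 hx
        subst hx'
        exact ⟨htY, Subgroup.subset_closure (Or.inr rfl)⟩
    | one => exact ⟨one_mem _, one_mem _⟩
    | mul x y _ _ hx hy =>
      obtain ⟨h1, h2⟩ := hx
      obtain ⟨h3, h4⟩ := hy
      exact ⟨mul_mem h1 h3, mul_mem h2 h4⟩
    | inv x _ hx =>
      obtain ⟨h1, h2⟩ := hx
      exact ⟨inv_mem h1, inv_mem h2⟩
  obtain ⟨hx, h2⟩ := h1 y (hgen y.2)
  exact h2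

/-- **The class lemma** for a subgroup `Y = A E` of an ambient group. -/
theorem fsGood_cls_amb (hAY : A ≤ Y) (hEY : E ≤ Y) (hAn : ∀ y ∈ Y, ∀ a ∈ A, y * a * y⁻¹ ∈ A)
    (hA : ∀ a ∈ A, ∀ b ∈ A, a * b = b * a) (hE2 : ∀ e ∈ E, e * e = 1) (hAE : ∀ y ∈ Y, ∃ a ∈ A, ∃ e ∈ E, y = a * e)
    {t : Γ} (htE : t ∈ E) (htA : ∀ a ∈ A, t * a * t⁻¹ = a⁻¹) : FSGood False Y := by
  refine fsGood_cls (Y := Y) (A := A.subgroupOf Y) (E := E.subgroupOf Y) (t := ⟨t, hEY htE⟩)
    ⟨fun a ha y => hAn y y.2 a ha⟩ (fun a ha b hb => Subtype.ext (hA a ha b hb))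
    (fun e he => Subtype.ext (hE2 e he)) ?_ htE (fun a ha => Subtype.ext (htA a ha))
  rw [eq_top_iff]
  intro y _
  obtain ⟨a, ha, e, he, h⟩ := hAE y y.2
  have h1 : y = (⟨a, hAY ha⟩ : Y) * ⟨e, hEY he⟩ := Subtype.ext h
  rw [h1]
  exact mul_mem (Subgroup.mem_sup_left (Subgroup.mem_subgroupOf.2 ha))
    (Subgroup.mem_sup_right (Subgroup.mem_subgroupOf.2 he))

end Amb

end Cfsg.Agent.H619.FR
end

-- part: H957/FROne_mg
section
prune_inst 0x4416200000018001040205c4392000522000800002804010204c88c60a982282189a00518020208450031006813100030000000000000000001190080000004008148010882009000000001000000000000000000000080000000000000c010000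
set_option linter.all false
open scoped Cfsg.Agent.FastGrp

-- part: H957/FRKlein
section
/-!
# Normal four-subgroups of 2-groups

`exists_good` : `G` a finite 2-group, `N` a normal subgroup containing the central involution `z`; if `N` contains a
four-subgroup avoiding `z`, or an element of order four whose square is not `z`, then there is an involution `t ≠ z` of
`N` all of whose conjugates are `t` or `t z`.
-/

set_option autoImplicit false

namespace Cfsg.Agent.H957.FR

open Subgroup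

variable {G : Type*} [Group G]

theorem exists_maxab [Finite G] (h2 : IsPGroup 2 G) (N : Subgroup G) [hN : N.Normal] :
    ∃ A : Subgroup G, A.Normal ∧ IsMulCommutative A ∧ A ≤ N ∧
      ∀ x ∈ N, x ∈ centralizer (A : Set G) → x ∈ A := by
  have : Fact (Nat.Prime 2) := ⟨Nat.prime_two⟩
  have hnil : Group.IsNilpotent G := h2.isNilpotent
  obtain ⟨A, hA⟩ := (Set.toFinite {A : Subgroup G | A.Normal ∧ IsMulCommutative A ∧ A ≤ N}).exists_maximal
    ⟨⊥, inferInstance, inferInstance, bot_le⟩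
  obtain ⟨hA1, hA2, hA3⟩ := hA.prop
  refine ⟨A, hA1, hA2, hA3, ?_⟩
  by_contra hcon
  push Not at hcon
  obtain ⟨y, hyN, hyC, hyA⟩ := hcon
  have hC : (N ⊓ centralizer (A : Set G)).Normal := inferInstance
  obtain ⟨x, hx, hxA, hxg⟩ := Cfsg.Agent.Lib.NormalAbelian.exists_mem_not_mem_central_mod hA1 hC
    (fun h => hyA (h ⟨hyN, hyC⟩))
  obtain ⟨h3, h4⟩ := Cfsg.Agent.Lib.NormalAbelian.sup_zpowers_normal_abelian hA1 hA2 hx.2 hxg
  have h5 := hA.le_of_ge ⟨h3, h4, sup_le hA3 (zpowers_le.2 hx.1)⟩ le_sup_left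
  exact hxA (h5 ((le_sup_right : zpowers x ≤ A ⊔ zpowers x) (mem_zpowers x)))

/-- A power of order four. -/
theorem exists_four [Finite G] (h2 : IsPGroup 2 G) {b : G} (hb : b * b ≠ 1) :
    ∃ k : ℕ, (b ^ k) * (b ^ k) ≠ 1 ∧ ((b ^ k) * (b ^ k)) * ((b ^ k) * (b ^ k)) = 1 := by
  classical
  have hex : ∃ k, b ^ 2 ^ k = 1 := h2 b
  have hspec := Nat.find_spec hex
  have hmin := fun m => Nat.find_min hex (m := m)
  generalize Nat.find hex = k at hspec hmin
  match k, hspec, hmin with
  | 0, h, _ =>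
    rw [pow_zero, pow_one] at h
    exact absurd (by rw [h, mul_one]) hb
  | 1, h, _ =>
    rw [pow_one, pow_two] at h
    exact absurd h hb
  | k + 2, h, hmin =>
    refine ⟨2 ^ k, ?_, ?_⟩
    · rw [← pow_add, ← two_mul, ← pow_succ']
      exact hmin (k + 1) (by omega)
    · rw [← pow_add, ← pow_add, ← h]
      congr 1
      ring

/-- A power outside `A` with square in `A`. -/
theorem exists_sq [Finite G] (h2 : IsPGroup 2 G) (A : Subgroup G) {b : G} (hb : b ∉ A) :
    ∃ k : ℕ, b ^ k ∉ A ∧ (b ^ k) * (b ^ k) ∈ A := by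
  classical
  have hex : ∃ k, b ^ 2 ^ k ∈ A := by
    obtain ⟨k, hk⟩ := h2 b
    exact ⟨k, by rw [hk]; exact A.one_mem⟩
  have hspec := Nat.find_spec hex
  have hmin := fun m => Nat.find_min hex (m := m)
  generalize Nat.find hex = k at hspec hmin
  match k, hspec, hmin with
  | 0, h, _ =>
    rw [pow_zero, pow_one] at h
    exact absurd h hb
  | k + 1, h, hmin =>
    refine ⟨2 ^ k, hmin k (by omega), ?_⟩
    rw [← pow_add, ← two_mul, ← pow_succ']
    exact h

/-- The core step. -/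
theorem core {N A : Subgroup G} (hN : N.Normal) (hA : A.Normal) {a z w : G} (haA : A = zpowers a)
    (hAN : A ≤ N) (hself : ∀ x ∈ N, x ∈ centralizer (A : Set G) → x ∈ A)
    (hz : ∀ g : G, g * z = z * g) (hz2 : z * z = 1) (hz1 : z ≠ 1) (hzA : z ∈ A)
    (hinv : ∀ x ∈ A, x * x = 1 → x = 1 ∨ x = z) (hw : w ∈ A) (hwz : w * w = z)
    {b : G} (hbN : b ∈ N) (hbA : b ∉ A) (hbb : b * b ∈ A) (hbw : b * w = w * b)
    (hc4 : ∀ c ∈ A, c * c ≠ 1 → ∃ k : ℕ, (c ^ k) * (c ^ k) ≠ 1 ∧
      ((c ^ k) * (c ^ k)) * ((c ^ k) * (c ^ k)) = 1) :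
    ∃ t ∈ N, t * t = 1 ∧ t ≠ 1 ∧ t ≠ z ∧ ∀ g : G, g * t * g⁻¹ = t ∨ g * t * g⁻¹ = t * z := by
  have hcomm : ∀ x ∈ A, ∀ y ∈ A, x * y = y * x := by
    intro x hx y hy
    rw [haA] at hx hy
    obtain ⟨i, rfl⟩ := hx
    obtain ⟨j, rfl⟩ := hy
    exact ((Commute.refl a).zpow_zpow i j)
  have haA' : a ∈ A := by rw [haA]; exact mem_zpowers a
  -- square roots of `z` in `A`
  have hroot : ∀ x ∈ A, x * x = z → x = w ∨ x = w * z := by
    intro x hx hxz
    have h1 : (x * w⁻¹) * (x * w⁻¹) = 1 := by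
      have h2 : x * w⁻¹ * (x * w⁻¹) = (x * x) * (w * w)⁻¹ := by
        have h3 : w⁻¹ * x = x * w⁻¹ := hcomm _ (A.inv_mem hw) _ hx
        calc x * w⁻¹ * (x * w⁻¹) = x * (w⁻¹ * x) * w⁻¹ := by group
          _ = (x * x) * (w * w)⁻¹ := by rw [h3]; group
      rw [h2, hxz, hwz, mul_inv_cancel]
    rcases hinv _ (A.mul_mem hx (A.inv_mem hw)) h1 with h | h
    · left
      exact mul_inv_eq_one.1 h
    · right
      rw [mul_inv_eq_iff_eq_mul] at h
      rw [h, hz]
  have hww : w ≠ w⁻¹ := by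
    intro h
    apply hz1
    rw [← hwz]
    nth_rewrite 1 [h]
    exact inv_mul_cancel w
  -- `c = [b, a] = z`
  have hba : b * a * b⁻¹ = z * a := by
    obtain ⟨c, hc⟩ : ∃ c, c = b * a * b⁻¹ * a⁻¹ := ⟨_, rfl⟩
    have hcA : c ∈ A := by
      rw [hc]
      exact A.mul_mem (hA.conj_mem a haA' b) (A.inv_mem haA')
    have hbc : b * c * b⁻¹ = c⁻¹ := by
      have h1 : b * b * a = a * (b * b) := hcomm _ hbb _ haA'
      have h2 : b * c * b⁻¹ = (b * b * a) * (b * b)⁻¹ * (b * a⁻¹ * b⁻¹) := by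
        rw [hc]; group
      rw [h2, h1, hc]
      group
    have hcc : c * c = 1 := by
      by_contra hne
      obtain ⟨k, hk1, hk2⟩ := hc4 c hcA hne
      have hck : c ^ k ∈ A := A.pow_mem hcA k
      have h3 : c ^ k * c ^ k = z := by
        rcases hinv _ (A.mul_mem hck hck) hk2 with h | h
        · exact absurd h hk1
        · exact h
      have h4 : b * c ^ k * b⁻¹ = (c ^ k)⁻¹ := by rw [← conj_pow, hbc, inv_pow]
      have h5 : b * w * b⁻¹ = w := by rw [hbw]; group
      rcases hroot _ hck h3 with h | h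
      · rw [h, h5] at h4
        exact hww h4
      · rw [h] at h4
        have h6 : b * (w * z) * b⁻¹ = w * z := by
          calc b * (w * z) * b⁻¹ = (b * w) * (z * b⁻¹) := by group
            _ = (w * b) * (b⁻¹ * z) := by rw [hbw, hz b⁻¹]
            _ = w * z := by group
        rw [h6, mul_inv_rev] at h4
        apply hww
        have h7 : z⁻¹ = z := inv_eq_of_mul_eq_one_left hz2
        rw [h7, ← hz w⁻¹] at h4
        exact mul_right_cancel h4
    rcases hinv c hcA hcc with h | h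
    · exfalso
      apply hbA
      apply hself b hbN
      rw [haA, mem_centralizer_iff]
      rintro _ ⟨i, rfl⟩
      have h1 : Commute b a := by
        rw [h] at hc
        have := mul_inv_eq_one.1 hc.symm
        exact mul_inv_eq_iff_eq_mul.1 this
      exact (h1.zpow_right i).symm
    · rw [h] at hc
      exact (mul_inv_eq_iff_eq_mul.1 hc.symm)
  have hzz : ∀ i : ℤ, z ^ i = 1 ∨ z ^ i = z := by
    intro i
    have h1 : z ^ (2 : ℤ) = 1 := by rw [zpow_two, hz2]
    rcases Int.even_or_odd' i with ⟨j, rfl | rfl⟩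
    · left
      rw [zpow_mul, h1, one_zpow]
    · right
      rw [zpow_add, zpow_mul, h1, one_zpow, one_mul, zpow_one]
  have hzinv : z⁻¹ = z := inv_eq_of_mul_eq_one_left hz2
  have hcza : Commute z a := (hz a).symm
  have hbai : ∀ i : ℤ, b * a ^ i * b⁻¹ = z ^ i * a ^ i := by
    intro i
    rw [← conj_zpow, hba, hcza.mul_zpow]
  -- `b² = a ^ (2 i)`
  obtain ⟨i, hi⟩ : ∃ i : ℤ, b * b = a ^ (2 * i) := by
    rw [haA] at hbb
    obtain ⟨j, hj⟩ := hbb
    have hj' : a ^ j = b * b := hj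
    have h1 : z ^ j = 1 := by
      have h2 := hbai j
      rw [hj'] at h2
      have h3 : b * (b * b) * b⁻¹ = b * b := by group
      rw [h3] at h2
      exact (mul_eq_right.1 h2.symm)
    rcases Int.even_or_odd' j with ⟨i, rfl | rfl⟩
    · exact ⟨i, hj'.symm⟩
    · exfalso
      rw [zpow_add, zpow_mul, zpow_two, hz2, one_zpow, one_mul, zpow_one] at h1
      exact hz1 h1
  have hiA : a ^ (-i) ∈ A := A.zpow_mem haA' _
  have hsq : (b * a ^ (-i)) * (b * a ^ (-i)) = z ^ i := by
    have h1 := hbai (-i)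
    have h2 : b * a ^ (-i) = z ^ (-i) * a ^ (-i) * b := by
      rw [← h1]; group
    have h3 : Commute (z ^ (-i)) b := ((show Commute z b from (hz b).symm)).zpow_left _
    calc (b * a ^ (-i)) * (b * a ^ (-i)) = (z ^ (-i) * a ^ (-i) * b) * (b * a ^ (-i)) := by
          conv_lhs => rw [h2]
          rw [← h2]
      _ = z ^ (-i) * (a ^ (-i) * (b * b) * a ^ (-i)) := by group
      _ = z ^ (-i) := by
          rw [hi, ← zpow_add, ← zpow_add]
          have : -i + 2 * i + -i = 0 := by ring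
          rw [this, zpow_zero, mul_one]
      _ = z ^ i := by
          rw [zpow_neg, ← inv_zpow, hzinv]
  -- the involution `t`
  obtain ⟨y, hyA, hyt⟩ : ∃ y ∈ A, (b * y) * (b * y) = 1 := by
    rcases hzz i with h | h
    · exact ⟨_, hiA, by rw [hsq, h]⟩
    · refine ⟨a ^ (-i) * w, A.mul_mem hiA hw, ?_⟩
      have h1 : Commute w (b * a ^ (-i)) := by
        have h2 : Commute w b := hbw.symm
        have h3 : Commute w (a ^ (-i)) := hcomm _ hw _ hiA
        exact h2.mul_right h3
      calc b * (a ^ (-i) * w) * (b * (a ^ (-i) * w))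
          = (b * a ^ (-i)) * (w * (b * a ^ (-i))) * w := by group
        _ = ((b * a ^ (-i)) * (b * a ^ (-i))) * (w * w) := by rw [h1.eq]; group
        _ = 1 := by rw [hsq, h, hwz, hz2]
  obtain ⟨t, ht⟩ : ∃ t, t = b * y := ⟨_, rfl⟩
  rw [← ht] at hyt
  have htN : t ∈ N := by rw [ht]; exact N.mul_mem hbN (hAN hyA)
  have htA : t ∉ A := by
    intro h
    apply hbA
    have : b = t * y⁻¹ := by rw [ht]; group
    rw [this]
    exact A.mul_mem h (A.inv_mem hyA)
  have hta : t * a * t⁻¹ = z * a := by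
    have h1 : y * a = a * y := hcomm _ hyA _ haA'
    calc t * a * t⁻¹ = b * (y * a) * y⁻¹ * b⁻¹ := by rw [ht]; group
      _ = z * a := by rw [h1, ← hba]; group
  have htai : ∀ i : ℤ, t * a ^ i * t⁻¹ = z ^ i * a ^ i := by
    intro i
    rw [← conj_zpow, hta, hcza.mul_zpow]
  have htw : t * w * t⁻¹ = w := by
    have h1 : y * w = w * y := hcomm _ hyA _ hw
    calc t * w * t⁻¹ = b * (y * w) * y⁻¹ * b⁻¹ := by rw [ht]; group
      _ = b * w * b⁻¹ := by rw [h1]; group
      _ = w := by rw [hbw]; group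
  have htinv : t⁻¹ = t := inv_eq_of_mul_eq_one_left hyt
  refine ⟨t, htN, hyt, ?_, ?_, fun g => ?_⟩
  · intro h
    exact htA (h ▸ A.one_mem)
  · intro h
    exact htA (h ▸ hzA)
  · -- conjugates
    obtain ⟨t', ht'⟩ : ∃ t', t' = g * t * g⁻¹ := ⟨_, rfl⟩
    obtain ⟨a', ha'⟩ : ∃ a', a' = g * a * g⁻¹ := ⟨_, rfl⟩
    rw [← ht']
    have ha'A : a' ∈ A := by rw [ha']; exact hA.conj_mem a haA' g
    have hgen : ∀ x ∈ A, ∃ k : ℤ, x = a' ^ k := by
      intro x hx
      have h1 : g⁻¹ * x * g ∈ A := by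
        have := hA.conj_mem x hx g⁻¹
        rwa [inv_inv] at this
      rw [haA] at h1
      obtain ⟨k, hk⟩ := h1
      refine ⟨k, ?_⟩
      have hk' : a ^ k = g⁻¹ * x * g := hk
      rw [ha', conj_zpow, hk']
      group
    have h1 : t' * a' * t'⁻¹ = z * a' := by
      calc t' * a' * t'⁻¹ = g * (t * a * t⁻¹) * g⁻¹ := by rw [ht', ha']; group
        _ = (g * z) * a * g⁻¹ := by rw [hta]; group
        _ = z * a' := by rw [hz, ha']; group
    have h2 : t * a' * t⁻¹ = z * a' := by
      have h3 := ha'A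
      rw [haA] at h3
      obtain ⟨m, hm⟩ := h3
      have hm' : a ^ m = a' := hm
      have h4 := htai m
      rw [hm'] at h4
      rcases hzz m with h5 | h5
      · exfalso
        rw [h5, one_mul] at h4
        apply htA
        apply hself t htN
        rw [mem_centralizer_iff]
        intro x hx
        obtain ⟨k, rfl⟩ := hgen x hx
        have h6 : Commute t a' := mul_inv_eq_iff_eq_mul.1 h4
        exact (h6.zpow_right k).symm
      · rw [h4, h5]
    have h2' : t⁻¹ * a' * t = z * a' := by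
      rw [htinv]
      rwa [htinv] at h2
    have hyA' : t' * t⁻¹ ∈ A := by
      apply hself
      · refine N.mul_mem ?_ (N.inv_mem htN)
        rw [ht']
        exact hN.conj_mem t htN g
      · rw [mem_centralizer_iff]
        intro x hx
        obtain ⟨k, rfl⟩ := hgen x hx
        have h6 : Commute (t' * t⁻¹) a' := by
          have h7 : (t' * t⁻¹) * a' * (t' * t⁻¹)⁻¹ = a' := by
            calc (t' * t⁻¹) * a' * (t' * t⁻¹)⁻¹ = t' * (t⁻¹ * a' * t) * t'⁻¹ := by group
              _ = (t' * z) * a' * t'⁻¹ := by rw [h2']; group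
              _ = z * (t' * a' * t'⁻¹) := by rw [hz]; group
              _ = z * z * a' := by rw [h1]; group
              _ = a' := by rw [hz2, one_mul]
          exact mul_inv_eq_iff_eq_mul.1 h7
        exact (h6.zpow_right k).symm
    obtain ⟨x, hx⟩ : ∃ x, x = t' * t⁻¹ := ⟨_, rfl⟩
    rw [← hx] at hyA'
    have hxt : t' = x * t := by rw [hx]; group
    have ht'2 : t' * t' = 1 := by
      calc t' * t' = g * (t * t) * g⁻¹ := by rw [ht']; group
        _ = 1 := by rw [hyt]; group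
    have hxA := hyA'
    rw [haA] at hxA
    obtain ⟨l, hl⟩ := hxA
    have hl' : a ^ l = x := hl
    have h8 := htai l
    rw [hl'] at h8
    have h9 : x * (z ^ l * x) = 1 := by
      rw [← h8, ← ht'2, hxt]
      calc x * (t * x * t⁻¹) = x * t * x * t * (t⁻¹ * t⁻¹) := by group
        _ = x * t * (x * t) := by rw [htinv, hyt]; group
    rcases hzz l with h10 | h10
    · rw [h10, one_mul] at h9
      rcases hinv x hyA' h9 with h11 | h11
      · left
        rw [hxt, h11, one_mul]
      · right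
        rw [hxt, h11, hz]
    · exfalso
      rw [h10] at h8 h9
      have h11 : x * x = z := by
        have h12 : z * (x * x) = 1 := by
          rw [← h9, ← mul_assoc, ← mul_assoc, hz x]
        rw [← hzinv]
        exact eq_inv_of_mul_eq_one_right h12
      have h13 : t * x * t⁻¹ = x := by
        rcases hroot x hyA' h11 with h14 | h14
        · rw [h14]; exact htw
        · rw [h14]
          calc t * (w * z) * t⁻¹ = (t * w) * (z * t⁻¹) := by group
            _ = (t * w) * (t⁻¹ * z) := by rw [hz t⁻¹]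
            _ = (t * w * t⁻¹) * z := by group
            _ = w * z := by rw [htw]
      rw [h13] at h8
      exact hz1 (mul_eq_right.1 h8.symm)

/-- **The theorem.** -/
theorem exists_good [Finite G] (h2 : IsPGroup 2 G) {N : Subgroup G} (hN : N.Normal) {z : G}
    (hz : ∀ g : G, g * z = z * g) (hzN : z ∈ N) (hz2 : z * z = 1) (hz1 : z ≠ 1)
    (h : (∃ s ∈ N, ∃ s' ∈ N, s * s = 1 ∧ s' * s' = 1 ∧ s * s' = s' * s ∧ s ≠ 1 ∧ s ≠ z ∧ s' ≠ 1 ∧
      s' ≠ z ∧ s * s' ≠ 1 ∧ s * s' ≠ z) ∨
      ∃ u ∈ N, u * u ≠ 1 ∧ u * u ≠ z ∧ (u * u) * (u * u) = 1) :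
    ∃ t ∈ N, t * t = 1 ∧ t ≠ 1 ∧ t ≠ z ∧ ∀ g : G, g * t * g⁻¹ = t ∨ g * t * g⁻¹ = t * z := by
  by_contra hno
  have : Fact (Nat.Prime 2) := ⟨Nat.prime_two⟩
  have hnil : Group.IsNilpotent G := h2.isNilpotent
  obtain ⟨A, hA, hAc, hAN, hself⟩ := exists_maxab h2 N
  have hcomm : ∀ x ∈ A, ∀ y ∈ A, x * y = y * x := by
    intro x hx y hy
    exact congrArg Subtype.val ((isMulCommutative_iff.mp hAc) ⟨x, hx⟩ ⟨y, hy⟩)
  have hzA : z ∈ A := by
    apply hself z hzN
    rw [mem_centralizer_iff]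
    intro x _
    exact hz x
  have hzz : ∀ x ∈ zpowers z, x = 1 ∨ x = z := by
    rintro _ ⟨i, rfl⟩
    have h1 : z ^ (2 : ℤ) = 1 := by rw [zpow_two, hz2]
    rcases Int.even_or_odd' i with ⟨j, rfl | rfl⟩
    · left
      change z ^ (2 * j) = 1
      rw [zpow_mul, h1, one_zpow]
    · right
      change z ^ (2 * j + 1) = z
      rw [zpow_add, zpow_mul, h1, one_zpow, one_mul, zpow_one]
  have hzinv : z⁻¹ = z := inv_eq_of_mul_eq_one_left hz2
  -- the involutions of `A`
  have hinv : ∀ x ∈ A, x * x = 1 → x = 1 ∨ x = z := by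
    by_contra hcon
    push Not at hcon
    obtain ⟨x, hxA, hxx, hx1, hxz⟩ := hcon
    apply hno
    let Om : Subgroup G :=
      { carrier := {x | x ∈ A ∧ x * x = 1}
        mul_mem' := by
          rintro x y ⟨hx, hx2⟩ ⟨hy, hy2⟩
          refine ⟨A.mul_mem hx hy, ?_⟩
          have h1 := hcomm y hy x hx
          calc x * y * (x * y) = x * (y * x) * y := by group
            _ = (x * x) * (y * y) := by rw [h1]; group
            _ = 1 := by rw [hx2, hy2, one_mul]
        one_mem' := ⟨A.one_mem, mul_one 1⟩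
        inv_mem' := by
          rintro x ⟨hx, hx2⟩
          refine ⟨A.inv_mem hx, ?_⟩
          rw [← mul_inv_rev, hx2, inv_one] }
    have hOm : Om.Normal := ⟨by
      rintro x ⟨hx, hx2⟩ g
      refine ⟨hA.conj_mem x hx g, ?_⟩
      calc g * x * g⁻¹ * (g * x * g⁻¹) = g * (x * x) * g⁻¹ := by group
        _ = 1 := by rw [hx2]; group⟩
    have hZ : (zpowers z).Normal := ⟨by
      intro x hx g
      rcases hzz x hx with h1 | h1
      · rw [h1]
        simp
      · rw [h1, hz]
        simp⟩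
    obtain ⟨t, ht, htz, htg⟩ := Cfsg.Agent.Lib.NormalAbelian.exists_mem_not_mem_central_mod hZ hOm
      (fun h1 => by
        rcases hzz x (h1 ⟨hxA, hxx⟩) with h2 | h2
        · exact hx1 h2
        · exact hxz h2)
    refine ⟨t, hAN ht.1, ht.2, ?_, ?_, fun g => ?_⟩
    · intro h1
      exact htz (h1 ▸ (zpowers z).one_mem)
    · intro h1
      exact htz (h1 ▸ mem_zpowers z)
    · have htinv : t⁻¹ = t := inv_eq_of_mul_eq_one_left ht.2
      have h0 : t * (g * t * g⁻¹) = t * g * t⁻¹ * g⁻¹ := by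
        rw [htinv]; group
      rcases hzz _ (htg g) with h1 | h1
      · left
        rw [h1] at h0
        have h3 := eq_inv_of_mul_eq_one_right h0
        rwa [htinv] at h3
      · right
        rw [h1] at h0
        rw [← h0, ← mul_assoc, ht.2, one_mul]
  -- `A` is cyclic
  obtain ⟨a, haA⟩ : ∃ a : G, A = zpowers a := by
    have hU : Cfsg.Agent.Solvable.UniqueOrderP.UniqueP 2 ↥A := by
      intro x y hx1 hx hy
      have hx' : (x : G) * x = 1 := by
        have := congrArg Subtype.val hx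
        rwa [pow_two] at this
      have hy' : (y : G) * y = 1 := by
        have := congrArg Subtype.val hy
        rwa [pow_two] at this
      have hxz : (x : G) = z := (hinv x x.2 hx').resolve_left (fun h1 => hx1 (Subtype.ext h1))
      rcases hinv y y.2 hy' with h1 | h1
      · have : y = 1 := Subtype.ext h1
        rw [this]
        exact one_mem _
      · have : y = x := Subtype.ext (h1.trans hxz.symm)
        rw [this]
        exact mem_zpowers x
    obtain ⟨a, ha⟩ := Cfsg.Agent.Solvable.UniqueOrderP.exists_eq_zpowers_of_comm 2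
      (h2.to_subgroup A) hU ⊤ (by
        rw [isMulCommutative_iff]
        rintro ⟨x, -⟩ ⟨y, -⟩
        exact Subtype.ext (Subtype.ext (hcomm x x.2 y y.2)))
    refine ⟨a, le_antisymm (fun x hx => ?_) (zpowers_le.2 a.2)⟩
    have h1 : (⟨x, hx⟩ : A) ∈ zpowers a := by rw [← ha]; exact mem_top _
    obtain ⟨k, hk⟩ := h1
    exact ⟨k, by
      have := congrArg Subtype.val hk
      simpa using this⟩
  -- an element of order four
  obtain ⟨w, hw, hwz⟩ : ∃ w ∈ A, w * w = z := by
    by_contra hcon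
    push Not at hcon
    have h1 : ∀ x ∈ A, x = 1 ∨ x = z := by
      intro x hx
      by_cases hxx : x * x = 1
      · exact hinv x hx hxx
      · exfalso
        obtain ⟨k, hk1, hk2⟩ := exists_four h2 hxx
        have hxk : x ^ k ∈ A := A.pow_mem hx k
        rcases hinv _ (A.mul_mem hxk hxk) hk2 with h3 | h3
        · exact hk1 h3
        · exact hcon _ hxk h3
    have h3 : ∀ x ∈ N, x = 1 ∨ x = z := by
      intro x hx
      apply h1
      apply hself x hx
      rw [mem_centralizer_iff]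
      intro y hy
      rcases h1 y hy with h4 | h4
      · rw [h4, one_mul, mul_one]
      · rw [h4, hz]
    rcases h with ⟨s, hs, -, -, -, -, -, hs1, hsz, -⟩ | ⟨u, hu, hu1, hu2, -⟩
    · rcases h3 s hs with h4 | h4
      · exact hs1 h4
      · exact hsz h4
    · rcases h3 _ (N.mul_mem hu hu) with h4 | h4
      · exact hu1 h4
      · exact hu2 h4
  have hwinv : w⁻¹ = w * z := by
    rw [inv_eq_iff_mul_eq_one, ← mul_assoc, hwz, hz2]
  -- the centraliser of `w` in `N`
  have hcw : ∀ b ∈ N, b * w = w * b → b ∈ A := by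
    intro b hb hbw
    by_contra hbA
    obtain ⟨k, hk1, hk2⟩ := exists_sq h2 A hbA
    exact hno (core hN hA haA hAN hself hz hz2 hz1 hzA hinv hw hwz (N.pow_mem hb k) hk1 hk2
      ((show Commute b w from hbw).pow_left k) (fun c _ hc => exists_four h2 hc))
  have hconj : ∀ b : G, b * w * b⁻¹ = w ∨ b * w * b⁻¹ = w * z := by
    intro b
    have h1 : b * w * b⁻¹ ∈ A := hA.conj_mem w hw b
    have h3 : (b * w * b⁻¹) * (b * w * b⁻¹) = z := by
      calc (b * w * b⁻¹) * (b * w * b⁻¹) = b * (w * w) * b⁻¹ := by group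
        _ = z := by rw [hwz, hz]; group
    obtain ⟨x, hx⟩ : ∃ x, x = b * w * b⁻¹ := ⟨_, rfl⟩
    rw [← hx] at h1 h3 ⊢
    have h4 : (x * w⁻¹) * (x * w⁻¹) = 1 := by
      have h5 : w⁻¹ * x = x * w⁻¹ := hcomm _ (A.inv_mem hw) _ h1
      calc x * w⁻¹ * (x * w⁻¹) = x * (w⁻¹ * x) * w⁻¹ := by group
        _ = (x * x) * (w * w)⁻¹ := by rw [h5]; group
        _ = 1 := by rw [h3, hwz, mul_inv_cancel]
    rcases hinv _ (A.mul_mem h1 (A.inv_mem hw)) h4 with h5 | h5
    · left
      exact mul_inv_eq_one.1 h5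
    · right
      rw [mul_inv_eq_iff_eq_mul] at h5
      rw [h5, hz]
  have hprod : ∀ b b' : G, b * w * b⁻¹ = w * z → b' * w * b'⁻¹ = w * z →
      (b * b') * w = w * (b * b') := by
    intro b b' h1 h3
    have h4 : (b * b') * w * (b * b')⁻¹ = w := by
      calc (b * b') * w * (b * b')⁻¹ = b * (b' * w * b'⁻¹) * b⁻¹ := by group
        _ = b * w * (z * b⁻¹) := by rw [h3]; group
        _ = (b * w * b⁻¹) * z := by rw [← hz]; group
        _ = w * (z * z) := by rw [h1, mul_assoc]
        _ = w := by rw [hz2, mul_one]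
    exact mul_inv_eq_iff_eq_mul.1 h4
  rcases h with ⟨s, hs, s', hs', hss, hss', hc, hs1, hsz, hs1', hsz', hp1, hpz⟩ | ⟨u, hu, hu1, hu2, hu4⟩
  · rcases hconj s with h1 | h1
    · rcases hinv s (hcw s hs (mul_inv_eq_iff_eq_mul.1 h1)) hss with h3 | h3
      · exact hs1 h3
      · exact hsz h3
    · rcases hconj s' with h3 | h3
      · rcases hinv s' (hcw s' hs' (mul_inv_eq_iff_eq_mul.1 h3)) hss' with h4 | h4
        · exact hs1' h4
        · exact hsz' h4
      · have h4 : s * s' * (s * s') = 1 := by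
          calc s * s' * (s * s') = s * (s' * s) * s' := by group
            _ = (s * s) * (s' * s') := by rw [← hc]; group
            _ = 1 := by rw [hss, hss', one_mul]
        rcases hinv _ (hcw _ (N.mul_mem hs hs') (hprod s s' h1 h3)) h4 with h5 | h5
        · exact hp1 h5
        · exact hpz h5
  · have h1 : (u * u) * w = w * (u * u) := by
      rcases hconj u with h3 | h3
      · have h4 : Commute u w := mul_inv_eq_iff_eq_mul.1 h3
        exact (h4.mul_left h4)
      · exact hprod u u h3 h3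
    rcases hinv _ (hcw _ (N.mul_mem hu hu) h1) hu4 with h3 | h3
    · exact hu1 h3
    · exact hu2 h3

end Cfsg.Agent.H957.FR
end

-- part: H957/FROne
section
/-!
# TEAM SR part 2 (S4970): `[FR-ONE]`

* `red_one` : a maximal 2-subgroup of `Isom B`, `dim ≥ 3`, preserves a proper nondegenerate subspace or an orthogonal
  decomposition into two subspaces;
* `red_pm` : the same for the maximal 2-subgroups of the group of isometries and anti-isometries of an alternating form.
-/

set_option autoImplicit false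

universe u

namespace Cfsg.Agent.H957.FR

open Cfsg.Agent.H721.FR Cfsg.Agent.H721.SR Module

variable {F V : Type u} [Field F] [AddCommGroup V] [Module F V] {B : V →ₗ[F] V →ₗ[F] F} {ε : F}

/-! ### Involutions -/

theorem ndOn_fix (h2 : (2 : F) ≠ 0) (hnd : ∀ x, (∀ y, B x y = 0) → x = 0) {t : V ≃ₗ[F] V}
    (ht : t ∈ Isom B) (htt : t * t = 1) {U : Submodule F V} (hU : ∀ x, x ∈ U ↔ t x = x) :
    NdOn B U := by
  intro x hx h
  have htt' : ∀ v, t (t v) = v := fun v => LinearEquiv.congr_fun htt v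
  apply hnd
  intro v
  have h3 : v + t v ∈ U := by
    rw [hU, map_add, htt', add_comm]
  have h4 := h _ h3
  have h5 : B x (t v) = B x v := by
    have h6 := ht x v
    rwa [(hU x).1 hx] at h6
  rw [map_add, h5] at h4
  have h7 : (2 : F) * B x v = 0 := by rw [two_mul]; exact h4
  exact (mul_eq_zero.1 h7).resolve_left h2

theorem perp_fix (h2 : (2 : F) ≠ 0) (hsymm : ∀ x y, B x y = ε * B y x)
    (hnd : ∀ x, (∀ y, B x y = 0) → x = 0) {t : V ≃ₗ[F] V}
    (ht : t ∈ Isom B) (htt : t * t = 1) {U : Submodule F V} (hU : ∀ x, x ∈ U ↔ t x = x) (x : V) :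
    x ∈ perp B U ↔ t x = -x := by
  have htt' : ∀ v, t (t v) = v := fun v => LinearEquiv.congr_fun htt v
  rw [mem_perp]
  constructor
  · intro h
    have h3 : x + t x ∈ U := by
      rw [hU, map_add, htt', add_comm]
    have h4 : x + t x = 0 := by
      refine ndOn_fix h2 hnd ht htt hU _ h3 fun y hy => ?_
      rw [hsymm, map_add, h y hy, zero_add]
      have h5 := ht y x
      rw [(hU y).1 hy, h y hy] at h5
      rw [h5, mul_zero]
    rw [eq_neg_iff_add_eq_zero, add_comm]
    exact h4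
  · intro h y hy
    have h5 := ht y x
    rw [(hU y).1 hy, h, map_neg] at h5
    have h7 : (2 : F) * B y x = 0 := by
      rw [two_mul]
      nth_rewrite 1 [← h5]
      exact neg_add_cancel _
    exact (mul_eq_zero.1 h7).resolve_left h2

theorem neg_comm (g : V ≃ₗ[F] V) :
    g * (LinearEquiv.neg F : V ≃ₗ[F] V) = (LinearEquiv.neg F : V ≃ₗ[F] V) * g := by
  ext x
  exact map_neg g x

theorem neg_neg' : (LinearEquiv.neg F : V ≃ₗ[F] V) * (LinearEquiv.neg F : V ≃ₗ[F] V) = 1 := by
  ext x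
  exact neg_neg x

theorem neg_mem_isom : (LinearEquiv.neg F : V ≃ₗ[F] V) ∈ Isom B := by
  intro x y
  change B (-x) (-y) = B x y
  simp

/-- The decomposition from an isometric involution. -/
theorem red_of_invol (h2 : (2 : F) ≠ 0) (hsymm : ∀ x y, B x y = ε * B y x)
    (hnd : ∀ x, (∀ y, B x y = 0) → x = 0) {t : V ≃ₗ[F] V}
    (ht : t ∈ Isom B) (htt : t * t = 1) (ht1 : t ≠ 1) (htn : t ≠ LinearEquiv.neg F)
    {P : Subgroup (V ≃ₗ[F] V)}
    (hP : ∀ g ∈ P, g * t * g⁻¹ = t ∨ g * t * g⁻¹ = t * LinearEquiv.neg F) : Red B P := by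
  have htt' : ∀ v, t (t v) = v := fun v => LinearEquiv.congr_fun htt v
  obtain ⟨U, hU⟩ : ∃ U : Submodule F V, ∀ x, x ∈ U ↔ t x = x :=
    ⟨{ carrier := {x | t x = x}
       add_mem' := by
        intro a b ha hb
        change t (a + b) = a + b
        rw [map_add, show t a = a from ha, show t b = b from hb]
       zero_mem' := map_zero t
       smul_mem' := by
        intro c x hx
        change t (c • x) = c • x
        rw [map_smul, show t x = x from hx] }, fun x => Iff.rfl⟩
  refine ⟨U, ?_, ?_, ndOn_fix h2 hnd ht htt hU, fun g hg => ?_⟩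
  · rintro rfl
    apply htn
    ext x
    have h3 : x + t x ∈ (⊥ : Submodule F V) := by
      rw [hU, map_add, htt', add_comm]
    rw [Submodule.mem_bot, add_comm] at h3
    exact eq_neg_of_add_eq_zero_left h3
  · rintro rfl
    apply ht1
    ext x
    exact (hU x).1 trivial
  · have hgt : ∀ {c : V ≃ₗ[F] V}, g * t * g⁻¹ = c → ∀ x, g (t x) = c (g x) := by
      intro c hc x
      have h3 : g * t = c * g := mul_inv_eq_iff_eq_mul.1 hc
      exact LinearEquiv.congr_fun h3 x
    have hmap : ∀ x, x ∈ U.map (g : V →ₗ[F] V) ↔ ∃ y ∈ U, g y = x := fun x => Submodule.mem_map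
    rcases hP g hg with h | h
    · left
      ext x
      rw [hmap]
      constructor
      · rintro ⟨y, hy, rfl⟩
        rw [hU, ← hgt h, (hU y).1 hy]
      · intro hx
        refine ⟨g.symm x, ?_, g.apply_symm_apply x⟩
        rw [hU]
        apply g.injective
        rw [hgt h, g.apply_symm_apply]
        exact (hU x).1 hx
    · right
      ext x
      rw [hmap, perp_fix h2 hsymm hnd ht htt hU]
      have h3 : ∀ y, g (t y) = t (-(g y)) := hgt h
      constructor
      · rintro ⟨y, hy, rfl⟩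
        have h4 := h3 y
        rw [(hU y).1 hy, map_neg] at h4
        rw [h4, neg_neg, ← h4]
      · intro hx
        refine ⟨g.symm x, ?_, g.apply_symm_apply x⟩
        rw [hU]
        apply g.injective
        rw [h3, g.apply_symm_apply, map_neg, hx, neg_neg]

/-! ### Elements of `Isom B` -/

theorem finrank_le_two {v v' : V} (h : Submodule.span F ({v, v'} : Set V) = ⊤) :
    finrank F V ≤ 2 := by
  classical
  have h4 := finrank_span_finset_le_card (R := F) ({v, v'} : Finset V)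
  rw [Finset.coe_pair, Set.finrank, h, finrank_top] at h4
  exact h4.trans Finset.card_le_two

/-- reflections -/
theorem exists_refl (hsymm : ∀ x y, B x y = B y x) {v : V} (hv : B v v ≠ 0) :
    ∃ s : V ≃ₗ[F] V, s ∈ Isom B ∧ s * s = 1 ∧ ∀ x, s x = x - (2 * (B v v)⁻¹ * B v x) • v := by
  have h : ((2 * (B v v)⁻¹) • B v) v = 2 := by
    rw [LinearMap.smul_apply, smul_eq_mul, mul_assoc, inv_mul_cancel₀ hv, mul_one]
  have happ : ∀ x, Module.reflection h x = x - (2 * (B v v)⁻¹ * B v x) • v := fun x => by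
    rw [Module.reflection_apply]
    rfl
  refine ⟨Module.reflection h, ?_, ?_, happ⟩
  · intro x y
    rw [happ, happ]
    simp only [map_sub, LinearMap.sub_apply, map_smul, LinearMap.smul_apply, smul_eq_mul]
    rw [hsymm x v]
    field_simp
    ring
  · ext x
    exact Module.involutive_reflection h x

/-- two orthogonal nonsingular vectors -/
theorem exists_pair (h2 : (2 : F) ≠ 0) (hsymm : ∀ x y, B x y = B y x)
    (hnd : ∀ x, (∀ y, B x y = 0) → x = 0) (hn : 2 ≤ finrank F V) :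
    ∃ v v' : V, B v v ≠ 0 ∧ B v' v' ≠ 0 ∧ B v v' = 0 := by
  have hfin : FiniteDimensional F V := FiniteDimensional.of_finrank_pos (by omega)
  have hnt : Nontrivial V := (Module.finrank_pos_iff (R := F)).1 (by omega)
  -- polarisation
  have hpol : ∀ x y, B x x = 0 → B y y = 0 → B (x + y) (x + y) = 0 → B x y = 0 := by
    intro x y hx hy hxy
    simp only [map_add, LinearMap.add_apply] at hxy
    rw [hx, hy, hsymm y x] at hxy
    have h : (2 : F) * B x y = 0 := by
      rw [← hxy]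
      ring
    exact (mul_eq_zero.1 h).resolve_left h2
  obtain ⟨v, hv⟩ : ∃ v, B v v ≠ 0 := by
    by_contra hcon
    push Not at hcon
    obtain ⟨x, hx⟩ := exists_ne (0 : V)
    exact hx (hnd x fun y => hpol x y (hcon _) (hcon _) (hcon _))
  obtain ⟨v', hv', hvv'⟩ : ∃ v', B v' v' ≠ 0 ∧ B v v' = 0 := by
    by_contra hcon
    push Not at hcon
    have h0 : ∀ x, B v x = 0 → B x x = 0 := fun x hx => by
      by_contra h
      exact hcon x h hx
    have h1 : ∀ x, B v x = 0 → x = 0 := by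
      intro x hx
      apply hnd
      intro y
      -- `y = y' + c v`
      have hy : B v (y - (B v y * (B v v)⁻¹) • v) = 0 := by
        rw [map_sub, map_smul, smul_eq_mul, mul_assoc, inv_mul_cancel₀ hv, mul_one, sub_self]
      have h3 : B x (y - (B v y * (B v v)⁻¹) • v) = 0 :=
        hpol x _ (h0 x hx) (h0 _ hy) (h0 _ (by rw [map_add, hx, hy, add_zero]))
      rw [map_sub, map_smul, hsymm x v, hx, smul_zero, sub_zero] at h3
      exact h3
    have h3 : Function.Injective (B v) := by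
      rw [injective_iff_map_eq_zero]
      exact h1
    have h4 := LinearMap.finrank_le_finrank_of_injective h3
    rw [finrank_self] at h4
    omega
  exact ⟨v, v', hv, hv', hvv'⟩

/-- The four-group of reflections. -/
theorem exists_four_orth (h2 : (2 : F) ≠ 0) (hsymm : ∀ x y, B x y = B y x)
    (hnd : ∀ x, (∀ y, B x y = 0) → x = 0) (hn : 3 ≤ finrank F V) :
    ∃ s ∈ Isom B, ∃ s' ∈ Isom B, s * s = 1 ∧ s' * s' = 1 ∧ s * s' = s' * s ∧ s ≠ 1 ∧
      s ≠ LinearEquiv.neg F ∧ s' ≠ 1 ∧ s' ≠ LinearEquiv.neg F ∧ s * s' ≠ 1 ∧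
      s * s' ≠ LinearEquiv.neg F := by
  obtain ⟨v, v', hv, hv', hvv'⟩ := exists_pair h2 hsymm hnd (by omega)
  obtain ⟨s, hs, hss, hsx⟩ := exists_refl hsymm hv
  obtain ⟨s', hs', hss', hsx'⟩ := exists_refl hsymm hv'
  have hv'v : B v' v = 0 := by rw [hsymm, hvv']
  have hv0 : v ≠ 0 := by
    rintro rfl
    rw [map_zero] at hv
    exact hv rfl
  have hv0' : v' ≠ 0 := by
    rintro rfl
    rw [map_zero] at hv'
    exact hv' rfl
  have e1 : s v = -v := by
    rw [hsx, mul_assoc, inv_mul_cancel₀ hv, mul_one, two_smul]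
    abel
  have e2 : s v' = v' := by rw [hsx, hvv', mul_zero, zero_smul, sub_zero]
  have e3 : s' v' = -v' := by
    rw [hsx', mul_assoc, inv_mul_cancel₀ hv', mul_one, two_smul]
    abel
  have e4 : s' v = v := by rw [hsx', hv'v, mul_zero, zero_smul, sub_zero]
  have hneg : ∀ {x : V}, x ≠ 0 → -x ≠ x := by
    intro x hx h
    apply hx
    have h3 : (2 : F) • x = 0 := by
      rw [two_smul]
      nth_rewrite 1 [← h]
      exact neg_add_cancel x
    exact (smul_eq_zero.1 h3).resolve_left h2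
  refine ⟨s, hs, s', hs', hss, hss', ?_, ?_, ?_, ?_, ?_, ?_, ?_⟩
  · ext x
    change s (s' x) = s' (s x)
    rw [hsx' x, hsx x, map_sub, map_smul, e2, map_sub, map_smul, e4, hsx, hsx']
    abel
  · rintro rfl
    exact hneg hv0 e1.symm
  · rintro rfl
    exact hneg hv0' e2
  · rintro rfl
    exact hneg hv0' e3.symm
  · rintro rfl
    exact hneg hv0 e4
  · intro h
    have h3 : s (s' v) = v := LinearEquiv.congr_fun h v
    rw [e4, e1] at h3
    exact hneg hv0 h3
  · intro h
    have hspan : ∀ x : V, x ∈ Submodule.span F ({v, v'} : Set V) := by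
      intro x
      have h3 : s (s' x) = -x := LinearEquiv.congr_fun h x
      rw [hsx', map_sub, map_smul, e2, hsx] at h3
      rw [Submodule.mem_span_pair]
      refine ⟨(2 : F)⁻¹ * (2 * (B v v)⁻¹ * B v x), (2 : F)⁻¹ * (2 * (B v' v')⁻¹ * B v' x), ?_⟩
      have h4 : (2 : F) • x = (2 * (B v v)⁻¹ * B v x) • v + (2 * (B v' v')⁻¹ * B v' x) • v' := by
        rw [two_smul]
        have h5 : x = -(x - (2 * (B v v)⁻¹ * B v x) • v - (2 * (B v' v')⁻¹ * B v' x) • v') := by
          rw [h3, neg_neg]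
        nth_rewrite 2 [h5]
        abel
      rw [mul_smul (2 : F)⁻¹, mul_smul (2 : F)⁻¹, ← smul_add, ← h4, smul_smul, inv_mul_cancel₀ h2,
        one_smul]
    have h3 : Submodule.span F ({v, v'} : Set V) = ⊤ := by
      rw [eq_top_iff]
      intro x _
      exact hspan x
    exact absurd (finrank_le_two h3) (by omega)

/-- An isometry of order four with square `-1` on a hyperbolic plane. -/
theorem exists_quarter (h2 : (2 : F) ≠ 0) (hsymm : ∀ x y, B x y = -B y x)
    (hnd : ∀ x, (∀ y, B x y = 0) → x = 0) (hn : 3 ≤ finrank F V) :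
    ∃ u ∈ Isom B, u * u ≠ 1 ∧ u * u ≠ LinearEquiv.neg F ∧ (u * u) * (u * u) = 1 := by
  have hfin : FiniteDimensional F V := FiniteDimensional.of_finrank_pos (by omega)
  have hnt : Nontrivial V := (Module.finrank_pos_iff (R := F)).1 (by omega)
  have halt : ∀ x, B x x = 0 := by
    intro x
    have h := hsymm x x
    have h3 : (2 : F) * B x x = 0 := by
      rw [two_mul]
      nth_rewrite 1 [h]
      exact neg_add_cancel _
    exact (mul_eq_zero.1 h3).resolve_left h2
  obtain ⟨e, he⟩ := exists_ne (0 : V)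
  obtain ⟨f', hf'⟩ : ∃ f', B e f' ≠ 0 := by
    by_contra hcon
    push Not at hcon
    exact he (hnd e hcon)
  obtain ⟨f, hf⟩ : ∃ f, B e f = 1 :=
    ⟨(B e f')⁻¹ • f', by rw [map_smul, smul_eq_mul, inv_mul_cancel₀ hf']⟩
  have hfe : B f e = -1 := by rw [hsymm, hf]
  have hBxe : ∀ x, B x e = -B e x := fun x => hsymm x e
  have hBxf : ∀ x, B x f = -B f x := fun x => hsymm x f
  -- the map
  let u1 : V →ₗ[F] V := LinearMap.id - (B f).smulRight (f - e) - (B e).smulRight (e + f)
  let u2 : V →ₗ[F] V := LinearMap.id + (B f).smulRight (e + f) + (B e).smulRight (e - f)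
  have h1 : ∀ x, u1 x = x - B f x • (f - e) - B e x • (e + f) := fun x => rfl
  have h3 : ∀ x, u2 x = x + B f x • (e + f) + B e x • (e - f) := fun x => rfl
  have h12 : ∀ x, u1 (u2 x) = x := by
    intro x
    rw [h1, h3]
    simp only [map_add, map_smul, map_sub, smul_eq_mul, halt, hf, hfe]
    module
  have h21 : ∀ x, u2 (u1 x) = x := by
    intro x
    rw [h3, h1]
    simp only [map_add, map_smul, map_sub, smul_eq_mul, halt, hf, hfe]
    module
  let u : V ≃ₗ[F] V := LinearEquiv.ofLinearMap u1 u2 (LinearMap.ext h12) (LinearMap.ext h21)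
  have hu : ∀ x, u x = x - B f x • (f - e) - B e x • (e + f) := h1
  have huu : ∀ x, u (u x) = x + (2 * B f x) • e - (2 * B e x) • f := by
    intro x
    rw [hu, hu]
    simp only [map_add, map_smul, map_sub, smul_eq_mul, halt, hf, hfe]
    module
  refine ⟨u, ?_, ?_, ?_, ?_⟩
  · intro x y
    rw [hu, hu]
    simp only [map_add, map_smul, map_sub, smul_eq_mul, LinearMap.sub_apply, LinearMap.smul_apply,
      LinearMap.add_apply, halt, hf, hfe, hBxe x, hBxf x]
    ring
  · intro h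
    have h4 : u (u e) = e := LinearEquiv.congr_fun h e
    rw [huu, hfe, halt] at h4
    have h5 : (2 : F) • e = 0 := by
      have h6 : e + (2 * -1 : F) • e - (2 * 0 : F) • f = e - (2 : F) • e := by module
      rw [h6] at h4
      exact sub_eq_self.1 h4
    exact he ((smul_eq_zero.1 h5).resolve_left h2)
  · intro h
    have h3 : Submodule.span F ({e, f} : Set V) = ⊤ := by
      rw [eq_top_iff]
      intro x _
      have h4 : u (u x) = -x := LinearEquiv.congr_fun h x
      rw [huu] at h4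
      rw [Submodule.mem_span_pair]
      refine ⟨-B f x, B e x, ?_⟩
      have h5 : (2 : F) • x = (2 : F) • (-B f x • e + B e x • f) := by
        have h6 : (2 : F) • x = x - (-x) := by module
        rw [h6, ← h4]
        module
      exact (smul_right_injective V h2 h5).symm
    exact absurd (finrank_le_two h3) (by omega)
  · ext x
    change u (u (u (u x))) = x
    rw [huu (u (u x)), huu]
    simp only [map_add, map_smul, map_sub, smul_eq_mul, halt, hf, hfe]
    module

/-! ### Maximal 2-subgroups -/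

/-- 2-subgroups are conjugate into maximal 2-subgroups. -/
theorem exists_conj_le {Γ : Type*} [Group Γ] [Finite Γ] {H P X : Subgroup Γ} (hPH : P ≤ H)
    (hP : IsPGroup 2 P) (hmax : ∀ P' : Subgroup Γ, P ≤ P' → P' ≤ H → IsPGroup 2 P' → P' = P)
    (hXH : X ≤ H) (hX : IsPGroup 2 X) : ∃ g ∈ H, ∀ x ∈ X, g * x * g⁻¹ ∈ P := by
  have : Fact (Nat.Prime 2) := ⟨Nat.prime_two⟩
  let S : Sylow 2 H :=
    { toSubgroup := P.subgroupOf H
      isPGroup' := hP.comap_of_injective H.subtype H.subtype_injective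
      is_maximal' := by
        intro Q hQ hle
        have h1 : P ≤ Q.map H.subtype := by
          intro x hx
          exact ⟨⟨x, hPH hx⟩, hle (Subgroup.mem_subgroupOf.2 hx), rfl⟩
        have h2 := hmax _ h1 (Subgroup.map_subtype_le Q) (hQ.map H.subtype)
        rw [← h2]
        ext x
        rw [Subgroup.mem_subgroupOf]
        constructor
        · intro hx
          exact ⟨x, hx, rfl⟩
        · rintro ⟨y, hy, hxy⟩
          rwa [← H.subtype_injective hxy] }
  obtain ⟨Q, hQ⟩ := (hX.comap_of_injective H.subtype H.subtype_injective :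
    IsPGroup 2 (X.subgroupOf H)).exists_le_sylow
  obtain ⟨g, hg⟩ := MulAction.exists_smul_eq H Q S
  refine ⟨g, g.2, fun x hx => ?_⟩
  have h1 : (⟨x, hXH hx⟩ : H) ∈ (Q : Subgroup H) := hQ (Subgroup.mem_subgroupOf.2 hx)
  have h2 : g * ⟨x, hXH hx⟩ * g⁻¹ ∈ (S : Subgroup H) := by
    rw [← hg]
    exact Subgroup.smul_mem_pointwise_smul _ (MulAut.conj g) _ h1
  exact Subgroup.mem_subgroupOf.1 h2

theorem isPGroup_zpowers_of_sq {Γ : Type*} [Group Γ] {z : Γ} (hz : z * z = 1) :
    IsPGroup 2 (Subgroup.zpowers z) := by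
  rintro ⟨_, i, rfl⟩
  refine ⟨1, Subtype.ext ?_⟩
  change (z ^ i) ^ 2 ^ 1 = 1
  rw [pow_one, pow_two, ← zpow_add, ← two_mul, zpow_mul, zpow_two, hz, one_zpow]

theorem isPGroup_zpowers_of_four {Γ : Type*} [Group Γ] {u : Γ} (hu : (u * u) * (u * u) = 1) :
    IsPGroup 2 (Subgroup.zpowers u) := by
  rintro ⟨_, i, rfl⟩
  refine ⟨2, Subtype.ext ?_⟩
  change (u ^ i) ^ 2 ^ 2 = 1
  have h : u ^ (4 : ℤ) = 1 := by
    rw [show (4 : ℤ) = 2 + 2 by norm_num, zpow_add, zpow_two, hu]
  rw [← zpow_natCast, ← zpow_mul]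
  push_cast
  rw [mul_comm i, zpow_mul, h, one_zpow]

theorem finite_equiv [Finite V] : Finite (V ≃ₗ[F] V) :=
  Finite.of_injective (fun g : V ≃ₗ[F] V => (g : V → V)) (fun _ _ h => LinearEquiv.ext (congrFun h))

/-- The general statement. -/
theorem red_of_two [Finite V] (h2 : (2 : F) ≠ 0) (hsymm : ∀ x y, B x y = ε * B y x)
    (hnd : ∀ x, (∀ y, B x y = 0) → x = 0) (hV : Nontrivial V) {P : Subgroup (V ≃ₗ[F] V)}
    (hP : IsPGroup 2 P)
    (hnorm : ∀ g ∈ P, ∀ t ∈ Isom B, g * t * g⁻¹ ∈ Isom B)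
    (hneg : LinearEquiv.neg F ∈ P)
    (h : (∃ s ∈ Isom B, s ∈ P ∧ ∃ s' ∈ Isom B, s' ∈ P ∧ s * s = 1 ∧ s' * s' = 1 ∧
        s * s' = s' * s ∧ s ≠ 1 ∧ s ≠ LinearEquiv.neg F ∧ s' ≠ 1 ∧ s' ≠ LinearEquiv.neg F ∧
        s * s' ≠ 1 ∧ s * s' ≠ LinearEquiv.neg F) ∨
      ∃ u ∈ Isom B, u ∈ P ∧ u * u ≠ 1 ∧ u * u ≠ LinearEquiv.neg F ∧ (u * u) * (u * u) = 1) :
    Red B P := by
  have hfinG : Finite (V ≃ₗ[F] V) := finite_equiv
  have hN : ((Isom B).subgroupOf P).Normal := ⟨by
    intro t ht g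
    rw [Subgroup.mem_subgroupOf] at ht ⊢
    exact hnorm g g.2 t ht⟩
  have hz1 : (⟨LinearEquiv.neg F, hneg⟩ : P) ≠ 1 := by
    intro h1
    obtain ⟨x, hx⟩ := exists_ne (0 : V)
    have h3 : -x = x := LinearEquiv.congr_fun (congrArg Subtype.val h1) x
    apply hx
    have h4 : (2 : F) • x = 0 := by
      rw [two_smul]
      nth_rewrite 1 [← h3]
      exact neg_add_cancel x
    exact (smul_eq_zero.1 h4).resolve_left h2
  have hval : ∀ {a b : P}, (a : V ≃ₗ[F] V) ≠ b → a ≠ b := fun hab h1 => hab (congrArg _ h1)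
  obtain ⟨t, htN, htt, ht1, htz, hg⟩ := exists_good (G := P) hP hN
    (z := ⟨LinearEquiv.neg F, hneg⟩) (fun g => Subtype.ext (neg_comm _))
    (Subgroup.mem_subgroupOf.2 neg_mem_isom) (Subtype.ext neg_neg') hz1 (by
      rcases h with ⟨s, hs, hsP, s', hs', hsP', a1, a2, a3, a4, a5, a6, a7, a8, a9⟩ |
        ⟨u, hu, huP, a1, a2, a3⟩
      · left
        exact ⟨⟨s, hsP⟩, Subgroup.mem_subgroupOf.2 hs, ⟨s', hsP'⟩, Subgroup.mem_subgroupOf.2 hs',
          Subtype.ext a1, Subtype.ext a2, Subtype.ext a3, hval a4, hval a5, hval a6, hval a7,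
          hval a8, hval a9⟩
      · right
        exact ⟨⟨u, huP⟩, Subgroup.mem_subgroupOf.2 hu, hval a1, hval a2, Subtype.ext a3⟩)
  refine red_of_invol h2 hsymm hnd (t := (t : V ≃ₗ[F] V)) (Subgroup.mem_subgroupOf.1 htN)
    (congrArg Subtype.val htt) (fun h1 => ht1 (Subtype.ext h1)) (fun h1 => htz (Subtype.ext h1))
    fun g hgP => ?_
  rcases hg ⟨g, hgP⟩ with h1 | h1
  · exact Or.inl (congrArg Subtype.val h1)
  · exact Or.inr (congrArg Subtype.val h1)

theorem finite_of [Finite F] (hn : 3 ≤ finrank F V) : Finite V ∧ Nontrivial V := by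
  have hfin : FiniteDimensional F V := FiniteDimensional.of_finrank_pos (by omega)
  exact ⟨Module.finite_of_finite F, (Module.finrank_pos_iff (R := F)).1 (by omega)⟩

/-- **[FR-ONE]** -/
theorem red_one [Finite F] (hF : Fm B ε) (hn : 3 ≤ finrank F V) {P : Subgroup (V ≃ₗ[F] V)}
    (hP : Mx B 1 P) : Red B P := by
  obtain ⟨hV, hnt⟩ := finite_of hn
  have hfinG : Finite (V ≃ₗ[F] V) := finite_equiv
  have hone : ∀ g : V ≃ₗ[F] V, g * 1 * g⁻¹ = 1 := fun g => by rw [mul_one, mul_inv_cancel]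
  have hmax : ∀ P' : Subgroup (V ≃ₗ[F] V), P ≤ P' → P' ≤ Isom B → IsPGroup 2 P' → P' = P :=
    fun P' h1 h3 h4 => hP.max P' h1 h3 h4 fun g _ => Or.inl (hone g)
  have hneg : LinearEquiv.neg F ∈ P := by
    obtain ⟨g, hg, h1⟩ := exists_conj_le hP.le hP.two hmax
      (Subgroup.zpowers_le.2 (neg_mem_isom (F := F) (B := B))) (isPGroup_zpowers_of_sq neg_neg')
    have h3 := h1 _ (Subgroup.mem_zpowers _)
    rwa [neg_comm, mul_inv_cancel_right] at h3
  have hcj : ∀ (g a b : V ≃ₗ[F] V), g * a * g⁻¹ * (g * b * g⁻¹) = g * (a * b) * g⁻¹ := by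
    intro g a b; group
  have hc1 : ∀ {g a : V ≃ₗ[F] V}, a ≠ 1 → g * a * g⁻¹ ≠ 1 := by
    intro g a ha h1
    apply ha
    rw [mul_inv_eq_one] at h1
    exact mul_eq_left.1 h1
  have hcn : ∀ {g a : V ≃ₗ[F] V}, a ≠ LinearEquiv.neg F → g * a * g⁻¹ ≠ LinearEquiv.neg F := by
    intro g a ha h1
    apply ha
    rw [mul_inv_eq_iff_eq_mul, ← neg_comm] at h1
    exact mul_left_cancel h1
  refine red_of_two hF.two hF.symm hF.nondeg hnt hP.two
    (fun g hg t ht => (Isom B).mul_mem ((Isom B).mul_mem (hP.le hg) ht)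
      ((Isom B).inv_mem (hP.le hg))) hneg ?_
  rcases hF.eps with rfl | ⟨rfl, -⟩
  · left
    obtain ⟨s, hs, s', hs', a1, a2, a3, a4, a5, a6, a7, a8, a9⟩ := exists_four_orth hF.two
      (fun x y => by rw [hF.symm x y, one_mul]) hF.nondeg hn
    -- the group generated
    have hXle : Subgroup.closure {s, s'} ≤ Isom B := by
      rw [Subgroup.closure_le]
      rintro x (rfl | hx)
      · exact hs
      · rw [Set.mem_singleton_iff] at hx
        rw [hx]; exact hs'
    have hX2 : IsPGroup 2 (Subgroup.closure {s, s'}) := by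
      have h1 : ∀ x ∈ Subgroup.closure {s, s'}, x * x = 1 ∧ x * s = s * x ∧ x * s' = s' * x := by
        intro x hx
        induction hx using Subgroup.closure_induction with
        | mem x hx =>
          rcases hx with rfl | hx
          · exact ⟨a1, rfl, a3⟩
          · rw [Set.mem_singleton_iff] at hx
            rw [hx]
            exact ⟨a2, a3.symm, rfl⟩
        | one => simp
        | mul x y hx hy h3 h4 =>
          have hxy : x * y = y * x := by
            clear h4
            induction hy using Subgroup.closure_induction with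
            | mem y hy =>
              rcases hy with rfl | hy
              · exact h3.2.1
              · rw [Set.mem_singleton_iff] at hy
                rw [hy]
                exact h3.2.2
            | one => simp
            | mul y y' _ _ h5 h6 => exact (Commute.mul_right h5 h6)
            | inv y _ h5 => exact Commute.inv_right h5
          refine ⟨?_, ?_, ?_⟩
          · calc x * y * (x * y) = x * (y * x) * y := by group
              _ = (x * x) * (y * y) := by rw [← hxy]; group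
              _ = 1 := by rw [h3.1, h4.1, one_mul]
          · exact (Commute.mul_left h3.2.1 h4.2.1)
          · exact (Commute.mul_left h3.2.2 h4.2.2)
        | inv x _ h3 =>
          refine ⟨?_, ?_, ?_⟩
          · rw [← mul_inv_rev, h3.1, inv_one]
          · exact Commute.inv_left h3.2.1
          · exact Commute.inv_left h3.2.2
      rintro ⟨x, hx⟩
      refine ⟨1, Subtype.ext ?_⟩
      change x ^ 2 ^ 1 = 1
      rw [pow_one, pow_two]
      exact (h1 x hx).1
    obtain ⟨g, hg, hgP⟩ := exists_conj_le hP.le hP.two hmax hXle hX2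
    have hgI : ∀ {x}, x ∈ Isom B → g * x * g⁻¹ ∈ Isom B := fun hx =>
      (Isom B).mul_mem ((Isom B).mul_mem hg hx) ((Isom B).inv_mem hg)
    refine ⟨g * s * g⁻¹, hgI hs, hgP s (Subgroup.subset_closure (by simp)), g * s' * g⁻¹, hgI hs',
      hgP s' (Subgroup.subset_closure (by simp)), ?_, ?_, ?_, hc1 a4, hcn a5, hc1 a6, hcn a7,
      ?_, ?_⟩
    · rw [hcj, a1, hone]
    · rw [hcj, a2, hone]
    · rw [hcj, hcj, a3]
    · rw [hcj]; exact hc1 a8
    · rw [hcj]; exact hcn a9
  · right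
    obtain ⟨u, hu, a1, a2, a3⟩ := exists_quarter hF.two
      (fun x y => by rw [hF.symm x y, neg_one_mul]) hF.nondeg hn
    obtain ⟨g, hg, hgP⟩ := exists_conj_le hP.le hP.two hmax (Subgroup.zpowers_le.2 hu)
      (isPGroup_zpowers_of_four a3)
    refine ⟨g * u * g⁻¹, (Isom B).mul_mem ((Isom B).mul_mem hg hu) ((Isom B).inv_mem hg),
      hgP u (Subgroup.mem_zpowers u), ?_, ?_, ?_⟩
    · rw [hcj]; exact hc1 a1
    · rw [hcj]; exact hcn a2
    · rw [hcj, hcj, a3, hone]

end Cfsg.Agent.H957.FR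
end

-- part: H138/FR/Idx
section
/-!
# S4970: subgroups of index two of totally good groups, and the fibre product trick
-/

set_option autoImplicit false

universe u

namespace Cfsg.Agent.H138.FR

open Cfsg Cfsg.Agent.H721.FR
open Cfsg.Agent.Characters.Core
open Cfsg.Agent.H955.FS (fsi FSGood fsi_cases fsi_spec)
open scoped ComplexConjugate

/-- a subgroup of index two of a totally good group has no indicator `-1` -/
theorem good_true_index_two {G : Type u} [Group G] [Finite G] (N : Subgroup G) (hN : N.index = 2)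
    (h : FSGood False G) : FSGood True N := by
  classical
  have := Fintype.ofFinite G
  have := Fintype.ofFinite N
  intro ψ hψ
  rcases fsi_cases hψ with h1 | h1 | h1
  · exact Or.inr ⟨trivial, h1⟩
  · exact Or.inl h1
  exfalso
  obtain ⟨χ, hχ, hm⟩ := Cfsg.Agent.H839.FR.exists_over_index_two N hN hψ
  have hν : fsi χ = 1 := by
    rcases h χ hχ with h1 | h1
    · exact h1
    · exact h1.1.elim
  have hχr : ∀ g, (χ g).im = 0 := Cfsg.Agent.H955.FS.real_of_fsi_ne_zero hχ (by rw [hν]; exact one_ne_zero)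
  have hψr : ∀ g, (ψ g).im = 0 := Cfsg.Agent.H955.FS.real_of_fsi_ne_zero hψ (by rw [h1]; norm_num)
  have h2 : Even 1 := by
    refine even_mult hχ hχr N hψ (fun x => Complex.conj_eq_iff_im.2 (hψr x)) ?_ (m := 1) (by rw [hm, Nat.cast_one])
    rw [← Cfsg.Agent.H955.FS.Parity.fsi_eq_nu, ← Cfsg.Agent.H955.FS.Parity.fsi_eq_nu, hν, h1]
    norm_num
  exact absurd h2 (by decide)

/-- the same for an index at most two -/
theorem good_true_of_le {G : Type u} [Group G] [Finite G] (N : Subgroup G) (hN : ∀ a b, a ∉ N → b ∉ N → a * b ∈ N)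
    (h : FSGood False G) : FSGood True N := by
  by_cases h1 : ∀ a, a ∈ N
  · have h2 : N = ⊤ := (Subgroup.eq_top_iff' N).2 h1
    subst h2
    exact (h.mono fun h => h.elim).of_mulEquiv Subgroup.topEquiv.symm
  · push Not at h1
    obtain ⟨a, ha⟩ := h1
    refine good_true_index_two N ?_ h
    rw [Subgroup.index_eq_two_iff]
    refine ⟨a, fun b => ?_⟩
    by_cases hb : b ∈ N
    · refine Or.inr ⟨hb, fun h2 => ha ?_⟩
      have h3 := mul_mem (inv_mem hb) h2
      rwa [inv_mul_cancel_left] at h3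
    · exact Or.inl ⟨hN b a hb ha, hb⟩

/-- **the fibre trick**: `D` and `E` commuting totally good groups in `Γ`; the elements of `D E` multiply some
structure with stabiliser `H` by a sign -/
theorem good_fibre {Γ : Type u} [Group Γ] (D E H : Subgroup Γ) [Finite D] [Finite E]
    (hDE : ∀ d ∈ D, ∀ e ∈ E, d * e = e * d) (hD : FSGood False D) (hE : FSGood False E)
    (hH : ∀ a ∈ D ⊔ E, ∀ b ∈ D ⊔ E, a ∉ H → b ∉ H → a * b ∈ H) :
    ∃ Y : Subgroup Γ, Y ≤ H ∧ (∀ d ∈ D, ∀ e ∈ E, d * e ∈ H → d * e ∈ Y) ∧ FSGood True Y := by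
  let f : D × E →* Γ := MonoidHom.noncommCoprod D.subtype E.subtype (fun d e => hDE d d.2 e e.2)
  have hf : ∀ x : D × E, f x = (x.1 : Γ) * x.2 := fun x => rfl
  have hle : f.range ≤ D ⊔ E := by
    rintro _ ⟨x, rfl⟩
    rw [hf]
    exact mul_mem (Subgroup.mem_sup_left x.1.2) (Subgroup.mem_sup_right x.2.2)
  have hX : FSGood False f.range := (FSGood.prod hD hE).of_surjective f.rangeRestrict f.rangeRestrict_surjective
  have : Finite f.range := Finite.of_surjective f.rangeRestrict f.rangeRestrict_surjective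
  have h1 : FSGood True ((f.range ⊓ H).subgroupOf f.range) := by
    refine good_true_of_le _ (fun a b ha hb => ?_) hX
    rw [Subgroup.mem_subgroupOf] at ha hb ⊢
    have ha' : (a : Γ) ∉ H := fun h => ha ⟨a.2, h⟩
    have hb' : (b : Γ) ∉ H := fun h => hb ⟨b.2, h⟩
    exact ⟨(a * b).2, hH a (hle a.2) b (hle b.2) ha' hb'⟩
  refine ⟨f.range ⊓ H, inf_le_right, fun d hd e he h => ⟨⟨(⟨d, hd⟩, ⟨e, he⟩), hf _⟩, h⟩, ?_⟩
  exact h1.of_mulEquiv (Subgroup.subgroupOfEquivOfLe inf_le_left)

/-- groups with a commutative part and an inverting involution -/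
theorem good_dih {Γ : Type u} [Group Γ] (A : Subgroup Γ) (hA : ∀ a ∈ A, ∀ b ∈ A, a * b = b * a) {t : Γ}
    (ht2 : t * t = 1) (htA : ∀ a ∈ A, t * a * t⁻¹ = a⁻¹) [Finite A] :
    ∃ Y : Subgroup Γ, Finite Y ∧ (∀ y, y ∈ Y ↔ y ∈ A ∨ y * t ∈ A) ∧ FSGood False Y := by
  have hti : t⁻¹ = t := inv_eq_of_mul_eq_one_left ht2
  have htA' : ∀ a ∈ A, t * a * t ∈ A := by
    intro a ha
    have h1 := htA a ha
    rw [hti] at h1
    rw [h1]
    exact inv_mem ha
  let Y : Subgroup Γ :=
    { carrier := {x | x ∈ A ∨ x * t ∈ A}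
      one_mem' := Or.inl A.one_mem
      mul_mem' := by
        rintro x y (hx | hx) (hy | hy)
        · exact Or.inl (A.mul_mem hx hy)
        · right
          rw [mul_assoc]
          exact A.mul_mem hx hy
        · right
          have h1 : x * y * t = (x * t) * (t * y * t) := by
            calc x * y * t = x * 1 * y * t := by rw [mul_one]
              _ = x * (t * t) * y * t := by rw [ht2]
              _ = _ := by group
          rw [h1]
          exact A.mul_mem hx (htA' y hy)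
        · left
          have h1 : x * y = (x * t) * (t * (y * t) * t) := by
            calc x * y = x * 1 * y * 1 := by rw [mul_one, mul_one]
              _ = x * (t * t) * y * (t * t) := by rw [ht2]
              _ = _ := by group
          rw [h1]
          exact A.mul_mem hx (htA' _ hy)
      inv_mem' := by
        rintro x (hx | hx)
        · exact Or.inl (A.inv_mem hx)
        · right
          have h1 : x⁻¹ * t = t * (x * t)⁻¹ * t := by
            rw [mul_inv_rev, hti]
            calc x⁻¹ * t = 1 * x⁻¹ * t := by rw [one_mul]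
              _ = (t * t) * x⁻¹ * t := by rw [ht2]
              _ = _ := by group
          rw [h1]
          exact htA' _ (A.inv_mem hx) }
  have hY : ∀ y, y ∈ Y ↔ y ∈ A ∨ y * t ∈ A := fun y => Iff.rfl
  have hfin : Finite Y := by
    have h5 : (Y : Set Γ) ⊆ (A : Set Γ) ∪ (fun x => x * t⁻¹) '' (A : Set Γ) := by
      rintro x (hx | hx)
      · exact Or.inl hx
      · exact Or.inr ⟨x * t, hx, by simp⟩
    exact (((Set.toFinite (A : Set Γ)).union ((Set.toFinite (A : Set Γ)).image _)).subset h5).to_subtype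
  refine ⟨Y, hfin, hY, ?_⟩
  have htY : t ∈ Y := Or.inr (by rw [ht2]; exact A.one_mem)
  have hE : ∀ e ∈ Subgroup.zpowers t, e = 1 ∨ e = t := by
    intro e he
    obtain ⟨i, rfl⟩ := Subgroup.mem_zpowers_iff.1 he
    rcases Int.even_or_odd' i with ⟨j, rfl | rfl⟩
    · left
      rw [zpow_mul, zpow_ofNat, pow_two, ht2, one_zpow]
    · right
      rw [zpow_add, zpow_mul, zpow_ofNat, pow_two, ht2, one_zpow, one_mul, zpow_one]
  refine Cfsg.Agent.H619.FR.fsGood_cls_amb (A := A) (E := Subgroup.zpowers t) (t := t) (fun a ha => Or.inl ha)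
    ((Subgroup.zpowers_le).2 htY) ?_ hA ?_ ?_ (Subgroup.mem_zpowers t) htA
  · rintro y (hy | hy) a ha
    · exact mul_mem (mul_mem hy ha) (inv_mem hy)
    · have h1 : y * a * y⁻¹ = (y * t) * (t * a * t) * (y * t)⁻¹ := by
        rw [mul_inv_rev, hti]
        calc y * a * y⁻¹ = y * 1 * a * 1 * y⁻¹ := by rw [mul_one, mul_one]
          _ = y * (t * t) * a * (t * t) * y⁻¹ := by rw [ht2]
          _ = _ := by group
      rw [h1]
      exact mul_mem (mul_mem hy (htA' a ha)) (inv_mem hy)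
  · intro e he
    rcases hE e he with rfl | rfl
    · rw [one_mul]
    · exact ht2
  · rintro y (hy | hy)
    · exact ⟨y, hy, 1, one_mem _, (mul_one y).symm⟩
    · refine ⟨y * t, hy, t, Subgroup.mem_zpowers t, ?_⟩
      rw [mul_assoc, ht2, mul_one]

end Cfsg.Agent.H138.FR
end

-- part: H138/FR/Two
section
/-!
# S4970: the normaliser of a torus in dimension two
-/

set_option autoImplicit false

universe u

namespace Cfsg.Agent.H138.FR

open Cfsg Cfsg.Agent.H721.FR Module
open Cfsg.Agent.H955.FS (FSGood)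

variable {F V : Type u} [Field F] [AddCommGroup V] [Module F V] {B : V →ₗ[F] V →ₗ[F] F}

theorem exists_cyclic_vector [Finite F] [FiniteDimensional F V] (hF : Fm B 1) (hn : finrank F V = 2)
    {c : V ≃ₗ[F] V} (hc : c ∈ Isom B) {τ : F} (hτ : ∀ x, c x + c⁻¹ x = τ • x) (h1 : τ ≠ 2) (h2 : τ ≠ -2) :
    ∃ w : V, (∀ a b : F, a • w + b • c w = 0 → a = 0 ∧ b = 0) := by
  by_contra hcon
  push Not at hcon
  have hcc : ∀ v, c (c⁻¹ v) = v := fun v => LinearEquiv.apply_symm_apply c v
  obtain ⟨a, ha⟩ := LinearMap.exists_eq_smul_id_of_forall_notLinearIndependent (f := (c : V →ₗ[F] V)) (by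
    intro v hv
    obtain ⟨x, y, hxy, hne⟩ := hcon v
    obtain ⟨h3, h4⟩ := LinearIndependent.pair_iff.1 hv x y hxy
    exact hne h3 h4)
  have hca : ∀ x, c x = a • x := fun x => congrArg (fun f : V →ₗ[F] V => f x) ha
  have : Nontrivial V := Module.nontrivial_of_finrank_pos (R := F) (by omega)
  obtain ⟨u, hu⟩ := Cfsg.Agent.H467.FRSmall.exists_anis hF (exists_ne (0 : V))
  have haa : a * a = 1 := by
    have h3 := hc u u
    rw [hca] at h3
    simp only [map_smul, LinearMap.smul_apply, smul_eq_mul] at h3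
    apply mul_right_cancel₀ hu
    linear_combination h3
  have hu0 : u ≠ 0 := by
    rintro rfl
    apply hu
    simp
  have h4 : τ • u = (2 * a) • u := by
    have h5 : c⁻¹ u = a • u := by
      apply c.injective
      rw [hcc, hca, smul_smul, haa, one_smul]
    rw [← hτ u, hca, h5, two_mul, add_smul]
  have h5 : τ = 2 * a := by
    have h6 : (τ - 2 * a) • u = 0 := by rw [sub_smul, h4, sub_self]
    exact sub_eq_zero.1 ((smul_eq_zero.1 h6).resolve_right hu0)
  rcases mul_self_eq_one_iff.1 haa with rfl | rfl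
  · exact h1 (by rw [h5, mul_one])
  · exact h2 (by rw [h5]; ring)

/-- **dimension two**: the isometries which centralise or invert `c` form a totally good group -/
theorem good_two [Finite F] [FiniteDimensional F V] (hF : Fm B 1) (hn : finrank F V = 2)
    {c : V ≃ₗ[F] V} (hc : c ∈ Isom B) {τ : F} (hτ : ∀ x, c x + c⁻¹ x = τ • x) (h1 : τ ≠ 2) (h2 : τ ≠ -2)
    {t : V ≃ₗ[F] V} (ht : t ∈ Isom B) (htc : t * c * t⁻¹ = c⁻¹) :
    ∃ Y : Subgroup (V ≃ₗ[F] V), Y ≤ Isom B ∧ c ∈ Y ∧
      (∀ g ∈ Isom B, (g * c * g⁻¹ = c ∨ g * c * g⁻¹ = c⁻¹) → g ∈ Y) ∧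
      (∀ y ∈ Y, y * c * y⁻¹ = c ∨ y * c * y⁻¹ = c⁻¹) ∧ FSGood False Y := by
  have := finite_gl (F := F) (V := V)
  obtain ⟨w, hw⟩ := exists_cyclic_vector hF hn hc hτ h1 h2
  have hco := Cfsg.Agent.H467.FRSmall.exists_coord hn hw
  have hsym : ∀ x y, B x y = B y x := fun x y => by rw [hF.symm x y, one_mul]
  have hcc : ∀ v, c (c⁻¹ v) = v := fun v => LinearEquiv.apply_symm_apply c v
  have hcc' : ∀ v, c⁻¹ (c v) = v := fun v => LinearEquiv.symm_apply_apply c v
  have hcB : ∀ x y, B (c x) y = B x (c⁻¹ y) := fun x y => by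
    have h3 := hc x (c⁻¹ y)
    rwa [hcc] at h3
  have hcB' : ∀ x y, B (c⁻¹ x) y = B x (c y) := fun x y => by
    have h3 := hc (c⁻¹ x) y
    rw [hcc] at h3
    exact h3.symm
  have hw0 : w ≠ 0 := by
    rintro rfl
    have h3 := (hw 1 0 (by simp)).1
    exact one_ne_zero h3
  -- `c ≠ c⁻¹`
  have hcne : ∀ s : F, s ≠ 0 → ¬ ∀ x, s • c x = s • c⁻¹ x := by
    intro s hs h3
    have h4 : ∀ x, c x = c⁻¹ x := fun x => by
      have h5 := h3 x
      exact smul_right_injective V hs h5
    have h5 : (2 : F) • c w = τ • w := by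
      rw [← hτ, ← h4, two_smul]
    have h6 := (hw (-τ) 2 (by rw [h5, ← add_smul, neg_add_cancel, zero_smul])).2
    exact hF.two h6
  have hcne' : c ≠ c⁻¹ := by
    intro h3
    exact hcne 1 one_ne_zero fun x => by rw [← h3]
  -- commutant
  have hcom : ∀ a : V ≃ₗ[F] V, a * c = c * a → ∃ x y : F, ∀ v, a v = x • v + y • c v := by
    intro a ha
    have ha' : ∀ v, a (c v) = c (a v) := fun v => congrArg (fun f : V ≃ₗ[F] V => f v) ha
    obtain ⟨x, y, hxy⟩ := hco (a w)
    refine ⟨x, y, fun v => ?_⟩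
    obtain ⟨p, q, rfl⟩ := hco v
    rw [map_add, map_smul, map_smul, ha', hxy]
    simp only [map_add, map_smul, smul_add, smul_smul]
    rw [mul_comm x p, mul_comm y p, mul_comm x q, mul_comm y q]
    abel
  have htc' : ∀ v, t (c v) = c⁻¹ (t v) := fun v => by
    have h3 : t * c = c⁻¹ * t := by
      rw [← htc]
      group
    exact congrArg (fun f : V ≃ₗ[F] V => f v) h3
  have htc'' : ∀ v, t (c⁻¹ v) = c (t v) := fun v => by
    apply c⁻¹.injective
    rw [← htc', hcc, hcc']
  -- `A`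
  let A : Subgroup (V ≃ₗ[F] V) :=
    { carrier := {a | a ∈ Isom B ∧ a * c = c * a}
      one_mem' := ⟨one_mem _, by rw [one_mul, mul_one]⟩
      mul_mem' := by
        rintro a b ⟨ha, ha'⟩ ⟨hb, hb'⟩
        exact ⟨mul_mem ha hb, by rw [mul_assoc, hb', ← mul_assoc, ha', mul_assoc]⟩
      inv_mem' := by
        rintro a ⟨ha, ha'⟩
        refine ⟨inv_mem ha, ?_⟩
        rw [inv_mul_eq_iff_eq_mul, ← mul_assoc, ha', mul_inv_cancel_right] }
  have hA : ∀ a, a ∈ A ↔ a ∈ Isom B ∧ a * c = c * a := fun a => Iff.rfl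
  have hAc : ∀ a ∈ A, ∀ b ∈ A, a * b = b * a := by
    intro a ha b hb
    obtain ⟨x, y, hxy⟩ := hcom a ha.2
    obtain ⟨x', y', hxy'⟩ := hcom b hb.2
    apply LinearEquiv.ext
    intro v
    change a (b v) = b (a v)
    rw [hxy', hxy, hxy, hxy' (x • v + y • c v)]
    simp only [map_add, map_smul, smul_add, smul_smul]
    rw [mul_comm x x', mul_comm x y', mul_comm y x', mul_comm y y']
    abel
  -- `t² = 1`
  have ht2 : t * t = 1 := by
    have h3 : (t * t) * c = c * (t * t) := by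
      apply LinearEquiv.ext
      intro v
      change t (t (c v)) = c (t (t v))
      rw [htc', htc'']
    obtain ⟨x, y, hxy⟩ := hcom _ h3
    have hxy' : ∀ v, t (t v) = x • v + y • c v := hxy
    have hy : y = 0 := by
      by_contra hy
      refine hcne y hy fun v => ?_
      obtain ⟨v, rfl⟩ := t.surjective v
      have h4 : t (t (t v)) = x • t v + y • c (t v) := hxy' (t v)
      have h5 : t (t (t v)) = x • t v + y • c⁻¹ (t v) := by
        rw [hxy' v, map_add, map_smul, map_smul, htc']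
      rw [h4] at h5
      exact add_left_cancel h5
    have hx : ∀ v, t (t v) = x • v := fun v => by rw [hxy', hy, zero_smul, add_zero]
    obtain ⟨u, hu⟩ := Cfsg.Agent.H467.FRSmall.exists_anis hF ⟨w, hw0⟩
    have hxx : x * x = 1 := by
      have h4 := ht (t u) (t u)
      rw [ht u u, hx] at h4
      simp only [map_smul, LinearMap.smul_apply, smul_eq_mul] at h4
      apply mul_right_cancel₀ hu
      linear_combination h4
    rcases mul_self_eq_one_iff.1 hxx with rfl | rfl
    · apply LinearEquiv.ext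
      intro v
      change t (t v) = v
      rw [hx, one_smul]
    · exfalso
      have hskew : ∀ x y, B (t x) y = - B x (t y) := by
        intro x y
        have h4 := ht (t x) y
        rw [hx, neg_smul, one_smul, map_neg, LinearMap.neg_apply] at h4
        rw [← h4]
      -- `t` is a multiple of `c - c⁻¹`
      let f : F := B (t w) (c w)
      let h : F := B (c w - c⁻¹ w) (c w)
      have hskew2 : ∀ x y, B (c x - c⁻¹ x) y = - B x (c y - c⁻¹ y) := by
        intro x y
        rw [map_sub, LinearMap.sub_apply, hcB, hcB', map_sub]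
        ring
      have e1 : ∀ x, B (t x) x = 0 := by
        intro x
        have h4 := hskew x x
        rw [hsym x (t x)] at h4
        exact (mul_eq_zero.1 (show (2 : F) * B (t x) x = 0 by linear_combination h4)).resolve_left hF.two
      have e2 : ∀ x, B (c x - c⁻¹ x) x = 0 := by
        intro x
        have h4 := hskew2 x x
        rw [hsym x (c x - c⁻¹ x)] at h4
        exact (mul_eq_zero.1 (show (2 : F) * B (c x - c⁻¹ x) x = 0 by linear_combination h4)).resolve_left hF.two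
      have hform : ∀ x y, h * B (t x) y = f * B (c x - c⁻¹ x) y := by
        intro x y
        obtain ⟨p, q, rfl⟩ := hco x
        obtain ⟨p', q', rfl⟩ := hco y
        have a1 : B (t (c w)) w = - f := by rw [hskew, hsym]
        have a2 : B (c (c w) - c⁻¹ (c w)) w = - h := by rw [hskew2, hsym]
        have a3 := e1 w
        have a4 := e1 (c w)
        have a5 := e2 w
        have a6 := e2 (c w)
        have b1 : B (t (p • w + q • c w)) (p' • w + q' • c w) = (p * q' - q * p') * f := by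
          simp only [map_add, map_smul, LinearMap.add_apply, LinearMap.smul_apply, smul_eq_mul]
          rw [a1, a3, a4]
          ring
        have b2 : B (c (p • w + q • c w) - c⁻¹ (p • w + q • c w)) (p' • w + q' • c w) = (p * q' - q * p') * h := by
          have b3 : c (p • w + q • c w) - c⁻¹ (p • w + q • c w) = p • (c w - c⁻¹ w) + q • (c (c w) - c⁻¹ (c w)) := by
            simp only [map_add, map_smul, smul_sub]
            abel
          rw [b3]
          simp only [map_add, map_smul, LinearMap.add_apply, LinearMap.smul_apply, smul_eq_mul]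
          rw [a2, a5, a6]
          ring
        rw [b1, b2]
        ring
      have hh0 : h ≠ 0 := by
        intro h0
        have h5 : ∀ x y, B (c x - c⁻¹ x) y = 0 := by
          intro x y
          obtain ⟨p, q, rfl⟩ := hco x
          obtain ⟨p', q', rfl⟩ := hco y
          have a2 : B (c (c w) - c⁻¹ (c w)) w = - h := by rw [hskew2, hsym]
          have b3 : c (p • w + q • c w) - c⁻¹ (p • w + q • c w) = p • (c w - c⁻¹ w) + q • (c (c w) - c⁻¹ (c w)) := by
            simp only [map_add, map_smul, smul_sub]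
            abel
          rw [b3]
          have h00 : B (c w - c⁻¹ w) (c w) = 0 := h0
          simp only [map_add, map_smul, LinearMap.add_apply, LinearMap.smul_apply, smul_eq_mul]
          rw [a2, e2 w, e2 (c w), h00, h0]
          ring
        refine hcne 1 one_ne_zero fun x => ?_
        rw [one_smul, one_smul]
        exact sub_eq_zero.1 (hF.nondeg _ (h5 x))
      have h6 : ∀ x, h • t x = f • (c x - c⁻¹ x) := by
        intro x
        refine sub_eq_zero.1 (hF.nondeg _ fun y => ?_)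
        rw [map_sub, LinearMap.sub_apply, map_smul, map_smul, LinearMap.smul_apply, LinearMap.smul_apply, smul_eq_mul,
          smul_eq_mul, hform, sub_self]
      -- so `t` commutes with `c`
      refine hcne h hh0 fun x => ?_
      obtain ⟨x, rfl⟩ := t.surjective x
      have h7 : h • t (c x) = h • c (t x) := by
        rw [h6, ← map_smul, h6, map_smul, map_sub, hcc, hcc']
      rw [← h7, htc']
  have htA : ∀ a ∈ A, t * a * t⁻¹ = a⁻¹ := by
    intro a ha
    obtain ⟨x, y, hxy⟩ := hcom a ha.2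
    rw [mul_inv_eq_iff_eq_mul]
    apply LinearEquiv.ext
    intro v
    change t (a v) = a⁻¹ (t v)
    rw [hxy, map_add, map_smul, map_smul, htc']
    refine sub_eq_zero.1 (hF.nondeg _ fun u => ?_)
    rw [map_sub, LinearMap.sub_apply]
    have h3 : B (a⁻¹ (t v)) u = B (t v) (a u) := by
      have h4 := ha.1 (a⁻¹ (t v)) u
      have h5 : a (a⁻¹ (t v)) = t v := LinearEquiv.apply_symm_apply a _
      rw [h5] at h4
      exact h4.symm
    rw [h3, hxy]
    simp only [map_add, map_smul, LinearMap.add_apply, LinearMap.smul_apply, smul_eq_mul]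
    rw [hcB']
    ring
  obtain ⟨Y, hfin, hY, hgood⟩ := good_dih A hAc ht2 htA
  have hti : t⁻¹ = t := inv_eq_of_mul_eq_one_left ht2
  have hcA : c ∈ A := ⟨hc, rfl⟩
  refine ⟨Y, ?_, (hY c).2 (Or.inl hcA), ?_, ?_, hgood⟩
  · intro y hy
    rcases (hY y).1 hy with h | h
    · exact h.1
    · have h3 := mul_mem h.1 (inv_mem ht)
      rwa [mul_inv_cancel_right] at h3
  · rintro g hg (h | h)
    · exact (hY g).2 (Or.inl ⟨hg, mul_inv_eq_iff_eq_mul.1 h⟩)
    · refine (hY g).2 (Or.inr ⟨mul_mem hg ht, ?_⟩)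
      have h3 : t * c = c⁻¹ * t := by
        rw [← htc]
        group
      have h4 : g * c⁻¹ = c * g := by
        have h5 : g * c⁻¹ * g⁻¹ = (g * c * g⁻¹)⁻¹ := by group
        rw [h, inv_inv, mul_inv_eq_iff_eq_mul] at h5
        exact h5
      rw [mul_assoc, h3, ← mul_assoc, h4, mul_assoc]
  · intro y hy
    rcases (hY y).1 hy with h | h
    · left
      rw [h.2, mul_inv_cancel_right]
    · right
      have h4 : y * c * y⁻¹ = (y * t) * (t * c * t⁻¹) * (y * t)⁻¹ := by
        have h3 : (y * t) * (t * c * t⁻¹) * (y * t)⁻¹ = y * (t * t) * c * (t * t)⁻¹ * y⁻¹ := by group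
        rw [h3, ht2, mul_one, inv_one, mul_one]
      rw [h4, htc]
      have h5 : (y * t) * c⁻¹ = c⁻¹ * (y * t) := by
        rw [eq_inv_mul_iff_mul_eq, ← mul_assoc, ← h.2, mul_inv_cancel_right]
      rw [h5, mul_inv_cancel_right]

end Cfsg.Agent.H138.FR
end
end

-- part: H47/Uni/Cov
section
prune_inst 0x31100540156200000000050250207c4282000420000800008840020207804c620982282081a00000020080050031002002000000400000000a000400011c0080008006009148a008a20086000080000000000000000000000000800000000000008000000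
set_option linter.all false
open scoped Cfsg.Agent.FastGrp

-- part: H855/FR/Wr
section
/-!
# Products, quotients and wreath products for `FSZ` (helper855, S4970, piece WR)

`FSZ z` (`z` central, `z² = 1`) holds if and only if `∑ χ(z s²)` is a natural number for all characters `χ`.
-/

set_option autoImplicit false

universe u

namespace Cfsg.Agent.H855.FR

open Cfsg Cfsg.Agent.H955.FS Cfsg.Agent.H721.FR Cfsg.Agent.Characters.Core

/-! ### The sum `∑ χ(z s²)` -/

theorem central_mul {G : Type u} [Group G] [Finite G] {χ : G → ℂ} (hχ : IsIrrCharacter G χ)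
    {z : G} (hz : ∀ g, g * z = z * g) (g : G) : χ (z * g) = (χ z / χ 1) * χ g := by
  have := Fintype.ofFinite G
  have h1 := Characters.Central.sum_char_conj_mul hχ z g
  have h2 : ∀ a : G, a * z * a⁻¹ * g = z * g := by
    intro a
    rw [hz a]
    group
  rw [Finset.sum_congr rfl (fun a _ => by rw [h2 a]), Finset.sum_const, Finset.card_univ,
    nsmul_eq_mul, ← Nat.card_eq_fintype_card] at h1
  have h3 : (Nat.card G : ℂ) ≠ 0 := card_ne_zero_complex
  have h4 : (Nat.card G : ℂ) * χ (z * g) = (Nat.card G : ℂ) * ((χ z / χ 1) * χ g) := by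
    rw [h1]
    ring
  exact mul_left_cancel₀ h3 h4

theorem central_val {G : Type u} [Group G] [Finite G] {χ : G → ℂ} (hχ : IsIrrCharacter G χ)
    {z : G} (hz : ∀ g, g * z = z * g) (hz2 : z * z = 1) : χ z = χ 1 ∨ χ z = - χ 1 := by
  have h0 := isIrr_apply_one_ne_zero hχ
  have h1 := central_mul hχ hz z
  rw [hz2] at h1
  have h2 : (χ z - χ 1) * (χ z + χ 1) = 0 := by
    field_simp at h1
    linear_combination -h1
  rcases mul_eq_zero.1 h2 with h3 | h3
  · exact Or.inl (sub_eq_zero.1 h3)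
  · exact Or.inr (eq_neg_of_add_eq_zero_left h3)

theorem mul_cases {G : Type u} [Group G] [Finite G] {χ : G → ℂ} (hχ : IsIrrCharacter G χ) {z : G}
    (hz : ∀ g, g * z = z * g) (hz2 : z * z = 1) (h : FSZ z) : fsi χ * χ z = 0 ∨ fsi χ * χ z = χ 1 := by
  have h0 := h χ hχ
  rcases fsi_cases hχ with h1 | h1 | h1
  · left
    rw [h1, zero_mul]
  · rcases central_val hχ hz hz2 with h2 | h2
    · right
      rw [h1, h2, one_mul]
    · rw [h1, h2, one_mul] at h0
      exact absurd rfl h0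
  · rcases central_val hχ hz hz2 with h2 | h2
    · rw [h1, h2, neg_one_mul] at h0
      exact absurd rfl h0
    · right
      rw [h1, h2, neg_one_mul, neg_neg]

theorem sum_eq {G : Type u} [Group G] [Fintype G] {χ : G → ℂ} (hχ : IsIrrCharacter G χ) {z : G}
    (hz : ∀ g, g * z = z * g) : (∑ s : G, χ (z * (s * s))) * χ 1 = (Nat.card G : ℂ) * (fsi χ * χ z) := by
  have h0 := isIrr_apply_one_ne_zero hχ
  have h3 : (Nat.card G : ℂ) ≠ 0 := card_ne_zero_complex
  rw [Finset.sum_congr rfl (fun s _ => central_mul hχ hz (s * s)), ← Finset.mul_sum, fsi_eq_sum]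
  field_simp

/-- the sums over characters are natural numbers -/
theorem exists_nat {G : Type u} [Group G] [Fintype G] {z : G} (hz : ∀ g, g * z = z * g) (hz2 : z * z = 1)
    (h : FSZ z) {θ : G → ℂ} (hθ : IsCharacter G θ) : ∃ n : ℕ, ∑ s : G, θ (z * (s * s)) = n := by
  classical
  have := finite_irr (G := G)
  have := Fintype.ofFinite (IrrCharacter G)
  obtain ⟨m, rfl⟩ := exists_nat_comb hθ
  have h1 : ∀ χ : IrrCharacter G, ∃ n : ℕ, ∑ s : G, (χ : G → ℂ) (z * (s * s)) = n := by
    intro χ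
    have h0 := isIrr_apply_one_ne_zero χ.2
    have h2 := sum_eq χ.2 hz
    rcases mul_cases χ.2 hz hz2 h with h3 | h3
    · rw [h3, mul_zero] at h2
      exact ⟨0, by rw [Nat.cast_zero]; exact (mul_eq_zero.1 h2).resolve_right h0⟩
    · rw [h3] at h2
      exact ⟨Nat.card G, mul_right_cancel₀ h0 h2⟩
  choose n hn using h1
  refine ⟨∑ χ : IrrCharacter G, m χ * n χ, ?_⟩
  push_cast
  simp only [Finset.sum_apply, Pi.smul_apply]
  rw [Finset.sum_comm]
  refine Finset.sum_congr rfl fun χ _ => ?_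
  rw [← Finset.smul_sum, hn, nsmul_eq_mul]

theorem fsz_of_nat {G : Type u} [Group G] [Fintype G] {z : G} (hz : ∀ g, g * z = z * g)
    (h : ∀ χ : G → ℂ, IsIrrCharacter G χ → ∃ n : ℕ, ∑ s : G, χ (z * (s * s)) = n) : FSZ z := by
  intro χ hχ h1
  obtain ⟨n, hn⟩ := h χ hχ
  have h0 := isIrr_apply_one_ne_zero hχ
  have h2 := sum_eq hχ hz
  rw [h1, hn] at h2
  have h3 : ((n + Nat.card G : ℕ) : ℂ) * χ 1 = 0 := by
    push_cast
    linear_combination h2
  have h4 : n + Nat.card G = 0 := by exact_mod_cast (mul_eq_zero.1 h3).resolve_right h0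
  exact Nat.card_pos.ne' (Nat.eq_zero_of_add_eq_zero_left h4)

/-! ### Products and quotients -/

/-- **(1)** -/
theorem FSZ.prod {G H : Type u} [Group G] [Group H] [Finite G] [Finite H] {z₁ : G} {z₂ : H}
    (hz₁ : ∀ g, g * z₁ = z₁ * g) (h₁₁ : z₁ * z₁ = 1) (hz₂ : ∀ g, g * z₂ = z₂ * g) (h₂₂ : z₂ * z₂ = 1)
    (h₁ : FSZ z₁) (h₂ : FSZ z₂) : FSZ ((z₁, z₂) : G × H) := by
  intro χ hχ
  obtain ⟨φ, ψ, hφ, hψ, rfl⟩ := (S0188.result χ).1 hχ
  have h3 := isIrr_apply_one_ne_zero hφ
  have h4 := isIrr_apply_one_ne_zero hψ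
  rw [fsi_outer]
  change fsi φ * fsi ψ * (φ z₁ * ψ z₂) ≠ - (φ 1 * ψ 1)
  have h5 : fsi φ * fsi ψ * (φ z₁ * ψ z₂) = (fsi φ * φ z₁) * (fsi ψ * ψ z₂) := by ring
  have h6 : φ 1 * ψ 1 ≠ 0 := mul_ne_zero h3 h4
  rw [h5]
  rcases mul_cases hφ hz₁ h₁₁ h₁ with h7 | h7
  · rw [h7, zero_mul]
    exact (neg_ne_zero.2 h6).symm
  · rcases mul_cases hψ hz₂ h₂₂ h₂ with h8 | h8
    · rw [h8, mul_zero]
      exact (neg_ne_zero.2 h6).symm
    · rw [h7, h8]
      intro h9
      exact h6 (self_eq_neg.1 h9)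

/-- **(2)** -/
theorem FSZ.of_surjective {G H : Type u} [Group G] [Group H] [Finite G] (f : G →* H)
    (hf : Function.Surjective f) {z : G} (h : FSZ z) : FSZ (f z) := by
  intro χ hχ
  have h1 := h (χ ∘ f) (isIrr_comp f hf hχ)
  rw [fsi_comp f hf, Function.comp_apply, Function.comp_apply, map_one] at h1
  exact h1

theorem FSZ.of_mulEquiv {G H : Type u} [Group G] [Group H] [Finite G] (e : G ≃* H) {z : G} (h : FSZ z) :
    FSZ (e z) :=
  FSZ.of_surjective e.toMonoidHom e.surjective h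

/-! ### Wreath products -/

section

variable {H Γ : Type u} [Group H] [Group Γ]

/-- the two cosets -/
def two (N : Subgroup Γ) (e : H × H ≃* N) (τ : Γ) : (H × H) ⊕ (H × H) → Γ :=
  Sum.elim (fun x => (e x : Γ)) (fun x => (e x : Γ) * τ)

theorem two_bijective {N : Subgroup Γ} (hN : N.index = 2) (e : H × H ≃* N) {τ : Γ} (hτ : τ ∉ N) :
    Function.Bijective (two N e τ) := by
  constructor
  · rintro (x | x) (y | y) h
    · exact congrArg Sum.inl (e.injective (Subtype.ext h))
    · exfalso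
      have h1 : (e x : Γ) = e y * τ := h
      apply hτ
      have h2 : τ = (e y : Γ)⁻¹ * e x := by rw [h1, inv_mul_cancel_left]
      rw [h2]
      exact mul_mem (inv_mem (e y).2) (e x).2
    · exfalso
      have h1 : (e x : Γ) * τ = e y := h
      apply hτ
      have h2 : τ = (e x : Γ)⁻¹ * e y := by rw [← h1, inv_mul_cancel_left]
      rw [h2]
      exact mul_mem (inv_mem (e x).2) (e y).2
    · exact congrArg Sum.inr (e.injective (Subtype.ext (mul_right_cancel (b := τ) h)))
  · intro g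
    by_cases hg : g ∈ N
    · exact ⟨Sum.inl (e.symm ⟨g, hg⟩), by simp [two]⟩
    · have h1 : g * τ⁻¹ ∈ N := by
        rw [Subgroup.mul_mem_iff_of_index_two hN, inv_mem_iff]
        exact iff_of_false hg hτ
      exact ⟨Sum.inr (e.symm ⟨g * τ⁻¹, h1⟩), by simp [two]⟩

theorem two_sq {N : Subgroup Γ} {e : H × H ≃* N} {τ : Γ} (hτ2 : τ * τ = 1)
    (hc : ∀ a b, τ * e (a, b) * τ⁻¹ = e (b, a)) (a b : H) :
    ((e (a, b) : Γ) * τ) * ((e (a, b) : Γ) * τ) = e (a * b, b * a) := by
  have h1 : (e (a * b, b * a) : Γ) = e (a, b) * e (b, a) := by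
    rw [← Subgroup.coe_mul, ← map_mul]
    rfl
  have h2 : τ⁻¹ = τ := inv_eq_of_mul_eq_one_left hτ2
  have h3 : (e (b, a) : Γ) = τ * e (a, b) * τ := by rw [← hc, h2]
  rw [h1, h3]
  simp only [mul_assoc]

/-- a class function of `H × H` -/
theorem class_diag {θ : H × H → ℂ} (hθ : IsClassFunction (H × H) θ) {z : H} (hz : ∀ g, g * z = z * g) (a b : H) :
    θ (z * (a * b), z * (b * a)) = θ (z * (a * b), z * (a * b)) := by
  rw [← hθ (z * (a * b), z * (b * a)) (1, a)]
  congr 1
  ext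
  · simp
  · change a * (z * (b * a)) * a⁻¹ = z * (a * b)
    rw [← mul_assoc a z, hz a]
    group

/-- **(3)** -/
theorem FSZ.wreath [Finite Γ] {z : H} (hz : ∀ g, g * z = z * g) (hz2 : z * z = 1) {N : Subgroup Γ}
    (hN : N.index = 2) (e : H × H ≃* N) {τ : Γ} (hτ : τ ∉ N) (hτ2 : τ * τ = 1)
    (hc : ∀ a b, τ * e (a, b) * τ⁻¹ = e (b, a)) (h : FSZ z) : FSZ (e (z, z) : Γ) := by
  classical
  have : Finite (H × H) := Finite.of_equiv _ e.symm.toEquiv
  have : Finite H := Finite.of_injective (fun x : H => (x, x)) fun x y hxy => congrArg Prod.fst hxy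
  have := Fintype.ofFinite Γ
  have := Fintype.ofFinite H
  have hbij := two_bijective hN e hτ
  -- the element is central
  have hw : ∀ g : Γ, g * e (z, z) = e (z, z) * g := by
    intro g
    have h1 : ∀ x : H × H, (e x : Γ) * e (z, z) = e (z, z) * e x := by
      rintro ⟨a, b⟩
      rw [← Subgroup.coe_mul, ← Subgroup.coe_mul, ← map_mul, ← map_mul]
      congr 2
      exact Prod.ext (hz a) (hz b)
    have h2 : τ * e (z, z) = e (z, z) * τ := by
      have h3 := hc z z
      rwa [mul_inv_eq_iff_eq_mul] at h3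
    obtain ⟨x | x, rfl⟩ := hbij.2 g
    · exact h1 x
    · change (e x : Γ) * τ * e (z, z) = e (z, z) * ((e x : Γ) * τ)
      rw [mul_assoc, h2, ← mul_assoc, h1, mul_assoc]
  refine fsz_of_nat hw fun χ hχ => ?_
  -- the restriction to `H × H`
  let f : H × H →* Γ := N.subtype.comp e.toMonoidHom
  have hf : ∀ x, f x = e x := fun x => rfl
  have hθ : IsCharacter (H × H) (χ ∘ f) := isCharacter_comp f (isIrr_isCharacter hχ)
  obtain ⟨n, hn⟩ := exists_nat (z := ((z, z) : H × H)) (fun g => Prod.ext (hz g.1) (hz g.2))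
    (Prod.ext hz2 hz2) (FSZ.prod hz hz2 hz hz2 h h) hθ
  let δ : H →* H × H := (MonoidHom.id H).prod (MonoidHom.id H)
  obtain ⟨m, hm⟩ := Blocks.ReynoldsAux.exists_nat_sum_comp δ hθ
  refine ⟨n + Fintype.card H * m, ?_⟩
  rw [← Function.Bijective.sum_comp hbij (fun s => χ ((e (z, z) : Γ) * (s * s))), Fintype.sum_sum_type, Nat.cast_add,
    Nat.cast_mul]
  congr 1
  · rw [← hn]
    refine Finset.sum_congr rfl fun x _ => ?_
    rw [Function.comp_apply, map_mul, map_mul]
    rfl
  · rw [Fintype.sum_prod_type, ← hm, ← nsmul_eq_mul, ← Finset.card_univ, ← Finset.sum_const]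
    refine Finset.sum_congr rfl fun a _ => ?_
    rw [← Equiv.sum_comp (Equiv.mulLeft (z * a)) (fun x => (χ ∘ f) (δ x))]
    refine Finset.sum_congr rfl fun b _ => ?_
    have h3 := class_diag (isCharacter_isClassFunction hθ) hz a b
    have h4 : two N e τ (Sum.inr (a, b)) = (e (a, b) : Γ) * τ := rfl
    rw [h4, two_sq hτ2 hc]
    have h5 : (e (z, z) : Γ) * e (a * b, b * a) = f (z * (a * b), z * (b * a)) := by
      rw [hf, ← Subgroup.coe_mul, ← map_mul]
      rfl
    rw [h5]
    change (χ ∘ f) _ = _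
    rw [h3, ← mul_assoc]
    rfl

end

end Cfsg.Agent.H855.FR
end

-- part: H47/Uni/Grp
section
/-!
# S4970, UNI-2: group theory (helper47)

* `fsz_two`: an index two subgroup `A` such that all elements outside `A` have square `z`;
* `dic`: the group `A ∪ A t`, `A = ⟨c, z⟩`, `t² = z`, `t` inverting `c`;
* `fszs_mul`: commuting products.
-/

set_option autoImplicit false

universe u

namespace Cfsg.Agent.H47.Uni

open Cfsg Cfsg.Agent.H955.FS Cfsg.Agent.H721.FR Cfsg.Agent.H855.FR Cfsg.Agent.Characters.Core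

/-- all elements outside a subgroup of index `2` have square `z` -/
theorem fsz_two {Y : Type u} [Group Y] [Finite Y] (A : Subgroup Y) (hA : A.index = 2) {z : Y}
    (hz : ∀ g, g * z = z * g) (hz2 : z * z = 1) (h : ∀ y, y ∉ A → y * y = z) : FSZ z := by
  classical
  have := Fintype.ofFinite Y
  intro χ hχ h1
  obtain ⟨n, hn, hn1⟩ := isIrr_apply_one hχ
  have h2 := sum_eq hχ hz
  rw [h1] at h2
  have h0 : χ 1 ≠ 0 := isIrr_apply_one_ne_zero hχ
  have h3 : ∑ s : Y, χ (z * (s * s)) = - (Nat.card Y : ℂ) := by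
    apply mul_right_cancel₀ h0
    rw [h2]
    ring
  -- the real part is not negative
  have h4 : (∑ s : Y, χ (z * (s * s))).re = ∑ s : Y, (χ (z * (s * s))).re := by
    rw [Complex.re_sum]
  have hb : ∀ g : Y, - (n : ℝ) ≤ (χ g).re := by
    intro g
    have h5 := Characters.SchurBound.norm_le (isIrr_isCharacter hχ) hn1 g
    have h6 := Complex.abs_re_le_norm (χ g)
    have h7 := abs_le.1 (h6.trans h5)
    exact h7.1
  have h5 : ∑ s : Y, (χ (z * (s * s))).re = ∑ s ∈ Finset.univ.filter (· ∈ A), (χ (z * (s * s))).re +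
      ∑ s ∈ Finset.univ.filter (¬ · ∈ A), (χ (z * (s * s))).re :=
    (Finset.sum_filter_add_sum_filter_not _ _ _).symm
  have hcA : (Finset.univ.filter (· ∈ A)).card = Nat.card A := by
    rw [Nat.card_eq_fintype_card, Fintype.card_subtype]
  have hcY : Nat.card A * 2 = Nat.card Y := by rw [← hA]; exact A.card_mul_index
  have hcA' : (Finset.univ.filter (¬ · ∈ A)).card = Nat.card A := by
    have h6 := Finset.card_filter_add_card_filter_not (s := (Finset.univ : Finset Y)) (· ∈ A)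
    rw [Finset.card_univ, ← Nat.card_eq_fintype_card, hcA, ← hcY] at h6
    omega
  have h6 : ∑ s ∈ Finset.univ.filter (¬ · ∈ A), (χ (z * (s * s))).re = Nat.card A * (n : ℝ) := by
    rw [Finset.sum_congr rfl (g := fun _ => (n : ℝ)) (fun s hs => by
      rw [h s (Finset.mem_filter.1 hs).2, hz2, hn1]
      exact Complex.natCast_re n), Finset.sum_const, hcA', nsmul_eq_mul]
  have h7 : - (Nat.card A * (n : ℝ)) ≤ ∑ s ∈ Finset.univ.filter (· ∈ A), (χ (z * (s * s))).re := by
    calc - (Nat.card A * (n : ℝ)) = ∑ s ∈ Finset.univ.filter (· ∈ A), (- (n : ℝ)) := by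
          rw [Finset.sum_const, hcA, nsmul_eq_mul]; ring
      _ ≤ _ := Finset.sum_le_sum fun s _ => hb _
  have h8 : (0 : ℝ) ≤ (∑ s : Y, χ (z * (s * s))).re := by
    rw [h4, h5, h6]
    linarith only [h7]
  rw [h3] at h8
  have h9 : (- (Nat.card Y : ℂ)).re = - (Nat.card Y : ℝ) := by simp
  rw [h9] at h8
  have h10 : (0 : ℝ) < Nat.card Y := by exact_mod_cast Nat.card_pos
  linarith only [h8, h10]

/-- the group `A ∪ A t` -/
def ext {Γ : Type u} [Group Γ] (A : Subgroup Γ) (t : Γ) (ht : ∀ a ∈ A, t * a * t⁻¹ ∈ A) (ht2 : t * t ∈ A)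
    (ht' : ∀ a ∈ A, t⁻¹ * a * t ∈ A) : Subgroup Γ where
  carrier := {x | x ∈ A ∨ x * t ∈ A}
  one_mem' := Or.inl A.one_mem
  mul_mem' := by
    rintro x y (hx | hx) (hy | hy)
    · exact Or.inl (A.mul_mem hx hy)
    · right
      rw [mul_assoc]
      exact A.mul_mem hx hy
    · right
      have h1 : x * y * t = (x * t) * (t⁻¹ * y * t) := by group
      rw [h1]
      exact A.mul_mem hx (ht' y hy)
    · left
      have h1 : x * y = (x * t) * (t⁻¹ * (y * t) * t) * (t * t)⁻¹ := by group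
      rw [h1]
      exact A.mul_mem (A.mul_mem hx (ht' _ hy)) (A.inv_mem ht2)
  inv_mem' := by
    rintro x (hx | hx)
    · exact Or.inl (A.inv_mem hx)
    · right
      have h1 : x⁻¹ * t = (t * (x * t)⁻¹ * t⁻¹) * (t * t) := by group
      rw [h1]
      exact A.mul_mem (ht _ (A.inv_mem hx)) ht2

/-- the subgroup generated by two commuting elements -/
def two {Γ : Type u} [Group Γ] {c z : Γ} (hcz : c * z = z * c) : Subgroup Γ where
  carrier := {x | ∃ i j : ℤ, x = c ^ i * z ^ j}
  one_mem' := ⟨0, 0, by simp⟩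
  mul_mem' := by
    rintro _ _ ⟨i, j, rfl⟩ ⟨k, l, rfl⟩
    refine ⟨i + k, j + l, ?_⟩
    have h1 : z ^ j * c ^ k = c ^ k * z ^ j := ((Commute.zpow_zpow (show Commute c z from hcz) k j).eq).symm
    calc c ^ i * z ^ j * (c ^ k * z ^ l) = c ^ i * (z ^ j * c ^ k) * z ^ l := by group
      _ = c ^ i * (c ^ k * z ^ j) * z ^ l := by rw [h1]
      _ = _ := by rw [zpow_add, zpow_add]; group
  inv_mem' := by
    rintro _ ⟨i, j, rfl⟩
    refine ⟨-i, -j, ?_⟩
    have h1 : z ^ (-j) * c ^ (-i) = c ^ (-i) * z ^ (-j) :=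
      ((Commute.zpow_zpow (show Commute c z from hcz) (-i) (-j)).eq).symm
    rw [← h1, mul_inv_rev, zpow_neg, zpow_neg]

/-- **dicyclic or dihedral groups** -/
theorem exists_dic {Γ : Type u} [Group Γ] {c t z : Γ} (ho : Odd (orderOf c)) (hc1 : c ≠ 1)
    (htc : t * c * t⁻¹ = c⁻¹) (htz : t * t = z) (hz2 : z * z = 1) :
    ∃ (D : Subgroup Γ) (hz : z ∈ D), Finite D ∧ c ∈ D ∧ t ∈ D ∧ (∀ x ∈ D, ∃ i j k : ℤ, x = c ^ i * z ^ j * t ^ k) ∧
      (∀ g ∈ D, g * z = z * g) ∧ FSZ (⟨z, hz⟩ : D) := by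
  have htz' : t * z = z * t := by rw [← htz]; group
  have htc' : t⁻¹ * c * t = c⁻¹ := by
    have h1 : t⁻¹ * (t * c * t⁻¹) * t = c := by group
    rw [htc] at h1
    have h2 : (t⁻¹ * c⁻¹ * t)⁻¹ = t⁻¹ * c * t := by group
    rw [← h2, h1]
  have hcz : c * z = z * c := by
    have h1 : z * c * z⁻¹ = c := by
      rw [← htz]
      calc t * t * c * (t * t)⁻¹ = t * (t * c * t⁻¹) * t⁻¹ := by group
        _ = t * c⁻¹ * t⁻¹ := by rw [htc]
        _ = (t * c * t⁻¹)⁻¹ := by group
        _ = c := by rw [htc, inv_inv]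
    calc c * z = (z * c * z⁻¹) * z := by rw [h1]
      _ = z * c := by group
  have hconj : ∀ i j : ℤ, t * (c ^ i * z ^ j) * t⁻¹ = c ^ (-i) * z ^ j := by
    intro i j
    have h1 : t * c ^ i * t⁻¹ = c ^ (-i) := by
      rw [← conj_zpow, htc, inv_zpow, zpow_neg]
    have h2 : t * z ^ j * t⁻¹ = z ^ j := by
      rw [← conj_zpow, htz', mul_inv_cancel_right]
    calc t * (c ^ i * z ^ j) * t⁻¹ = (t * c ^ i * t⁻¹) * (t * z ^ j * t⁻¹) := by group
      _ = _ := by rw [h1, h2]
  have hconj' : ∀ i j : ℤ, t⁻¹ * (c ^ i * z ^ j) * t = c ^ (-i) * z ^ j := by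
    intro i j
    have h1 := hconj (-i) j
    rw [neg_neg] at h1
    rw [← h1]
    group
  set A : Subgroup Γ := two hcz with hA
  have hcA : c ∈ A := ⟨1, 0, by simp⟩
  have hzA : z ∈ A := ⟨0, 1, by simp⟩
  have h1 : ∀ a ∈ A, t * a * t⁻¹ ∈ A := by
    rintro _ ⟨i, j, rfl⟩
    exact ⟨-i, j, hconj i j⟩
  have h1' : ∀ a ∈ A, t⁻¹ * a * t ∈ A := by
    rintro _ ⟨i, j, rfl⟩
    exact ⟨-i, j, hconj' i j⟩
  have h2 : t * t ∈ A := by rw [htz]; exact hzA
  have hzi : z⁻¹ = z := inv_eq_of_mul_eq_one_left hz2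
  set D : Subgroup Γ := ext A t h1 h2 h1' with hD
  have hcD : c ∈ D := Or.inl hcA
  have hzD : z ∈ D := Or.inl hzA
  have htD : t ∈ D := Or.inr h2
  -- finiteness
  have hfA : Finite A := by
    have hfc : (Set.range fun k : ℤ => c ^ k).Finite := by
      have h3 : IsOfFinOrder c := by
        rw [← orderOf_pos_iff]
        exact ho.pos
      have h4 := h3.finite_zpowers
      exact h4
    have hfz : (Set.range fun k : ℤ => z ^ k).Finite := by
      have h3 : IsOfFinOrder z := isOfFinOrder_iff_pow_eq_one.2 ⟨2, by norm_num, by rw [pow_two]; exact hz2⟩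
      exact h3.finite_zpowers
    have h5 : (A : Set Γ) ⊆ Set.image2 (fun a b => a * b) (Set.range fun k : ℤ => c ^ k) (Set.range fun k : ℤ => z ^ k) := by
      rintro _ ⟨i, j, rfl⟩
      exact ⟨c ^ i, ⟨i, rfl⟩, z ^ j, ⟨j, rfl⟩, rfl⟩
    exact ((hfc.image2 _ hfz).subset h5).to_subtype
  have hfD : Finite D := by
    have h5 : (D : Set Γ) ⊆ (A : Set Γ) ∪ (fun x => x * t⁻¹) '' (A : Set Γ) := by
      rintro x (hx | hx)
      · exact Or.inl hx
      · exact Or.inr ⟨x * t, hx, by simp⟩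
    exact (((Set.toFinite (A : Set Γ)).union ((Set.toFinite (A : Set Γ)).image _)).subset h5).to_subtype
  -- `t` is not in `A`
  have htA : t ∉ A := by
    rintro ⟨i, j, h⟩
    have h3 : t * c * t⁻¹ = c := by
      have h4 : t * c = c * t := by
        rw [h]
        have h5 : c * z ^ j = z ^ j * c := (Commute.zpow_right (show Commute c z from hcz) j).eq
        calc c ^ i * z ^ j * c = c ^ i * (z ^ j * c) := by group
          _ = c ^ i * (c * z ^ j) := by rw [h5]
          _ = _ := by group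
      rw [h4, mul_inv_cancel_right]
    rw [h3] at htc
    have h4 : c ^ 2 = 1 := by
      rw [pow_two]
      calc c * c = c * c⁻¹ := by rw [← htc]
        _ = 1 := mul_inv_cancel c
    have h5 : orderOf c ∣ 2 := orderOf_dvd_of_pow_eq_one h4
    rcases (Nat.dvd_prime Nat.prime_two).1 h5 with h6 | h6
    · exact hc1 (orderOf_eq_one_iff.1 h6)
    · rw [h6] at ho
      exact absurd ho (by decide)
  have hzc : ∀ g ∈ D, g * z = z * g := by
    have h3 : ∀ a ∈ A, a * z = z * a := by
      rintro _ ⟨i, j, rfl⟩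
      have h4 : c ^ i * z = z * c ^ i := (Commute.zpow_left (show Commute c z from hcz) i).eq
      have h5 : z ^ j * z = z * z ^ j := (Commute.zpow_left (Commute.refl z) j).eq
      rw [mul_assoc, h5, ← mul_assoc, h4, mul_assoc]
    rintro x (hx | hx)
    · exact h3 x hx
    · have h4 := h3 _ hx
      have h5 : x * z * t = z * x * t := by
        calc x * z * t = x * (t * z) := by rw [mul_assoc, htz']
          _ = x * t * z := by rw [mul_assoc]
          _ = z * (x * t) := h4
          _ = z * x * t := by rw [mul_assoc]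
      exact mul_right_cancel h5
  refine ⟨D, hzD, hfD, hcD, htD, ?_, hzc, ?_⟩
  · rintro x (⟨i, j, hx⟩ | ⟨i, j, hx⟩)
    · exact ⟨i, j, 0, by rw [hx]; simp⟩
    · refine ⟨i, j, -1, ?_⟩
      rw [← hx]
      simp
  · refine fsz_two (A.subgroupOf D) ?_ ?_ ?_ ?_
    · rw [Subgroup.index_eq_two_iff]
      refine ⟨⟨t, htD⟩, fun b => ?_⟩
      rw [Subgroup.mem_subgroupOf, Subgroup.mem_subgroupOf]
      show Xor ((b : Γ) * t ∈ A) ((b : Γ) ∈ A)
      rcases b.2 with hb | hb
      · refine Or.inr ⟨hb, fun h => htA ?_⟩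
        have h3 : t = (b : Γ)⁻¹ * (b * t) := by group
        rw [h3]
        exact A.mul_mem (A.inv_mem hb) h
      · refine Or.inl ⟨hb, fun h => htA ?_⟩
        have h3 : t = (b : Γ)⁻¹ * (b * t) := by group
        rw [h3]
        exact A.mul_mem (A.inv_mem h) hb
    · intro g
      exact Subtype.ext (hzc g g.2)
    · exact Subtype.ext hz2
    · intro y hy
      apply Subtype.ext
      show (y : Γ) * y = z
      have hy' : (y : Γ) ∉ A := hy
      have hyt : (y : Γ) * t ∈ A := y.2.resolve_left hy'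
      obtain ⟨i, j, hij⟩ := hyt
      have h3 : (y : Γ) = c ^ i * z ^ j * t⁻¹ := by rw [← hij]; group
      have h4 : z ^ j * z ^ j = 1 := by
        rw [← (Commute.refl z).mul_zpow, hz2, one_zpow]
      have h5 : t⁻¹ * t⁻¹ = z := by
        have : t⁻¹ * t⁻¹ = (t * t)⁻¹ := by group
        rw [this, htz, hzi]
      have h6 : c ^ i * z ^ j = z ^ j * c ^ i := (Commute.zpow_zpow (show Commute c z from hcz) i j).eq
      calc (y : Γ) * y = c ^ i * z ^ j * (t⁻¹ * (c ^ i * z ^ j) * t) * (t⁻¹ * t⁻¹) := by rw [h3]; group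
        _ = c ^ i * z ^ j * (c ^ (-i) * z ^ j) * z := by rw [hconj', h5]
        _ = z ^ j * (c ^ i * c ^ (-i)) * z ^ j * z := by rw [h6]; group
        _ = z := by rw [← zpow_add, add_neg_cancel, zpow_zero, mul_one, h4, one_mul]

/-- **commuting products** -/
theorem fszs_mul {Γ : Type u} [Group Γ] (D : Subgroup Γ) [Finite D] {H : Type u} [Group H] [Finite H] (τ : H →* Γ)
    (hc : ∀ d ∈ D, ∀ h, d * τ h = τ h * d) {z : Γ} (hzD : z ∈ D) {w : H} (hz : ∀ g ∈ D, g * z = z * g)
    (hz2 : z * z = 1) (hw : ∀ g, g * w = w * g) (hw2 : w * w = 1) (h1 : FSZ (⟨z, hzD⟩ : D)) (h2 : FSZ w) :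
    ∃ Y : Subgroup Γ, D ≤ Y ∧ τ.range ≤ Y ∧ (∀ y ∈ Y, ∃ d ∈ D, ∃ h, y = d * τ h) ∧ FSZs Y (z * τ w) := by
  let f : D × H →* Γ := MonoidHom.noncommCoprod D.subtype τ (fun d h => hc d d.2 h)
  have hf : ∀ x : D × H, f x = (x.1 : Γ) * τ x.2 := fun x => rfl
  refine ⟨f.range, ?_, ?_, ?_, ?_⟩
  · intro d hd
    exact ⟨(⟨d, hd⟩, 1), by rw [hf]; simp⟩
  · rintro _ ⟨h, rfl⟩
    exact ⟨(1, h), by rw [hf]; simp⟩
  · rintro _ ⟨x, rfl⟩
    exact ⟨x.1, x.1.2, x.2, hf x⟩
  · have h3 : FSZ ((⟨z, hzD⟩, w) : D × H) :=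
      FSZ.prod (fun g => Subtype.ext (hz g g.2)) (Subtype.ext hz2) hw hw2 h1 h2
    refine ⟨⟨(⟨z, hzD⟩, w), hf _⟩, ?_⟩
    have h4 := FSZ.of_surjective f.rangeRestrict f.rangeRestrict_surjective h3
    exact h4

end Cfsg.Agent.H47.Uni
end

-- part: H47/Uni/Cov
section
/-!
# S4970, UNI-2: the covers for `k` odd and for `k` even, `q = 1 mod 4` (helper47)
-/

set_option autoImplicit false

universe u

namespace Cfsg.Agent.H47.Uni

open Cfsg Cfsg.Agent.H955.FS Cfsg.Agent.H721.FR Cfsg.Agent.H855.FR Module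

variable {F V : Type u} [Field F] [AddCommGroup V] [Module F V]

/-- the data of UNI-1: `V = J_k ⊗ M`, `tens a = 1 ⊗ a`, `hh = (-1)^i` on `N^i M` -/
structure Dt (B : V →ₗ[F] V →ₗ[F] F) (ε : F) (c : V ≃ₗ[F] V) (k : ℕ) (M : Submodule F V)
    (β : M →ₗ[F] M →ₗ[F] F) (tens : (M ≃ₗ[F] M) →* (V ≃ₗ[F] V)) (hh : V ≃ₗ[F] V) : Prop where
  sym : ∀ x y, β x y = ε * (-1) ^ (k - 1) * β y x
  nd : ∀ x, (∀ y, β x y = 0) → x = 0
  isom : ∀ a, a ∈ Isom β → tens a ∈ Isom B
  sm : ∀ (s : Fˣ) (x : V), tens (LinearEquiv.smulOfUnit s) x = (s : F) • x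
  hh2 : hh * hh = 1
  hhB : ∀ x y, B (hh x) (hh y) = (-1) ^ (k - 1) * B x y
  hhc : hh * c * hh⁻¹ = c⁻¹
  hht : ∀ a, tens a * hh = hh * tens a
  ct : ∀ a, tens a * c = c * tens a

/-- the elements of `P` -/
def InP (k : ℕ) (M : Submodule F V) (β : M →ₗ[F] M →ₗ[F] F) (tens : (M ≃ₗ[F] M) →* (V ≃ₗ[F] V)) (hh : V ≃ₗ[F] V)
    (g : V ≃ₗ[F] V) : Prop :=
  (∃ a ∈ Isom β, g = tens a) ∨ ∃ b : M ≃ₗ[F] M, (∀ x y, β (b x) (b y) = (-1) ^ (k - 1) * β x y) ∧ g = hh * tens b

theorem finite_equiv {W : Type u} [AddCommGroup W] [Module F W] [Finite W] : Finite (W ≃ₗ[F] W) :=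
  Finite.of_injective (fun g : W ≃ₗ[F] W => (g : W → W)) DFunLike.coe_injective

theorem neg_eq_smul {W : Type u} [AddCommGroup W] [Module F W] :
    (LinearEquiv.neg F : W ≃ₗ[F] W) = LinearEquiv.smulOfUnit (-1 : Fˣ) := by
  ext x
  simp [LinearEquiv.smulOfUnit]

theorem smulOfUnit_apply' {W : Type u} [AddCommGroup W] [Module F W] (s : Fˣ) (x : W) :
    (LinearEquiv.smulOfUnit s : W ≃ₗ[F] W) x = (s : F) • x := rfl

theorem smul_mul {W : Type u} [AddCommGroup W] [Module F W] (s : Fˣ) (g : W ≃ₗ[F] W) :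
    (LinearEquiv.smulOfUnit s : W ≃ₗ[F] W) * g = g * LinearEquiv.smulOfUnit s := by
  ext x
  show (s : F) • g x = g ((s : F) • x)
  rw [map_smul]

namespace Dt

variable {B : V →ₗ[F] V →ₗ[F] F} {ε : F} {c : V ≃ₗ[F] V} {k : ℕ} {M : Submodule F V} {β : M →ₗ[F] M →ₗ[F] F}
  {tens : (M ≃ₗ[F] M) →* (V ≃ₗ[F] V)} {hh : V ≃ₗ[F] V}

theorem tens_smul (h : Dt B ε c k M β tens hh) (s : Fˣ) :
    tens (LinearEquiv.smulOfUnit s) = LinearEquiv.smulOfUnit s := by
  ext x
  rw [h.sm]
  rfl

theorem tens_zel (h : Dt B ε c k M β tens hh) (δ : F) : tens (zel M δ) = zel V δ := by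
  unfold zel
  split_ifs
  · exact map_one tens
  · rw [neg_eq_smul, h.tens_smul, neg_eq_smul]

end Dt

theorem zel_comm {W : Type u} [AddCommGroup W] [Module F W] (δ : F) (g : W ≃ₗ[F] W) : g * zel W δ = zel W δ * g := by
  unfold zel
  split_ifs
  · rw [mul_one, one_mul]
  · ext x
    simp only [_root_.LinearEquiv.mul_apply, _root_.LinearEquiv.coe_neg, _root_.Pi.neg_apply, _root_.id_eq, _root_.map_neg]

theorem zel_sq {W : Type u} [AddCommGroup W] [Module F W] (δ : F) : zel W δ * zel W δ = 1 := by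
  unfold zel
  split_ifs
  · rw [mul_one]
  · ext x
    simp only [_root_.LinearEquiv.mul_apply, _root_.LinearEquiv.coe_neg, _root_.Pi.neg_apply, _root_.id_eq, _root_.neg_neg, _root_.LinearEquiv.coe_one]

/-- general step: `D = ⟨c, t⟩`, `t² = z`, and `Isom β` -/
theorem cov_of [Finite F] [FiniteDimensional F V] {B : V →ₗ[F] V →ₗ[F] F} {ε : F} {c : V ≃ₗ[F] V} {k : ℕ}
    {M : Submodule F V} {β : M →ₗ[F] M →ₗ[F] F} {tens : (M ≃ₗ[F] M) →* (V ≃ₗ[F] V)} {hh : V ≃ₗ[F] V}
    (h : Dt B ε c k M β tens hh) (hc : c ∈ Isom B) (hc1 : c ≠ 1) (ho : Odd (orderOf c)) {δ : F} (hβ : Fm β δ)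
    (hI : Hyp.{u} (finrank F M)) {t z : V ≃ₗ[F] V} (ht : t ∈ Isom B) (htc : t * c * t⁻¹ = c⁻¹) (htz : t * t = z)
    (hz2 : z * z = 1) (htt : ∀ a, tens a * t = t * tens a) (hze : z * zel V δ = zel V ε)
    {P : Subgroup (V ≃ₗ[F] V)} (hP : ∀ g ∈ P, (∃ a ∈ Isom β, g = tens a) ∨ ∃ a ∈ Isom β, g = t * tens a) :
    Cov B ε c P := by
  have hfV : Finite V := Module.finite_of_finite F
  have hfM : Finite M := Module.finite_of_finite F
  have hf1 : Finite (M ≃ₗ[F] M) := finite_equiv
  obtain ⟨hw, hFS⟩ := hI F M β δ hβ rfl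
  obtain ⟨D, hzD, hfD, hcD, htD, hgen, hzc, hFD⟩ := exists_dic ho hc1 htc htz hz2
  have hcomm : ∀ d ∈ D, ∀ a : Isom β, d * (tens.comp (Isom β).subtype) a = (tens.comp (Isom β).subtype) a * d := by
    intro d hd a
    obtain ⟨i, j, l, rfl⟩ := hgen d hd
    show _ * tens a = tens a * _
    have h1 : Commute (tens a) c := h.ct a
    have h2 : Commute (tens a) t := htt a
    have h3 : Commute (tens a) z := by rw [← htz]; exact h2.mul_right h2
    exact (((h1.zpow_right i).mul_right (h3.zpow_right j)).mul_right (h2.zpow_right l)).eq.symm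
  obtain ⟨Y, hDY, hXY, hgY, hFY⟩ := fszs_mul D (tens.comp (Isom β).subtype) hcomm hzD hzc hz2
    (w := ⟨zel M δ, hw⟩) (fun g => Subtype.ext (zel_comm δ (g : M ≃ₗ[F] M))) (Subtype.ext (zel_sq δ)) hFD hFS
  have hzB : z ∈ Isom B := by rw [← htz]; exact (Isom B).mul_mem ht ht
  refine ⟨Y, ?_, hDY hcD, ?_, ?_⟩
  · intro y hy
    obtain ⟨d, hd, a, rfl⟩ := hgY y hy
    obtain ⟨i, j, l, rfl⟩ := hgen d hd
    exact (Isom B).mul_mem ((Isom B).mul_mem ((Isom B).mul_mem ((Isom B).zpow_mem hc i) ((Isom B).zpow_mem hzB j))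
      ((Isom B).zpow_mem ht l)) (h.isom a a.2)
  · intro g hg
    rcases hP g hg with ⟨a, ha, rfl⟩ | ⟨a, ha, rfl⟩
    · exact hXY ⟨⟨a, ha⟩, rfl⟩
    · exact Y.mul_mem (hDY htD) (hXY ⟨⟨a, ha⟩, rfl⟩)
  · have h1 : z * (tens.comp (Isom β).subtype) ⟨zel M δ, hw⟩ = zel V ε := by
      show z * tens (zel M δ) = _
      rw [h.tens_zel, hze]
    rw [h1] at hFY
    exact hFY

/-- **(a) `k` odd** -/
theorem cov_odd [Finite F] [FiniteDimensional F V] {B : V →ₗ[F] V →ₗ[F] F} {ε : F} (hF : Fm B ε) {c : V ≃ₗ[F] V}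
    {k : ℕ} (hk : Odd k) {M : Submodule F V} {β : M →ₗ[F] M →ₗ[F] F} {tens : (M ≃ₗ[F] M) →* (V ≃ₗ[F] V)}
    {hh : V ≃ₗ[F] V} (h : Dt B ε c k M β tens hh) (hc : c ∈ Isom B) (hc1 : c ≠ 1) (ho : Odd (orderOf c))
    (hI : Hyp.{u} (finrank F M)) {P : Subgroup (V ≃ₗ[F] V)} (hP : ∀ g ∈ P, InP k M β tens hh g) : Cov B ε c P := by
  have hk1 : ((-1 : F)) ^ (k - 1) = 1 := by
    obtain ⟨j, rfl⟩ := hk
    rw [Nat.add_sub_cancel]
    exact Even.neg_one_pow ⟨j, by ring⟩
  refine cov_of h hc hc1 ho (δ := ε) (t := hh) (z := 1) ⟨hF.two, hF.eps, ?_, h.nd⟩ hI ?_ h.hhc h.hh2 (one_mul 1) h.hht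
    (one_mul _) ?_
  · intro x y
    rw [h.sym, hk1, mul_one]
  · intro x y
    rw [h.hhB, hk1, one_mul]
  · intro g hg
    rcases hP g hg with ⟨a, ha, rfl⟩ | ⟨b, hb, rfl⟩
    · exact Or.inl ⟨a, ha, rfl⟩
    · refine Or.inr ⟨b, fun x y => ?_, rfl⟩
      rw [hb, hk1, one_mul]

/-- **(b) `k` even, `q = 1 mod 4`** -/
theorem cov_even [Finite F] [FiniteDimensional F V] {B : V →ₗ[F] V →ₗ[F] F} {ε : F} (hF : Fm B ε) {c : V ≃ₗ[F] V}
    {k : ℕ} (hk : Even k) (hk0 : k ≠ 0) (hq : Nat.card F % 4 = 1) {M : Submodule F V} {β : M →ₗ[F] M →ₗ[F] F}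
    {tens : (M ≃ₗ[F] M) →* (V ≃ₗ[F] V)} {hh : V ≃ₗ[F] V} (h : Dt B ε c k M β tens hh) (hc : c ∈ Isom B)
    (hc1 : c ≠ 1) (ho : Odd (orderOf c)) (hI : Hyp.{u} (finrank F M)) {P : Subgroup (V ≃ₗ[F] V)}
    (hP : ∀ g ∈ P, InP k M β tens hh g) : Cov B ε c P := by
  have hk1 : ((-1 : F)) ^ (k - 1) = -1 := by
    obtain ⟨j, rfl⟩ := hk
    refine Odd.neg_one_pow ⟨j - 1, ?_⟩
    omega
  have h11 : (-1 : F) ≠ 1 := by
    intro h1
    apply hF.two
    have : (2 : F) = 1 - (-1) := by ring
    rw [this, h1, sub_self]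
  -- a root of `-1`
  obtain ⟨i, hi⟩ : ∃ i : Fˣ, i * i = -1 := by
    have := Fintype.ofFinite F
    have h1 : IsSquare (-1 : F) := by
      rw [FiniteField.isSquare_neg_one_iff, ← Nat.card_eq_fintype_card]
      omega
    obtain ⟨r, hr⟩ := h1
    have hr0 : r ≠ 0 := by
      rintro rfl
      rw [mul_zero] at hr
      exact neg_ne_zero.2 one_ne_zero hr
    refine ⟨Units.mk0 r hr0, Units.ext ?_⟩
    rw [Units.val_mul, Units.val_mk0, ← hr]
    simp
  have hiF : (i : F) * i = -1 := by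
    have := congrArg Units.val hi
    simpa using this
  set s : V ≃ₗ[F] V := LinearEquiv.smulOfUnit i with hs
  have hss : s * s = LinearEquiv.neg F := by
    ext x
    show (i : F) • (i : F) • x = _
    rw [smul_smul, hiF]
    simp
  have hsx : ∀ x, s x = (i : F) • x := fun x => rfl
  have hsc : ∀ g : V ≃ₗ[F] V, s * g = g * s := smul_mul i
  -- elements of `P`
  have hP' : ∀ g ∈ P, (∃ a ∈ Isom β, g = tens a) ∨ ∃ a ∈ Isom β, g = (hh * s) * tens a := by
    intro g hg
    rcases hP g hg with ⟨a, ha, rfl⟩ | ⟨b, hb, rfl⟩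
    · exact Or.inl ⟨a, ha, rfl⟩
    · refine Or.inr ⟨(LinearEquiv.smulOfUnit i)⁻¹ * b, ?_, ?_⟩
      · have h2 : ∀ x y, β (((LinearEquiv.smulOfUnit i)⁻¹ : M ≃ₗ[F] M) x) (((LinearEquiv.smulOfUnit i)⁻¹ : M ≃ₗ[F] M) y) =
            - β x y := by
          intro x y
          obtain ⟨x, rfl⟩ := (LinearEquiv.smulOfUnit i : M ≃ₗ[F] M).surjective x
          obtain ⟨y, rfl⟩ := (LinearEquiv.smulOfUnit i : M ≃ₗ[F] M).surjective y
          have h3 : ∀ x : M, ((LinearEquiv.smulOfUnit i)⁻¹ : M ≃ₗ[F] M) ((LinearEquiv.smulOfUnit i : M ≃ₗ[F] M) x) = x :=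
            fun x => LinearEquiv.symm_apply_apply _ x
          rw [h3, h3, smulOfUnit_apply', smulOfUnit_apply', map_smul, map_smul, LinearMap.smul_apply, smul_smul, hiF]
          simp
        intro x y
        show β (((LinearEquiv.smulOfUnit i)⁻¹ : M ≃ₗ[F] M) (b x)) (((LinearEquiv.smulOfUnit i)⁻¹ : M ≃ₗ[F] M) (b y)) = _
        rw [h2, hb, hk1]
        ring
      · rw [map_mul, map_inv, h.tens_smul, mul_assoc, ← hs, mul_inv_cancel_left]
  have ht : hh * s ∈ Isom B := by
    intro x y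
    show B (hh (s x)) (hh (s y)) = _
    rw [h.hhB, hk1, hsx, hsx, map_smul, map_smul, LinearMap.smul_apply, smul_smul, hiF]
    simp
  have htc : hh * s * c * (hh * s)⁻¹ = c⁻¹ := by
    have h1 : hh * s * c * (hh * s)⁻¹ = hh * (s * c * s⁻¹) * hh⁻¹ := by group
    rw [h1, hsc c, mul_inv_cancel_right, h.hhc]
  have htz : hh * s * (hh * s) = LinearEquiv.neg F := by
    calc hh * s * (hh * s) = hh * (s * hh) * s := by group
      _ = hh * (hh * s) * s := by rw [hsc hh]
      _ = (hh * hh) * (s * s) := by group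
      _ = _ := by rw [h.hh2, hss, one_mul]
  have hz2 : (LinearEquiv.neg F : V ≃ₗ[F] V) * LinearEquiv.neg F = 1 := by
    ext x
    simp only [_root_.LinearEquiv.mul_apply, _root_.LinearEquiv.coe_neg, _root_.Pi.neg_apply, _root_.id_eq, _root_.neg_neg, _root_.LinearEquiv.coe_one]
  have htt : ∀ a, tens a * (hh * s) = hh * s * tens a := by
    intro a
    rw [← mul_assoc, h.hht, mul_assoc, mul_assoc, ← hsc]
  rcases hF.eps with rfl | ⟨rfl, -⟩
  · refine cov_of h hc hc1 ho (δ := -1) ⟨hF.two, Or.inr ⟨rfl, hq⟩, ?_, h.nd⟩ hI ht htc htz hz2 htt ?_ hP'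
    · intro x y
      rw [h.sym, hk1, one_mul]
    · unfold zel
      rw [if_neg h11, if_pos rfl]
      exact hz2
  · refine cov_of h hc hc1 ho (δ := 1) ⟨hF.two, Or.inl rfl, ?_, h.nd⟩ hI ht htc htz hz2 htt ?_ hP'
    · intro x y
      rw [h.sym, hk1]
      ring
    · unfold zel
      rw [if_neg h11, if_pos rfl, mul_one]

end Cfsg.Agent.H47.Uni
end

private theorem dce_e9054f70b756 : _root_.True := by
  try have : _root_.True := by simp only [_root_.Cfsg.Agent.H855.FR.two.eq_1]
  try have : _root_.True := by simp only [_root_.LinearEquiv.smulOfUnit.eq_1]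
  exact _root_.True.intro
end

-- part: H699/FR/Sem_mg
section
prune_inst 0x104005510002000018051040004081110001020000000000040102010880402942080108800508001200002000000812100020000000000000040000050000008000000040000002000800000001000000000000000000000080000000000000c010000
set_option linter.all false
open scoped Cfsg.Agent.FastGrp

-- part: H699/FR/Sem
section
/-!
# TEAM SR part 2 (S4970), task FR-SEM: reduction for a semisimple element

`cov_sem` : let `c ∈ Isom B`, `c ≠ 1`, be of odd order prime to the characteristic and let `K` be the group generated by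
`c` and `P` (a group of isometries which centralise or invert `c`). Then `Red B K`, or `Cov B ε c P` (by induction over
the field `F[c + c⁻¹]`), or `c + c⁻¹ = τ` is a scalar (`τ ≠ 2`, `τ ≠ -2`).
-/

set_option autoImplicit false
set_option linter.unusedSectionVars false

universe u

namespace Cfsg.Agent.H699.FR

open Cfsg Cfsg.Agent.H955.FS Cfsg.Agent.H721.SR Cfsg.Agent.H721.FR Module Polynomial
open Cfsg.Agent.Characters.Core

/-! ### Transport of `FSZ` -/

theorem fsz_surj {G H : Type u} [Group G] [Group H] [Finite G] (f : G →* H) (hf : Function.Surjective f) {z : G}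
    (h : FSZ z) : FSZ (f z) := by
  intro χ hχ
  have h1 := h (χ ∘ f) (isIrr_comp f hf hχ)
  rw [fsi_comp f hf] at h1
  simpa using h1

/-- the image of a subgroup under a homomorphism -/
theorem fszs_map {Γ Δ : Type u} [Group Γ] [Group Δ] {Y : Subgroup Γ} [Finite Y] (f : Γ →* Δ) {z : Γ}
    (h : FSZs Y z) : FSZs (Y.map f) (f z) := by
  obtain ⟨hz, h1⟩ := h
  refine ⟨Subgroup.mem_map_of_mem f hz, ?_⟩
  exact fsz_surj (f.subgroupMap Y) (f.subgroupMap_surjective Y) h1

/-! ### Functionals on a field extension -/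

section Fun

variable {F E : Type u} [Field F] [Field E] [Algebra F E]

theorem exists_t (F E : Type u) [Field F] [Field E] [Algebra F E] : ∃ t : E →ₗ[F] F, t ≠ 0 := by
  by_contra h
  push Not at h
  have h1 := (Module.forall_dual_apply_eq_zero_iff F (1 : E)).1 fun φ => by rw [h φ]; rfl
  exact one_ne_zero h1

theorem t_unique {t : E →ₗ[F] F} (ht : t ≠ 0) {c : E} (h : ∀ e, t (e * c) = 0) : c = 0 := by
  by_contra hc
  apply ht
  ext e
  have h1 := h (e * c⁻¹)
  rwa [mul_assoc, inv_mul_cancel₀ hc, mul_one] at h1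

theorem t_unique' {t : E →ₗ[F] F} (ht : t ≠ 0) {c d : E} (h : ∀ e, t (e * c) = t (e * d)) : c = d := by
  rw [← sub_eq_zero]
  refine t_unique ht fun e => ?_
  rw [mul_sub, map_sub, h, sub_self]

theorem exists_rep [Finite E] {t : E →ₗ[F] F} (ht : t ≠ 0) (l : E →ₗ[F] F) : ∃ c, ∀ e, t (e * c) = l e := by
  have : Module.Finite F E := inferInstance
  let Φ : E →ₗ[F] (E →ₗ[F] F) := (LinearMap.mul F E).compr₂ t
  have hΦ : ∀ c e, Φ c e = t (c * e) := fun c e => rfl
  have hinj : Function.Injective Φ := by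
    rw [injective_iff_map_eq_zero]
    intro c hc
    refine t_unique ht fun e => ?_
    rw [mul_comm, ← hΦ, hc]
    rfl
  have hsurj : Function.Surjective Φ :=
    (LinearMap.injective_iff_surjective_of_finrank_eq_finrank (Subspace.dual_finrank_eq (K := F) (V := E)).symm).1 hinj
  obtain ⟨c, hc⟩ := hsurj l
  refine ⟨c, fun e => ?_⟩
  rw [mul_comm, ← hΦ, hc]

end Fun

/-- restriction of scalars -/
def resS (F : Type u) {E V : Type u} [Field F] [Field E] [Algebra F E] [AddCommGroup V] [Module F V] [Module E V]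
    [IsScalarTower F E V] : (V ≃ₗ[E] V) →* (V ≃ₗ[F] V) where
  toFun g := g.restrictScalars F
  map_one' := rfl
  map_mul' _ _ := rfl

/-! ### The form over the larger field -/

section Ext

variable {F E V : Type u} [Field F] [Finite F] [Field E] [Finite E] [Algebra F E]
  [AddCommGroup V] [Module F V] [Module E V] [IsScalarTower F E V] [FiniteDimensional F V]
  {B : V →ₗ[F] V →ₗ[F] F}

/-- the form over `E` -/
theorem exists_BE (hs : ∀ (e : E) (v w : V), B (e • v) w = B v (e • w)) {t : E →ₗ[F] F} (ht : t ≠ 0) :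
    ∃ BE : V →ₗ[E] V →ₗ[E] E, ∀ (e : E) (v w : V), t (e * BE v w) = B (e • v) w := by
  have hm : ∀ v w : V, ∃ l : E →ₗ[F] F, ∀ e, l e = B (e • v) w := fun v w =>
    ⟨{ toFun := fun e => B (e • v) w
       map_add' := fun a b => by rw [add_smul, map_add, LinearMap.add_apply]
       map_smul' := fun a b => by rw [smul_assoc, map_smul, LinearMap.smul_apply]; rfl }, fun e => rfl⟩
  choose m hm using hm
  choose f hf using fun v w => exists_rep ht (m v w)
  have hf' : ∀ (v w : V) (e : E), t (e * f v w) = B (e • v) w := fun v w e => by rw [hf, hm]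
  refine ⟨LinearMap.mk₂ E f
    (fun a b c => t_unique' ht fun e => by
      rw [mul_add, map_add, hf', hf', hf', smul_add, map_add, LinearMap.add_apply])
    (fun a b c => t_unique' ht fun e => by
      rw [smul_eq_mul, ← mul_assoc, hf', hf', smul_smul])
    (fun a b c => t_unique' ht fun e => by
      rw [mul_add, map_add, hf', hf', hf', map_add])
    (fun a b c => t_unique' ht fun e => by
      rw [smul_eq_mul, ← mul_assoc, hf', hf', ← hs, smul_smul, mul_comm]), fun e v w => hf' v w e⟩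

variable {t : E →ₗ[F] F} {BE : V →ₗ[E] V →ₗ[E] E} (h2 : ∀ (e : E) (v w : V), t (e * BE v w) = B (e • v) w)

include h2 in
theorem fm_BE (ht : t ≠ 0) {ε : F} (hF : Fm B ε) : Fm BE (algebraMap F E ε) where
  two := by
    have h := hF.two
    intro h0
    apply h
    apply (algebraMap F E).injective
    rw [map_ofNat, h0, map_zero]
  eps := by
    rcases hF.eps with h | ⟨h, h1⟩
    · left
      rw [h, map_one]
    · right
      refine ⟨by rw [h, map_neg, map_one], ?_⟩
      have h3 : Nat.card E = Nat.card F ^ finrank F E := Module.natCard_eq_pow_finrank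
      rw [h3, Nat.pow_mod, h1, one_pow]
      rfl
  symm := by
    intro v w
    refine t_unique' ht fun e => ?_
    have hs : ∀ (e : E) (v w : V), B (e • v) w = B v (e • w) := by
      intro e v w
      have h3 := h2 1 v (e • w)
      rw [one_mul, one_smul] at h3
      rw [← h3, ← h2, map_smul, smul_eq_mul]
    have h5 : e * (algebraMap F E ε * BE w v) = ε • (e * BE w v) := by
      rw [Algebra.smul_def]
      ring
    rw [h5, map_smul, h2, h2, hF.symm, ← hs]
    rfl
  nondeg := by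
    intro v hv
    refine hF.nondeg v fun w => ?_
    have h := h2 1 v w
    rw [hv, mul_zero, map_zero, one_smul] at h
    exact h.symm

include h2 in
theorem isom_BE_le (g : V ≃ₗ[E] V) (hg : g ∈ Isom BE) : resS F g ∈ Isom B := by
  intro v w
  have h3 := h2 1 (g v) (g w)
  have h4 := h2 1 v w
  rw [one_smul] at h3 h4
  show B (g v) (g w) = B v w
  rw [← h3, ← h4, hg v w]

include h2 in
theorem mem_isom_BE (ht : t ≠ 0) (g : V ≃ₗ[F] V) (hg : g ∈ Isom B) (hc : ∀ (e : E) (v : V), g (e • v) = e • g v) :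
    g ∈ (Isom BE).map (resS F) := by
  refine ⟨{ g with map_smul' := hc }, ?_, rfl⟩
  intro v w
  refine t_unique' ht fun e => ?_
  show t (e * BE (g v) (g w)) = t (e * BE v w)
  rw [h2, h2, ← hc, hg]

end Ext

/-! ### Selfadjoint endomorphisms -/

section Self

variable {F V : Type u} [Field F] [Finite F] [AddCommGroup V] [Module F V] [FiniteDimensional F V]
  {B : V →ₗ[F] V →ₗ[F] F}

theorem aeval_self {x : Module.End F V} (hx : ∀ v w, B (x v) w = B v (x w)) (a : F[X]) (v w : V) :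
    B (aeval x a v) w = B v (aeval x a w) := by
  induction a using Polynomial.induction_on' generalizing v w with
  | add p q hp hq => simp only [map_add, LinearMap.add_apply, hp, hq]
  | monomial n a =>
    simp only [aeval_monomial, Module.End.mul_apply, Module.algebraMap_end_apply, map_smul, LinearMap.smul_apply]
    congr 1
    induction n generalizing v w with
    | zero => simp
    | succ n ih =>
      rw [pow_succ, Module.End.mul_apply, ih, hx, ← Module.End.mul_apply, ← pow_succ', ← pow_succ]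

theorem aeval_comm {x : Module.End F V} {g : V →ₗ[F] V} (hg : ∀ v, g (x v) = x (g v)) (a : F[X]) (v : V) :
    g (aeval x a v) = aeval x a (g v) := by
  induction a using Polynomial.induction_on' generalizing v with
  | add p q hp hq => rw [map_add, LinearMap.add_apply, LinearMap.add_apply, map_add, hp, hq]
  | monomial n a =>
    simp only [aeval_monomial, Module.End.mul_apply, Module.algebraMap_end_apply, map_smul]
    congr 1
    induction n generalizing v with
    | zero => simp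
    | succ n ih => rw [pow_succ, Module.End.mul_apply, Module.End.mul_apply, ih, hg]

/-- the case of a reducible minimal polynomial -/
theorem red_of_reducible {ε : F} (hF : Fm B ε) {x : Module.End F V} (hx : ∀ v w, B (x v) w = B v (x w))
    (hsq : Squarefree (minpoly F x)) (hn : ¬ Irreducible (minpoly F x)) (hV : (1 : Module.End F V) ≠ 0)
    {K : Subgroup (V ≃ₗ[F] V)} (hK : ∀ g ∈ K, ∀ v, g (x v) = x (g v)) : Red B K := by
  have hint : IsIntegral F x := Algebra.IsIntegral.isIntegral x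
  have hmon := minpoly.monic hint
  have hu : ¬ IsUnit (minpoly F x) := by
    intro h
    have h1 := hmon.isUnit_iff.1 h
    have h2 := minpoly.aeval F x
    rw [h1, map_one] at h2
    exact hV h2
  obtain ⟨a, b, ha, hb, hab⟩ : ∃ a b : F[X], ¬ IsUnit a ∧ ¬ IsUnit b ∧ minpoly F x = a * b := by
    by_contra h
    push Not at h
    refine hn ⟨hu, fun {a b} hab => ?_⟩
    by_contra h1
    push Not at h1
    exact h a b h1.1 h1.2 hab
  have hcop : IsCoprime a b := by
    rw [hab] at hsq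
    exact (squarefree_mul_iff.1 hsq).1.isCoprime
  obtain ⟨u, w, huw⟩ := hcop
  have ha0 : a ≠ 0 := by rintro rfl; rw [zero_mul] at hab; exact hmon.ne_zero hab
  have hb0 : b ≠ 0 := by rintro rfl; rw [mul_zero] at hab; exact hmon.ne_zero hab
  have hna : ∀ p : F[X], p ≠ 0 → aeval x p = 0 → (minpoly F x).natDegree ≤ p.natDegree := fun p hp hp0 =>
    natDegree_le_of_dvd (minpoly.dvd F x hp0) hp
  have hdeg : (minpoly F x).natDegree = a.natDegree + b.natDegree := by rw [hab, natDegree_mul ha0 hb0]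
  have hda : 0 < a.natDegree := by
    rw [Nat.pos_iff_ne_zero]
    intro h
    obtain ⟨k, hk⟩ := natDegree_eq_zero.1 h
    apply ha
    rw [← hk]
    refine isUnit_C.2 (isUnit_iff_ne_zero.2 ?_)
    rintro rfl
    exact ha0 (by rw [← hk, C_0])
  have hdb : 0 < b.natDegree := by
    rw [Nat.pos_iff_ne_zero]
    intro h
    obtain ⟨k, hk⟩ := natDegree_eq_zero.1 h
    apply hb
    rw [← hk]
    refine isUnit_C.2 (isUnit_iff_ne_zero.2 ?_)
    rintro rfl
    exact hb0 (by rw [← hk, C_0])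
  have hax : aeval x a ≠ 0 := fun h => by have := hna a ha0 h; omega
  have hbx : aeval x b ≠ 0 := fun h => by have := hna b hb0 h; omega
  have hone : ∀ v : V, aeval x u (aeval x a v) + aeval x w (aeval x b v) = v := by
    intro v
    have h1 := congrArg (fun p => aeval x p v) huw
    simpa using h1
  have hcm : ∀ (p r : F[X]) (v : V), aeval x p (aeval x r v) = aeval x r (aeval x p v) := by
    intro p r v
    rw [← Module.End.mul_apply, ← map_mul, mul_comm, map_mul, Module.End.mul_apply]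
  have hab0 : ∀ v : V, aeval x a (aeval x b v) = 0 := by
    intro v
    rw [← Module.End.mul_apply, ← map_mul, ← hab, minpoly.aeval, LinearMap.zero_apply]
  have hperp : ∀ v1 v2 : V, aeval x a v1 = 0 → aeval x b v2 = 0 → B v1 v2 = 0 := by
    intro v1 v2 h1 h2
    have h3 := hone v1
    rw [h1, map_zero, zero_add] at h3
    rw [← h3, aeval_self hx, aeval_self hx, hcm, h2, map_zero, map_zero]
  refine ⟨LinearMap.ker (aeval x a), ?_, ?_, ?_, fun g hg => Or.inl ?_⟩
  · intro h
    apply hbx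
    ext v
    have h1 : aeval x b v ∈ LinearMap.ker (aeval x a) := hab0 v
    rw [h] at h1
    exact h1
  · intro h
    apply hax
    ext v
    have h1 : v ∈ LinearMap.ker (aeval x a) := by rw [h]; trivial
    exact h1
  · intro v hv h
    refine hF.nondeg v fun y => ?_
    have h3 := hone y
    have h4 : B v (aeval x w (aeval x b y)) = 0 := by
      refine h _ ?_
      rw [LinearMap.mem_ker, hcm, hab0, map_zero]
    have h5 : B v (aeval x u (aeval x a y)) = 0 := by
      refine hperp _ _ hv ?_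
      rw [hcm, hcm b a, hab0, map_zero]
    rw [← h3, map_add, h4, h5, add_zero]
  · have hle : ∀ g ∈ K, (LinearMap.ker (aeval x a)).map (g : V →ₗ[F] V) ≤ LinearMap.ker (aeval x a) := by
      rintro g hg _ ⟨v, hv, rfl⟩
      rw [SetLike.mem_coe, LinearMap.mem_ker] at hv
      rw [LinearMap.mem_ker, ← aeval_comm (g := (g : V →ₗ[F] V)) (hK g hg), hv, map_zero]
    refine le_antisymm (hle g hg) fun v hv => ?_
    refine ⟨g⁻¹ v, hle g⁻¹ (inv_mem hg) ⟨v, hv, rfl⟩, ?_⟩
    exact LinearEquiv.apply_symm_apply g v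

/-- the case of an irreducible minimal polynomial of degree greater than one -/
theorem cov_of_field {ε : F} (hF : Fm B ε) (hI : ∀ m < finrank F V, Hyp.{u} m) {x : Module.End F V}
    (hx : ∀ v w, B (x v) w = B v (x w)) (hirr : Irreducible (minpoly F x)) (hd : 1 < (minpoly F x).natDegree)
    (hV : 0 < finrank F V) {c : V ≃ₗ[F] V} {P : Subgroup (V ≃ₗ[F] V)} (hc : c ∈ Isom B) (hP : P ≤ Isom B)
    (hcx : ∀ v, c (x v) = x (c v)) (hPx : ∀ g ∈ P, ∀ v, g (x v) = x (g v)) : Cov B ε c P := by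
  have : Fact (Irreducible (minpoly F x)) := ⟨hirr⟩
  have hint : IsIntegral F x := Algebra.IsIntegral.isIntegral x
  let E : Type u := AdjoinRoot (minpoly F x)
  let _ : Field E := AdjoinRoot.instField
  let _ : Algebra F E := inferInstanceAs (Algebra F (AdjoinRoot (minpoly F x)))
  have hfin : Module.Finite F E := (AdjoinRoot.powerBasis hirr.ne_zero).finite
  have : Finite E := Module.finite_of_finite F
  have hφ0 : ∀ a : F[X], a ∈ Ideal.span {minpoly F x} → (aeval x : F[X] →ₐ[F] Module.End F V) a = 0 := by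
    intro a ha
    obtain ⟨b, rfl⟩ := Ideal.mem_span_singleton.1 ha
    rw [map_mul, minpoly.aeval, zero_mul]
  let φ : E →ₐ[F] Module.End F V := Ideal.Quotient.liftₐ (Ideal.span {minpoly F x}) (aeval x) hφ0
  have hφ : ∀ a : F[X], φ (AdjoinRoot.mk (minpoly F x) a) = aeval x a := fun a => rfl
  let _ : Module E V := Module.compHom V φ.toRingHom
  have hsm : ∀ (e : E) (v : V), e • v = φ e v := fun e v => rfl
  have : IsScalarTower F E V := ⟨fun a e v => by
    rw [hsm, hsm, map_smul]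
    rfl⟩
  have hs : ∀ (e : E) (v w : V), B (e • v) w = B v (e • w) := by
    intro e v w
    obtain ⟨a, rfl⟩ := AdjoinRoot.mk_surjective e
    rw [hsm, hsm, hφ]
    exact aeval_self hx a v w
  have hfd : FiniteDimensional E V := Module.Finite.of_restrictScalars_finite F E V
  obtain ⟨t, ht⟩ := exists_t F E
  obtain ⟨BE, h2⟩ := exists_BE hs ht
  have hFm := fm_BE h2 ht hF
  have hfr : finrank E V * (minpoly F x).natDegree = finrank F V := by
    have h3 : Module.finrank F E = (minpoly F x).natDegree := by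
      rw [(AdjoinRoot.powerBasis hirr.ne_zero).finrank, AdjoinRoot.powerBasis_dim]
    rw [← h3, mul_comm]
    exact Module.finrank_mul_finrank F E V
  have hlt : finrank E V < finrank F V := by
    rw [← hfr]
    have h4 : 0 < finrank E V := by
      rw [Nat.pos_iff_ne_zero]
      intro h
      rw [h, zero_mul] at hfr
      omega
    nlinarith
  have hY := hI _ hlt E V BE (algebraMap F E ε) hFm rfl
  have hcomm : ∀ g : V ≃ₗ[F] V, (∀ v, g (x v) = x (g v)) → ∀ (e : E) (v : V), g (e • v) = e • g v := by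
    intro g hg e v
    obtain ⟨a, rfl⟩ := AdjoinRoot.mk_surjective e
    rw [hsm, hsm, hφ]
    exact aeval_comm (g := (g : V →ₗ[F] V)) hg a v
  have : Finite V := Module.finite_of_finite F
  have : Finite (V ≃ₗ[E] V) := Finite.of_injective (fun g : V ≃ₗ[E] V => (g : V → V)) DFunLike.coe_injective
  refine ⟨(Isom BE).map (resS F), ?_, ?_, ?_, ?_⟩
  · rintro _ ⟨g, hg, rfl⟩
    exact isom_BE_le h2 g hg
  · exact mem_isom_BE h2 ht c hc (hcomm c hcx)
  · intro g hg
    exact mem_isom_BE h2 ht g (hP hg) (hcomm g (hPx g hg))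
  · have h5 := fszs_map (resS F) hY
    have h6 : resS F (zel V (algebraMap F E ε)) = zel V ε := by
      unfold zel
      by_cases h : ε = 1
      · rw [if_pos h, if_pos (by rw [h, map_one]), map_one]
      · rw [if_neg h, if_neg]
        · rfl
        · intro h7
          apply h
          apply (algebraMap F E).injective
          rw [h7, map_one]
    rw [h6] at h5
    exact h5

end Self

/-! ### The reduction -/

section Main

variable {F V : Type u} [Field F] [Finite F] [AddCommGroup V] [Module F V] [FiniteDimensional F V]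
  {B : V →ₗ[F] V →ₗ[F] F}

/-- semisimplicity of elements of order prime to the characteristic -/
theorem semisimple_of_order {c : V ≃ₗ[F] V} (hp : (orderOf c : F) ≠ 0) :
    Module.End.IsSemisimple (c : V →ₗ[F] V) := by
  refine Module.End.isSemisimple_of_squarefree_aeval_eq_zero (p := X ^ orderOf c - 1)
    (X_pow_sub_one_separable_iff.2 hp).squarefree ?_
  rw [map_sub, map_pow, aeval_X, map_one, sub_eq_zero]
  ext v
  have h1 : ∀ (n : ℕ) (v : V), ((c : V →ₗ[F] V) ^ n) v = (c ^ n) v := by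
    intro n
    induction n with
    | zero => intro v; rfl
    | succ n ih => intro v; rw [pow_succ, pow_succ, Module.End.mul_apply, ih]; rfl
  rw [h1, pow_orderOf_eq_one]
  rfl

/-- **task FR-SEM**, general form: the reduction for a semisimple element `c` of odd order, which commutes with `c'` and
is centralised or inverted by `P` -/
theorem cov_sem_gen {ε : F} (hF : Fm B ε) (hI : ∀ m < finrank F V, Hyp.{u} m) {c : V ≃ₗ[F] V} (hc : c ∈ Isom B)
    (hc1 : c ≠ 1) (h2 : ¬ 2 ∣ orderOf c) (hp : (orderOf c : F) ≠ 0) {c' : V ≃ₗ[F] V} (hc' : c' ∈ Isom B)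
    (hcc0 : c' * c = c * c') {P : Subgroup (V ≃ₗ[F] V)} (hP : P ≤ Isom B)
    (hPc : ∀ g ∈ P, g * c * g⁻¹ = c ∨ g * c * g⁻¹ = c⁻¹) :
    Red B (Subgroup.closure {c'} ⊔ P) ∨ Cov B ε c' P ∨
      ∃ τ : F, (∀ v, c v + c⁻¹ v = τ • v) ∧ τ ≠ 2 ∧ τ ≠ -2 := by
  have hss := semisimple_of_order hp
  let x : Module.End F V := (c : V →ₗ[F] V) + ((c⁻¹ : V ≃ₗ[F] V) : V →ₗ[F] V)
  have hxv : ∀ v, x v = c v + c⁻¹ v := fun v => rfl
  have hcc : ∀ v, c (c⁻¹ v) = v := fun v => LinearEquiv.apply_symm_apply c v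
  have hcc' : ∀ v, c⁻¹ (c v) = v := fun v => LinearEquiv.symm_apply_apply c v
  have hV : 0 < finrank F V := by
    rw [Nat.pos_iff_ne_zero]
    intro h
    have := Module.finrank_zero_iff.1 h
    exact hc1 (LinearEquiv.ext fun v => Subsingleton.elim _ _)
  have hx : ∀ v w, B (x v) w = B v (x w) := by
    intro v w
    have h3 : B (c v) w = B v (c⁻¹ w) := by
      have := hc v (c⁻¹ w)
      rwa [hcc] at this
    have h4 : B (c⁻¹ v) w = B v (c w) := by
      have := hc (c⁻¹ v) w
      rw [hcc] at this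
      exact this.symm
    rw [hxv, hxv, map_add, map_add, LinearMap.add_apply, h3, h4, add_comm]
  have hgx : ∀ g : V ≃ₗ[F] V, (g * c * g⁻¹ = c ∨ g * c * g⁻¹ = c⁻¹) → ∀ v, g (x v) = x (g v) := by
    rintro g (hg | hg) v
    · have h5 : g * c = c * g := by
        rw [mul_inv_eq_iff_eq_mul] at hg
        exact hg
      have h6 : g * c⁻¹ = c⁻¹ * g := by
        rw [eq_inv_mul_iff_mul_eq, ← mul_assoc, ← h5, mul_assoc, mul_inv_cancel, mul_one]
      have h7 : g (c v) = c (g v) := congrArg (fun k : V ≃ₗ[F] V => k v) h5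
      have h8 : g (c⁻¹ v) = c⁻¹ (g v) := congrArg (fun k : V ≃ₗ[F] V => k v) h6
      rw [hxv, hxv, map_add, h7, h8]
    · have h5 : g * c = c⁻¹ * g := by
        rw [mul_inv_eq_iff_eq_mul] at hg
        exact hg
      have h6 : g * c⁻¹ = c * g := by
        rw [← inv_mul_eq_iff_eq_mul, ← mul_assoc, ← h5, mul_assoc, mul_inv_cancel, mul_one]
      have h7 : g (c v) = c⁻¹ (g v) := congrArg (fun k : V ≃ₗ[F] V => k v) h5
      have h8 : g (c⁻¹ v) = c (g v) := congrArg (fun k : V ≃ₗ[F] V => k v) h6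
      rw [hxv, hxv, map_add, h7, h8, add_comm]
  have hcx : ∀ v, c' (x v) = x (c' v) := hgx c' (Or.inl (by rw [hcc0, mul_inv_cancel_right]))
  have hKx : ∀ g ∈ Subgroup.closure {c'} ⊔ P, ∀ v, g (x v) = x (g v) := by
    intro g hg
    let Z : Subgroup (V ≃ₗ[F] V) :=
      { carrier := {g | ∀ v, g (x v) = x (g v)}
        mul_mem' := fun {a b} ha hb v => by
          show a (b (x v)) = x (a (b v))
          rw [hb, ha]
        one_mem' := fun v => rfl
        inv_mem' := fun {a} ha v => by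
          apply a.injective
          rw [ha, show a (a⁻¹ (x v)) = x v from LinearEquiv.apply_symm_apply a _,
            show a (a⁻¹ v) = v from LinearEquiv.apply_symm_apply a _] }
    have h9 : Subgroup.closure {c'} ⊔ P ≤ Z :=
      sup_le ((Subgroup.closure_le Z).2 (Set.singleton_subset_iff.2 hcx)) fun g hg => hgx g (hPc g hg)
    exact h9 hg
  have hpw : ∀ (n : ℕ) (v : V), (((c : V →ₗ[F] V) : Module.End F V) ^ n) v = (c ^ n) v := by
    intro n
    induction n with
    | zero => intro v; rfl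
    | succ n ih => intro v; rw [pow_succ, pow_succ, Module.End.mul_apply, ih]; rfl
  have : Finite V := Module.finite_of_finite F
  have : Finite (V ≃ₗ[F] V) := Finite.of_injective (fun g : V ≃ₗ[F] V => (g : V → V)) DFunLike.coe_injective
  have hord : 0 < orderOf c := orderOf_pos c
  have hmem : x ∈ Algebra.adjoin F {((c : V →ₗ[F] V) : Module.End F V)} := by
    have h3 : x = ((c : V →ₗ[F] V) : Module.End F V) + ((c : V →ₗ[F] V) : Module.End F V) ^ (orderOf c - 1) := by
      ext v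
      have h4 : c⁻¹ = c ^ (orderOf c - 1) := by
        rw [inv_eq_iff_mul_eq_one, ← pow_succ', Nat.sub_add_cancel hord, pow_orderOf_eq_one]
      have h5 := hpw (orderOf c - 1) v
      rw [← h4] at h5
      show c v + c⁻¹ v = c v + (((c : V →ₗ[F] V) : Module.End F V) ^ (orderOf c - 1)) v
      rw [h5]
    rw [h3]
    exact add_mem (Algebra.self_mem_adjoin_singleton F _) (pow_mem (Algebra.self_mem_adjoin_singleton F _) _)
  have hxs : x.IsSemisimple := hss.of_mem_adjoin_singleton hmem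
  have hdbl : ∀ s : F, (∀ v, c (c v) + v = (2 * s) • c v) → s * s = 1 → ∀ v, c v = s • v := by
    intro s h3 h4 v
    have h5 : minpoly F ((c : V →ₗ[F] V) : Module.End F V) ∣ (X - C s) ^ 2 := by
      apply minpoly.dvd
      rw [map_pow, map_sub, aeval_X, aeval_C]
      ext v
      rw [pow_two, Module.End.mul_apply, LinearMap.sub_apply, LinearMap.sub_apply, Module.algebraMap_end_apply,
        Module.algebraMap_end_apply, map_sub, map_smul]
      show c (c v) - s • c v - s • (c v - s • v) = 0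
      have h6 := h3 v
      rw [smul_sub, smul_smul, h4, one_smul]
      have h7 : c (c v) - s • c v - (s • c v - v) = (c (c v) + v) - (s + s) • c v := by
        rw [add_smul]; abel
      rw [h7, h6, two_mul, sub_self]
    have h8 := hss.minpoly_squarefree.isRadical 2 _ h5
    obtain ⟨r, hr⟩ := h8
    have h9 : aeval ((c : V →ₗ[F] V) : Module.End F V) (X - C s) = 0 := by
      rw [hr, map_mul, minpoly.aeval, zero_mul]
    rw [map_sub, aeval_X, aeval_C] at h9
    have h10 := congrArg (fun k : Module.End F V => k v) h9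
    have h11 : c v - s • v = 0 := h10
    exact sub_eq_zero.1 h11
  have hsq := hxs.minpoly_squarefree
  have hint : IsIntegral F x := Algebra.IsIntegral.isIntegral x
  by_cases hirr : Irreducible (minpoly F x)
  · by_cases hd : 1 < (minpoly F x).natDegree
    · right; left
      exact cov_of_field hF hI hx hirr hd hV hc' hP hcx fun g hg => hgx g (hPc g hg)
    · right; right
      have hd1 : (minpoly F x).natDegree = 1 := by
        have := hirr.natDegree_pos
        omega
      have : Nontrivial V := Module.finrank_pos_iff.1 hV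
      obtain ⟨τ, hτ⟩ := minpoly.natDegree_eq_one_iff.1 hd1
      have hτv : ∀ v, c v + c⁻¹ v = τ • v := by
        intro v
        rw [← hxv, ← hτ]
        rfl
      have hτ2 : ∀ v, c (c v) + v = τ • c v := by
        intro v
        have h3 := hτv (c v)
        rwa [hcc'] at h3
      refine ⟨τ, hτv, ?_, ?_⟩
      · rintro rfl
        apply hc1
        ext v
        have h3 := hdbl 1 (fun v => by rw [mul_one]; exact hτ2 v) (one_mul 1) v
        rw [h3, one_smul]
        rfl
      · rintro rfl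
        have h3 := hdbl (-1) (fun v => by rw [hτ2, mul_neg, mul_one]) (by rw [neg_mul_neg, one_mul])
        have h4 : c ^ 2 = 1 := by
          ext v
          show c (c v) = v
          rw [h3, h3, smul_smul, neg_mul_neg, one_mul, one_smul]
        have h5 := orderOf_dvd_of_pow_eq_one h4
        rcases (Nat.dvd_prime Nat.prime_two).1 h5 with h6 | h6
        · exact hc1 (orderOf_eq_one_iff.1 h6)
        · exact h2 (by rw [h6])
  · left
    refine red_of_reducible hF hx hsq hirr ?_ hKx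
    intro h
    apply hc1
    ext v
    have h3 := congrArg (fun k : Module.End F V => k v) h
    have h4 : v = 0 := h3
    rw [h4, map_zero, map_zero]

/-- **task FR-SEM**: the reduction for a semisimple element of odd order -/
theorem cov_sem {ε : F} (hF : Fm B ε) (hI : ∀ m < finrank F V, Hyp.{u} m) {c : V ≃ₗ[F] V} (hc : c ∈ Isom B)
    (hc1 : c ≠ 1) (h2 : ¬ 2 ∣ orderOf c) (hp : (orderOf c : F) ≠ 0) {P : Subgroup (V ≃ₗ[F] V)} (hP : P ≤ Isom B)
    (hPc : ∀ g ∈ P, g * c * g⁻¹ = c ∨ g * c * g⁻¹ = c⁻¹) :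
    Red B (Subgroup.closure {c} ⊔ P) ∨ Cov B ε c P ∨
      ∃ τ : F, (∀ v, c v + c⁻¹ v = τ • v) ∧ τ ≠ 2 ∧ τ ≠ -2 :=
  cov_sem_gen hF hI hc hc1 h2 hp hc rfl hP hPc

/-- the reduction, with `Mx` -/
theorem cov_sem_mx {ε : F} (hF : Fm B ε) (hI : ∀ m < finrank F V, Hyp.{u} m) {c : V ≃ₗ[F] V} (hc : c ∈ Isom B)
    (hc1 : c ≠ 1) (h2 : ¬ 2 ∣ orderOf c) (hp : (orderOf c : F) ≠ 0) {P : Subgroup (V ≃ₗ[F] V)} (hP : Mx B c P) :
    Red B (Subgroup.closure {c} ⊔ P) ∨ Cov B ε c P ∨
      ∃ τ : F, (∀ v, c v + c⁻¹ v = τ • v) ∧ τ ≠ 2 ∧ τ ≠ -2 :=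
  cov_sem hF hI hc hc1 h2 hp hP.le hP.act

end Main

end Cfsg.Agent.H699.FR
end

-- part: H957/FROne2
section
/-!
# TEAM SR part 2 (S4970): `[FR-ONE]`, 2-groups of similitudes

* `Sim B` : similitudes;
* `symp_pair` : every 2-group of similitudes of an alternating form (`q` odd, `dim ≥ 3`) preserves a proper
  nondegenerate subspace or an orthogonal decomposition into two subspaces; `orth_pair` : the same for symmetric forms.
-/

set_option autoImplicit false

universe u

namespace Cfsg.Agent.H957.FR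

open Cfsg.Agent.H721.FR Cfsg.Agent.H721.SR Module

variable {F V : Type u} [Field F] [AddCommGroup V] [Module F V] {B : V →ₗ[F] V →ₗ[F] F} {ε : F}

/-- The similitudes. -/
def Sim (B : V →ₗ[F] V →ₗ[F] F) : Subgroup (V ≃ₗ[F] V) where
  carrier := {g | ∃ s : F, s ≠ 0 ∧ ∀ x y, B (g x) (g y) = s * B x y}
  one_mem' := ⟨1, one_ne_zero, fun x y => (one_mul _).symm⟩
  mul_mem' := by
    rintro a b ⟨s, hs, ha⟩ ⟨t, ht, hb⟩
    refine ⟨s * t, mul_ne_zero hs ht, fun x y => ?_⟩
    change B (a (b x)) (a (b y)) = _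
    rw [ha, hb, mul_assoc]
  inv_mem' := by
    rintro a ⟨s, hs, ha⟩
    refine ⟨s⁻¹, inv_ne_zero hs, fun x y => ?_⟩
    change B (a.symm x) (a.symm y) = _
    have h := ha (a.symm x) (a.symm y)
    rw [LinearEquiv.apply_symm_apply, LinearEquiv.apply_symm_apply] at h
    rw [h, ← mul_assoc, inv_mul_cancel₀ hs, one_mul]

theorem isom_le_sim : Isom B ≤ Sim B := fun g hg => ⟨1, one_ne_zero, fun x y => by
  rw [one_mul]; exact hg x y⟩

theorem sim_norm {g t : V ≃ₗ[F] V} (hg : g ∈ Sim B) (ht : t ∈ Isom B) :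
    g * t * g⁻¹ ∈ Isom B := by
  intro x y
  have h1 : ∀ x, g (g⁻¹ x) = x := fun x => g.apply_symm_apply x
  change B (g (t (g⁻¹ x))) (g (t (g⁻¹ y))) = B x y
  obtain ⟨s, -, hg⟩ := hg
  rw [hg, ht, ← hg, h1, h1]

theorem mem_sim_of (hnd : ∀ x, (∀ y, B x y = 0) → x = 0) (hV : Nontrivial V) {g : V ≃ₗ[F] V}
    {s : F} (h : ∀ x y, B (g x) (g y) = s * B x y) : g ∈ Sim B := by
  refine ⟨s, ?_, h⟩
  rintro rfl
  obtain ⟨x, hx⟩ := exists_ne (0 : V)
  apply hx
  apply g.injective
  rw [map_zero]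
  apply hnd
  intro y
  have h1 := h x (g.symm y)
  rwa [g.apply_symm_apply, zero_mul] at h1

theorem Red.mono {K L : Subgroup (V ≃ₗ[F] V)} (hKL : K ≤ L) (h : Red B L) : Red B K := by
  obtain ⟨U, h1, h2, h3, h4⟩ := h
  exact ⟨U, h1, h2, h3, fun g hg => h4 g (hKL hg)⟩

/-- 2-subgroups lie in maximal ones. -/
theorem exists_max {Γ : Type*} [Group Γ] [Finite Γ] {H P : Subgroup Γ} (hPH : P ≤ H)
    (hP : IsPGroup 2 P) : ∃ Q : Subgroup Γ, P ≤ Q ∧ Q ≤ H ∧ IsPGroup 2 Q ∧
      ∀ P' : Subgroup Γ, Q ≤ P' → P' ≤ H → IsPGroup 2 P' → P' = Q := by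
  obtain ⟨Q, hQ, hmax⟩ := (Set.toFinite {Q : Subgroup Γ | P ≤ Q ∧ Q ≤ H ∧ IsPGroup 2 Q}).exists_le_maximal
    (show P ∈ {Q : Subgroup Γ | P ≤ Q ∧ Q ≤ H ∧ IsPGroup 2 Q} from ⟨le_rfl, hPH, hP⟩)
  obtain ⟨h1, h2, h3⟩ := hmax.prop
  exact ⟨Q, h1, h2, h3, fun P' h4 h5 h6 => le_antisymm
    (hmax.le_of_ge ⟨h1.trans h4, h5, h6⟩ h4) h4⟩

/-- 2-groups of similitudes. -/
theorem sim_pair [Finite F] (h2 : (2 : F) ≠ 0) (hsymm : ∀ x y, B x y = ε * B y x)
    (hε : ε = 1 ∨ ε = -1) (hnd : ∀ x, (∀ y, B x y = 0) → x = 0) (hn : 3 ≤ finrank F V)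
    {P : Subgroup (V ≃ₗ[F] V)} (hP : IsPGroup 2 P)
    (hs : ∀ g ∈ P, ∃ s : F, ∀ x y, B (g x) (g y) = s * B x y) : Red B P := by
  obtain ⟨hV, hnt⟩ := finite_of hn
  have hfinG : Finite (V ≃ₗ[F] V) := finite_equiv
  have hPS : P ≤ Sim B := fun g hg => by
    obtain ⟨s, h⟩ := hs g hg
    exact mem_sim_of hnd hnt h
  obtain ⟨Q, hPQ, hQS, hQ2, hmax⟩ := exists_max hPS hP
  refine Red.mono hPQ ?_
  have hone : ∀ g : V ≃ₗ[F] V, g * 1 * g⁻¹ = 1 := fun g => by rw [mul_one, mul_inv_cancel]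
  have hneg : LinearEquiv.neg F ∈ Q := by
    obtain ⟨g, hg, h1⟩ := exists_conj_le hQS hQ2 hmax
      (Subgroup.zpowers_le.2 (isom_le_sim (neg_mem_isom (F := F) (B := B))))
      (isPGroup_zpowers_of_sq neg_neg')
    have h3 := h1 _ (Subgroup.mem_zpowers _)
    rwa [neg_comm, mul_inv_cancel_right] at h3
  have hcj : ∀ (g a b : V ≃ₗ[F] V), g * a * g⁻¹ * (g * b * g⁻¹) = g * (a * b) * g⁻¹ := by
    intro g a b; group
  have hc1 : ∀ {g a : V ≃ₗ[F] V}, a ≠ 1 → g * a * g⁻¹ ≠ 1 := by
    intro g a ha h1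
    apply ha
    rw [mul_inv_eq_one] at h1
    exact mul_eq_left.1 h1
  have hcn : ∀ {g a : V ≃ₗ[F] V}, a ≠ LinearEquiv.neg F → g * a * g⁻¹ ≠ LinearEquiv.neg F := by
    intro g a ha h1
    apply ha
    rw [mul_inv_eq_iff_eq_mul, ← neg_comm] at h1
    exact mul_left_cancel h1
  refine red_of_two h2 hsymm hnd hnt hQ2 (fun g hg t ht => sim_norm (hQS hg) ht) hneg ?_
  rcases hε with rfl | rfl
  · left
    obtain ⟨s, hs, s', hs', a1, a2, a3, a4, a5, a6, a7, a8, a9⟩ := exists_four_orth h2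
      (fun x y => by rw [hsymm x y, one_mul]) hnd hn
    have hss' : (s * s') * (s * s') = 1 := by
      calc s * s' * (s * s') = s * (s' * s) * s' := by group
        _ = (s * s) * (s' * s') := by rw [← a3]; group
        _ = 1 := by rw [a1, a2, one_mul]
    let X : Subgroup (V ≃ₗ[F] V) :=
      { carrier := {x | x = 1 ∨ x = s ∨ x = s' ∨ x = s * s'}
        one_mem' := Or.inl rfl
        mul_mem' := by
          have e1 : s * (s * s') = s' := by rw [← mul_assoc, a1, one_mul]
          have e2 : s' * (s * s') = s := by rw [a3, ← mul_assoc, a2, one_mul]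
          have e3 : s * s' * s = s' := by rw [a3, mul_assoc, a1, mul_one]
          have e4 : s * s' * s' = s := by rw [mul_assoc, a2, mul_one]
          rintro x y (rfl | rfl | rfl | rfl) (rfl | rfl | rfl | rfl)
          · exact Or.inl (mul_one 1)
          · exact Or.inr (Or.inl (one_mul _))
          · exact Or.inr (Or.inr (Or.inl (one_mul _)))
          · exact Or.inr (Or.inr (Or.inr (one_mul _)))
          · exact Or.inr (Or.inl (mul_one _))
          · exact Or.inl a1
          · exact Or.inr (Or.inr (Or.inr rfl))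
          · exact Or.inr (Or.inr (Or.inl e1))
          · exact Or.inr (Or.inr (Or.inl (mul_one _)))
          · exact Or.inr (Or.inr (Or.inr a3.symm))
          · exact Or.inl a2
          · exact Or.inr (Or.inl e2)
          · exact Or.inr (Or.inr (Or.inr (mul_one _)))
          · exact Or.inr (Or.inr (Or.inl e3))
          · exact Or.inr (Or.inl e4)
          · exact Or.inl hss'
        inv_mem' := by
          rintro x (rfl | rfl | rfl | rfl)
          · exact Or.inl inv_one
          · exact Or.inr (Or.inl (inv_eq_of_mul_eq_one_left a1))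
          · exact Or.inr (Or.inr (Or.inl (inv_eq_of_mul_eq_one_left a2)))
          · exact Or.inr (Or.inr (Or.inr (inv_eq_of_mul_eq_one_left hss'))) }
    have hX2 : IsPGroup 2 X := by
      rintro ⟨x, hx⟩
      refine ⟨1, Subtype.ext ?_⟩
      change x ^ 2 ^ 1 = 1
      rw [pow_one, pow_two]
      rcases hx with rfl | rfl | rfl | rfl
      · exact mul_one 1
      · exact a1
      · exact a2
      · exact hss'
    have hXS : X ≤ Sim B := by
      rintro x (rfl | rfl | rfl | rfl)
      · exact one_mem _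
      · exact isom_le_sim hs
      · exact isom_le_sim hs'
      · exact mul_mem (isom_le_sim hs) (isom_le_sim hs')
    obtain ⟨g, hg, hgP⟩ := exists_conj_le hQS hQ2 hmax hXS hX2
    refine ⟨g * s * g⁻¹, sim_norm hg hs, hgP s (Or.inr (Or.inl rfl)), g * s' * g⁻¹,
      sim_norm hg hs', hgP s' (Or.inr (Or.inr (Or.inl rfl))), ?_, ?_, ?_, hc1 a4, hcn a5, hc1 a6,
      hcn a7, ?_, ?_⟩
    · rw [hcj, a1, hone]
    · rw [hcj, a2, hone]
    · rw [hcj, hcj, a3]
    · rw [hcj]; exact hc1 a8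
    · rw [hcj]; exact hcn a9
  · right
    obtain ⟨u, hu, a1, a2, a3⟩ := exists_quarter h2
      (fun x y => by rw [hsymm x y, neg_one_mul]) hnd hn
    obtain ⟨g, hg, hgP⟩ := exists_conj_le hQS hQ2 hmax
      (Subgroup.zpowers_le.2 (isom_le_sim hu)) (isPGroup_zpowers_of_four a3)
    refine ⟨g * u * g⁻¹, sim_norm hg hu, hgP u (Subgroup.mem_zpowers u), ?_, ?_, ?_⟩
    · rw [hcj]; exact hc1 a1
    · rw [hcj]; exact hcn a2
    · rw [hcj, hcj, a3, hone]

/-- **2-groups of symplectic similitudes.** -/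
theorem symp_pair [Finite F] (h2 : (2 : F) ≠ 0) (hB : ∀ x y, B x y = -B y x)
    (hnd : ∀ x, (∀ y, B x y = 0) → x = 0) (hn : 3 ≤ finrank F V) (P : Subgroup (V ≃ₗ[F] V))
    (hP : IsPGroup 2 P) (hs : ∀ g ∈ P, ∃ s : F, ∀ x y, B (g x) (g y) = s * B x y) : Red B P :=
  sim_pair (ε := -1) h2 (fun x y => by rw [neg_one_mul]; exact hB x y) (Or.inr rfl) hnd hn hP hs

end Cfsg.Agent.H957.FR
end

-- part: H138/FR/Lift
section
/-!
# S4970: `Red` in terms of isometric involutions
-/

set_option autoImplicit false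

universe u

namespace Cfsg.Agent.H138.FR

open Cfsg.Agent.H721.FR Cfsg.Agent.H721.SR Cfsg.Agent.H957.FR Module

variable {F V : Type u} [Field F] [AddCommGroup V] [Module F V] {B : V →ₗ[F] V →ₗ[F] F} {ε : F}

/-- the orthogonal decomposition -/
theorem isCompl_perp [FiniteDimensional F V] (hε : ε ≠ 0) (hsymm : ∀ x y, B x y = ε * B y x) {U : Submodule F V}
    (hU : NdOn B U) : IsCompl U (perp B U) := by
  have hrefl : ∀ x y, B x y = 0 → B y x = 0 := by
    intro x y h
    rw [hsymm x y] at h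
    exact (mul_eq_zero.1 h).resolve_left hε
  have h1 : LinearMap.BilinForm.orthogonal (B : LinearMap.BilinForm F V) U = perp B U := by
    ext x
    rfl
  rw [← h1]
  refine LinearMap.BilinForm.isCompl_orthogonal_of_restrict_nondegenerate (fun x y h => hrefl x y h) ?_
  refine ⟨?_, ?_⟩
  · intro x hx
    apply Subtype.ext
    exact hU x x.2 fun y hy => hx ⟨y, hy⟩
  · intro x hx
    apply Subtype.ext
    exact hU x x.2 fun y hy => hrefl _ _ (hx ⟨y, hy⟩)

/-- an orthogonal decomposition gives an isometric involution -/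
theorem exists_invol [FiniteDimensional F V] (h2 : (2 : F) ≠ 0) (hε : ε ≠ 0) (hsymm : ∀ x y, B x y = ε * B y x)
    {U : Submodule F V} (hU : NdOn B U) (hU0 : U ≠ ⊥) (hU1 : U ≠ ⊤) :
    ∃ t : V ≃ₗ[F] V, t ∈ Isom B ∧ t * t = 1 ∧ t ≠ 1 ∧ t ≠ LinearEquiv.neg F ∧ (∀ x, x ∈ U ↔ t x = x) ∧
      (∀ x, x ∈ perp B U ↔ t x = -x) := by
  have hC := isCompl_perp hε hsymm hU
  have hdec : ∀ x : V, ∃ a ∈ U, ∃ b ∈ perp B U, a + b = x := fun x =>
    Submodule.mem_sup.1 (by rw [hC.sup_eq_top]; trivial)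
  have huniq : ∀ x ∈ U, x ∈ perp B U → x = 0 := fun x h1 h2 => by
    have h3 : x ∈ U ⊓ perp B U := ⟨h1, h2⟩
    rw [hC.inf_eq_bot] at h3
    exact h3
  have horth : ∀ a ∈ U, ∀ b ∈ perp B U, B a b = 0 ∧ B b a = 0 := by
    intro a ha b hb
    have h1 : B a b = 0 := hb a ha
    exact ⟨h1, by rw [hsymm, h1, mul_zero]⟩
  let p : V →ₗ[F] V := U.subtype ∘ₗ Submodule.projectionOnto U (perp B U) hC
  have hp1 : ∀ x ∈ U, p x = x := by
    intro x hx
    exact congrArg Subtype.val (Submodule.projectionOnto_apply_left hC ⟨x, hx⟩)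
  have hp2 : ∀ x ∈ perp B U, p x = 0 := by
    intro x hx
    exact congrArg Subtype.val (Submodule.projectionOnto_apply_right hC ⟨x, hx⟩)
  let q : V →ₗ[F] V := (2 : F) • p - LinearMap.id
  have hq1 : ∀ x ∈ U, q x = x := by
    intro x hx
    change (2 : F) • p x - x = x
    rw [hp1 x hx, two_smul]
    abel
  have hq2 : ∀ x ∈ perp B U, q x = -x := by
    intro x hx
    change (2 : F) • p x - x = -x
    rw [hp2 x hx, smul_zero, zero_sub]
  have hqq : ∀ x, q (q x) = x := by
    intro x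
    obtain ⟨a, ha, b, hb, rfl⟩ := hdec x
    rw [map_add, hq1 a ha, hq2 b hb, map_add, map_neg, hq1 a ha, hq2 b hb, neg_neg]
  let t : V ≃ₗ[F] V := LinearEquiv.ofInvolutive q hqq
  have ht : ∀ x, t x = q x := fun x => rfl
  have h22 : ∀ x : V, x = -x → x = 0 := by
    intro x hx
    have h3 : (2 : F) • x = 0 := by
      rw [two_smul]
      nth_rewrite 1 [hx]
      exact neg_add_cancel x
    exact (smul_eq_zero.1 h3).resolve_left h2
  have hfix : ∀ x, x ∈ U ↔ t x = x := by
    intro x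
    refine ⟨fun hx => hq1 x hx, fun hx => ?_⟩
    obtain ⟨a, ha, b, hb, rfl⟩ := hdec x
    rw [ht, map_add, hq1 a ha, hq2 b hb] at hx
    have h3 : b = 0 := h22 b (add_left_cancel hx).symm
    rw [h3, add_zero]
    exact ha
  have hneg : ∀ x, x ∈ perp B U ↔ t x = -x := by
    intro x
    refine ⟨fun hx => hq2 x hx, fun hx => ?_⟩
    obtain ⟨a, ha, b, hb, rfl⟩ := hdec x
    rw [ht, map_add, hq1 a ha, hq2 b hb, neg_add] at hx
    have h3 : a = 0 := h22 a (add_right_cancel hx)
    rw [h3, zero_add]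
    exact hb
  refine ⟨t, ?_, ?_, ?_, ?_, hfix, hneg⟩
  · intro x y
    obtain ⟨a, ha, b, hb, rfl⟩ := hdec x
    obtain ⟨c, hc, d, hd, rfl⟩ := hdec y
    rw [ht, ht, map_add q, map_add q, hq1 a ha, hq2 b hb, hq1 c hc, hq2 d hd]
    simp only [map_add, LinearMap.add_apply, map_neg, LinearMap.neg_apply]
    rw [(horth a ha d hd).1, (horth c hc b hb).2]
    ring
  · apply LinearEquiv.ext
    intro x
    exact hqq x
  · intro h
    apply hU1
    rw [eq_top_iff]
    intro x _
    rw [hfix, h]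
    rfl
  · intro h
    apply hU0
    rw [eq_bot_iff]
    intro x hx
    rw [hfix, h] at hx
    exact h22 x hx.symm

/-- **`Red` gives an isometric involution**, commuting up to sign with the group -/
theorem exists_invol_of_red [FiniteDimensional F V] (h2 : (2 : F) ≠ 0) (hε : ε ≠ 0)
    (hsymm : ∀ x y, B x y = ε * B y x) {K : Subgroup (V ≃ₗ[F] V)}
    (hK : ∀ g ∈ K, ∃ s : F, ∀ x y, B (g x) (g y) = s * B x y) (h : Red B K) :
    ∃ t : V ≃ₗ[F] V, t ∈ Isom B ∧ t * t = 1 ∧ t ≠ 1 ∧ t ≠ LinearEquiv.neg F ∧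
      ∀ g ∈ K, g * t * g⁻¹ = t ∨ g * t * g⁻¹ = t * LinearEquiv.neg F := by
  obtain ⟨U, hU0, hU1, hU, hUK⟩ := h
  obtain ⟨t, ht, htt, ht1, htn, hfix, hneg⟩ := exists_invol h2 hε hsymm hU hU0 hU1
  have hC := isCompl_perp hε hsymm hU
  have hdec : ∀ x : V, ∃ a ∈ U, ∃ b ∈ perp B U, a + b = x := fun x =>
    Submodule.mem_sup.1 (by rw [hC.sup_eq_top]; trivial)
  have hrefl : ∀ x y, B x y = 0 → B y x = 0 := by
    intro x y h
    rw [hsymm x y] at h
    exact (mul_eq_zero.1 h).resolve_left hε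
  refine ⟨t, ht, htt, ht1, htn, fun g hg => ?_⟩
  obtain ⟨s, hs⟩ := hK g hg
  rcases hUK g hg with h | h
  · left
    rw [mul_inv_eq_iff_eq_mul]
    apply LinearEquiv.ext
    intro x
    change g (t x) = t (g x)
    have h3 : ∀ a ∈ U, g a ∈ U := fun a ha => by
      rw [← h]
      exact ⟨a, ha, rfl⟩
    have h4 : ∀ b ∈ perp B U, g b ∈ perp B U := by
      intro b hb y hy
      rw [← h] at hy
      obtain ⟨y, hy, rfl⟩ := hy
      change B (g y) (g b) = 0
      rw [hs, hb y hy, mul_zero]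
    obtain ⟨a, ha, b, hb, rfl⟩ := hdec x
    rw [map_add t, (hfix a).1 ha, (hneg b).1 hb, map_add, map_add g, map_add t, (hfix _).1 (h3 a ha),
      (hneg _).1 (h4 b hb), map_neg]
  · right
    rw [mul_inv_eq_iff_eq_mul]
    apply LinearEquiv.ext
    intro x
    change g (t x) = t (-(g x))
    have h3 : ∀ a ∈ U, g a ∈ perp B U := fun a ha => by
      rw [← h]
      exact ⟨a, ha, rfl⟩
    have h4 : ∀ b ∈ perp B U, g b ∈ U := by
      intro b hb
      obtain ⟨c, hc, d, hd, hcd⟩ := hdec (g b)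
      have h5 : d = 0 := by
        -- `d ∈ perp U = g U`, orthogonal to `g b` and to `c`
        have h6 : d ∈ U.map (g : V →ₗ[F] V) := by rw [h]; exact hd
        obtain ⟨e, he, rfl⟩ := h6
        have h7 : e = 0 := by
          refine hU e he fun y hy => ?_
          have h8 : B (g y) (g b) = 0 := by rw [hs, hb y hy, mul_zero]
          have h9 : B (g y) (g e) = 0 := by
            have h10 : (g : V →ₗ[F] V) e = g b - c := by rw [← hcd]; abel
            have h11 : g e = g b - c := h10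
            rw [h11, map_sub, h8, hrefl _ _ (h3 y hy c hc), sub_zero]
          by_cases hs0 : s = 0
          · have h12 := hs (g⁻¹ e) (g⁻¹ y)
            have h13 : ∀ x, g (g⁻¹ x) = x := fun x => g.apply_symm_apply x
            rw [h13, h13, hs0, zero_mul] at h12
            exact h12
          · rw [hs] at h9
            exact hrefl _ _ ((mul_eq_zero.1 h9).resolve_left hs0)
        rw [h7]
        exact map_zero _
      rw [← hcd, h5, add_zero]
      exact hc
    obtain ⟨a, ha, b, hb, rfl⟩ := hdec x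
    rw [map_add t, (hfix a).1 ha, (hneg b).1 hb, map_add, map_add g, neg_add, map_add t, map_neg t, map_neg t,
      (hneg _).1 (h3 a ha), (hfix _).1 (h4 b hb), map_neg, neg_neg]

end Cfsg.Agent.H138.FR
end

-- part: H138/FR/MixA
section
/-!
# S4970, FR-MIX: the case `k` even, `q = 3 mod 4`
-/

set_option autoImplicit false

universe u

namespace Cfsg.Agent.H138.FR

open Cfsg Cfsg.Agent.H721.FR Cfsg.Agent.H47.Uni Module
open Cfsg.Agent.H955.FS (FSGood)

/-- centralise or invert -/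
def CI {Γ : Type u} [Group Γ] (c g : Γ) : Prop := g * c * g⁻¹ = c ∨ g * c * g⁻¹ = c⁻¹

variable {F V : Type u} [Field F] [AddCommGroup V] [Module F V]

/-- the statement of `N4` for the group of isometries -/
def NFour (F W : Type u) [Field F] [AddCommGroup W] [Module F W] : Prop :=
  ∀ (B : W →ₗ[F] W →ₗ[F] F) (c : W ≃ₗ[F] W) (P : Subgroup (W ≃ₗ[F] W)) (τ : F), Fm B 1 → finrank F W = 4 →
    c ∈ Isom B → (∀ x, c x + c⁻¹ x = τ • x) → ¬ IsSquare (4 - τ ^ 2) → P ≤ Isom B → IsPGroup 2 P →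
    (∀ g ∈ P, CI c g) → ∃ Y : Subgroup (W ≃ₗ[F] W), Y ≤ Isom B ∧ c ∈ Y ∧ P ≤ Y ∧ (∀ y ∈ Y, CI c y) ∧ FSGood False Y

/-- the statement of `SEM2` -/
def Sem2 (F W : Type u) [Field F] [AddCommGroup W] [Module F W] : Prop :=
  ∀ (B : W →ₗ[F] W →ₗ[F] F) (c : W ≃ₗ[F] W) (P : Subgroup (W ≃ₗ[F] W)) (τ : F), Fm B 1 → 3 ≤ finrank F W →
    c ∈ Isom B → (∀ x, c x + c⁻¹ x = τ • x) → τ ≠ 2 → τ ≠ -2 → P ≤ Isom B → IsPGroup 2 P → (∀ g ∈ P, CI c g) →
    Red B (Subgroup.closure {c} ⊔ P) ∨ (finrank F W = 4 ∧ ¬ IsSquare (4 - τ ^ 2))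

section

variable {u : V ≃ₗ[F] V} {k : ℕ} {M : Submodule F V} {B : V →ₗ[F] V →ₗ[F] F} {β : M →ₗ[F] M →ₗ[F] F}
  {tens : (M ≃ₗ[F] M) →* (V ≃ₗ[F] V)} {hh : V ≃ₗ[F] V}

theorem tens_inj (htm : ∀ (a : M ≃ₗ[F] M) (x : M), tens a (x : V) = (a x : M)) : Function.Injective tens := by
  intro a b hab
  apply LinearEquiv.ext
  intro x
  apply Subtype.ext
  rw [← htm, ← htm, hab]

/-- `hh` is not of the form `tens a` -/
theorem hh_ne (h : Dt B 1 u k M β tens hh) (hu1 : u ≠ 1) (huo : Odd (orderOf u)) (a : M ≃ₗ[F] M) : hh ≠ tens a := by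
  intro h1
  have h2 : hh * u * hh⁻¹ = u := by rw [h1, h.ct, mul_inv_cancel_right]
  rw [h.hhc] at h2
  have h3 : u ^ 2 = 1 := by
    rw [pow_two]
    nth_rewrite 1 [← h2]
    exact inv_mul_cancel u
  have h4 : orderOf u ∣ 2 := orderOf_dvd_of_pow_eq_one h3
  rcases (Nat.dvd_prime Nat.prime_two).1 h4 with h5 | h5
  · exact hu1 (orderOf_eq_one_iff.1 h5)
  · rw [h5] at huo
    exact absurd huo (by decide)

/-- the group induced on `M` -/
def Pm (h : Dt B 1 u k M β tens hh) (P : Subgroup (V ≃ₗ[F] V)) : Subgroup (M ≃ₗ[F] M) where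
  carrier := {a | tens a ∈ P ∨ hh * tens a ∈ P}
  one_mem' := Or.inl (by rw [map_one]; exact one_mem P)
  mul_mem' := by
    have hc : ∀ a, tens a * hh = hh * tens a := h.hht
    rintro a b (ha | ha) (hb | hb)
    · left
      rw [map_mul]
      exact mul_mem ha hb
    · right
      rw [map_mul, ← mul_assoc, ← hc, mul_assoc]
      exact mul_mem ha hb
    · right
      rw [map_mul, ← mul_assoc]
      exact mul_mem ha hb
    · left
      have h1 := mul_mem ha hb
      have h2 : hh * tens a * (hh * tens b) = tens (a * b) := by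
        calc hh * tens a * (hh * tens b) = hh * (tens a * hh) * tens b := by group
          _ = (hh * hh) * (tens a * tens b) := by rw [hc]; group
          _ = _ := by rw [h.hh2, one_mul, map_mul]
      rwa [h2] at h1
  inv_mem' := by
    have hc : ∀ a, tens a * hh = hh * tens a := h.hht
    have hi : hh⁻¹ = hh := inv_eq_of_mul_eq_one_left h.hh2
    rintro a (ha | ha)
    · left
      rw [map_inv]
      exact inv_mem ha
    · right
      have h1 := inv_mem ha
      rw [mul_inv_rev, hi, ← map_inv, hc] at h1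
      exact h1

theorem Pm_two (h : Dt B 1 u k M β tens hh) (htm : ∀ (a : M ≃ₗ[F] M) (x : M), tens a (x : V) = (a x : M))
    {P : Subgroup (V ≃ₗ[F] V)} (hP : IsPGroup 2 P) : IsPGroup 2 (Pm h P) := by
  have hinj := tens_inj htm
  have hsq : ∀ a : M ≃ₗ[F] M, a ∈ Pm h P → tens (a * a) ∈ P := by
    rintro a (ha | ha)
    · rw [map_mul]
      exact mul_mem ha ha
    · have h1 := mul_mem ha ha
      have h2 : hh * tens a * (hh * tens a) = tens (a * a) := by
        calc hh * tens a * (hh * tens a) = hh * (tens a * hh) * tens a := by group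
          _ = (hh * hh) * (tens a * tens a) := by rw [h.hht]; group
          _ = _ := by rw [h.hh2, one_mul, map_mul]
      rwa [h2] at h1
  rintro ⟨a, ha⟩
  obtain ⟨n, hn⟩ := hP ⟨tens (a * a), hsq a ha⟩
  refine ⟨n + 1, Subtype.ext ?_⟩
  change a ^ 2 ^ (n + 1) = 1
  apply hinj
  have h3 : (tens (a * a)) ^ 2 ^ n = 1 := congrArg Subtype.val hn
  rw [map_one, pow_succ', pow_mul, pow_two, map_pow, h3]

/-- **the cover from a totally good group on `M`** -/
theorem cov_of_good [Finite F] [FiniteDimensional F V] (hk : Even k) (hk0 : k ≠ 0)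
    (h : Dt B 1 u k M β tens hh) (huB : u ∈ Isom B) {s : M ≃ₗ[F] M}
    {Y' : Subgroup (M ≃ₗ[F] M)} (hgood : FSGood False Y') (hsY : s ∈ Y') (hs : s ∈ Isom β)
    (hY : ∀ y ∈ Y', y ∈ Isom β ∨ ∀ x z, β (y x) (y z) = - β x z)
    {b0 : M ≃ₗ[F] M} (hb0 : ∀ x z, β (b0 x) (b0 z) = - β x z) (hb0' : hh * tens b0 ∈ Isom B)
    {P : Subgroup (V ≃ₗ[F] V)} (hPB : P ≤ Isom B)
    (hPY : ∀ g ∈ P, (∃ a ∈ Y', g = tens a) ∨ ∃ a ∈ Y', g = hh * tens a) : Cov B 1 (tens s * u) P := by
  have hfV := finite_gl (F := F) (V := V)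
  have hfM := finite_gl (F := F) (V := M)
  have hk1 : ((-1 : F)) ^ (k - 1) = -1 := by
    obtain ⟨j, rfl⟩ := hk
    refine Odd.neg_one_pow ⟨j - 1, ?_⟩
    omega
  have hhB : ∀ x y, B (hh x) (hh y) = - B x y := fun x y => by rw [h.hhB, hk1]; ring
  -- similitudes with factor `±1`
  let S : Subgroup (V ≃ₗ[F] V) :=
    { carrier := {g | (∀ x y, B (g x) (g y) = B x y) ∨ ∀ x y, B (g x) (g y) = - B x y}
      one_mem' := Or.inl fun x y => rfl
      mul_mem' := by
        rintro a b (ha | ha) (hb | hb)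
        · left; intro x y; change B (a (b x)) (a (b y)) = _; rw [ha, hb]
        · right; intro x y; change B (a (b x)) (a (b y)) = _; rw [ha, hb]
        · right; intro x y; change B (a (b x)) (a (b y)) = _; rw [ha, hb]
        · left; intro x y; change B (a (b x)) (a (b y)) = _; rw [ha, hb, neg_neg]
      inv_mem' := by
        rintro a (ha | ha)
        · left
          intro x y
          have h1 := ha (a⁻¹ x) (a⁻¹ y)
          have e : ∀ x, a (a⁻¹ x) = x := fun x => a.apply_symm_apply x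
          rw [e, e] at h1
          exact h1.symm
        · right
          intro x y
          have h1 := ha (a⁻¹ x) (a⁻¹ y)
          have e : ∀ x, a (a⁻¹ x) = x := fun x => a.apply_symm_apply x
          rw [e, e] at h1
          rw [h1, neg_neg] }
  have htb0 : ∀ x y, B (tens b0 x) (tens b0 y) = - B x y := by
    intro x y
    have h1 := hb0' x y
    change B (hh (tens b0 x)) (hh (tens b0 y)) = _ at h1
    rw [hhB] at h1
    rw [← h1, neg_neg]
  have hYS : ∀ y ∈ Y', tens y ∈ S := by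
    intro y hy
    rcases hY y hy with h1 | h1
    · exact Or.inl (h.isom y h1)
    · have h2 : y * b0⁻¹ ∈ Isom β := by
        intro x z
        obtain ⟨x, rfl⟩ := b0.surjective x
        obtain ⟨z, rfl⟩ := b0.surjective z
        have e : ∀ x, (y * b0⁻¹) (b0 x) = y x := fun x => by
          change y (b0⁻¹ (b0 x)) = y x
          rw [show b0⁻¹ (b0 x) = x from b0.symm_apply_apply x]
        rw [e, e, h1, hb0]
      have h3 : tens y = tens (y * b0⁻¹) * tens b0 := by rw [← map_mul, inv_mul_cancel_right]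
      rw [h3]
      exact S.mul_mem (Or.inl (h.isom _ h2)) (Or.inr htb0)
  obtain ⟨D, hfD, hD, hDg⟩ := good_dih (Subgroup.zpowers u) (by
    rintro _ ⟨i, rfl⟩ _ ⟨j, rfl⟩
    exact (Commute.zpow_zpow (Commute.refl u) i j).eq) h.hh2 (by
    rintro _ ⟨i, rfl⟩
    change hh * u ^ i * hh⁻¹ = (u ^ i)⁻¹
    rw [← conj_zpow, h.hhc, inv_zpow])
  have huD : u ∈ D := (hD u).2 (Or.inl (Subgroup.mem_zpowers u))
  have hhD : hh ∈ D := (hD hh).2 (Or.inr (by rw [h.hh2]; exact one_mem _))
  have hcomm : ∀ d ∈ D, ∀ a, d * tens a = tens a * d := by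
    intro d hd a
    have h1 : ∀ i : ℤ, u ^ i * tens a = tens a * u ^ i := fun i =>
      ((show Commute (tens a) u from h.ct a).zpow_right i).eq.symm
    rcases (hD d).1 hd with ⟨i, hi⟩ | ⟨i, hi⟩
    · rw [← hi]
      exact h1 i
    · have h2 : d = u ^ i * hh := by
        have h3 : u ^ i = d * hh := hi
        rw [h3, mul_assoc, h.hh2, mul_one]
      rw [h2, mul_assoc, ← h.hht, ← mul_assoc, h1, mul_assoc]
  have hDS : ∀ d ∈ D, d ∈ S := by
    intro d hd
    have huS : ∀ i : ℤ, u ^ i ∈ S := fun i => S.zpow_mem (Or.inl huB) i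
    rcases (hD d).1 hd with ⟨i, hi⟩ | ⟨i, hi⟩
    · rw [← hi]
      exact huS i
    · have h2 : d = u ^ i * hh := by
        have h3 : u ^ i = d * hh := hi
        rw [h3, mul_assoc, h.hh2, mul_one]
      rw [h2]
      exact S.mul_mem (huS i) (Or.inr hhB)
  have hE : FSGood False (Y'.map tens) := by
    have h1 := hgood.of_surjective (tens.subgroupMap Y') (tens.subgroupMap_surjective Y')
    exact h1
  have hDE : D ⊔ Y'.map tens ≤ S := by
    refine sup_le hDS ?_
    rintro _ ⟨y, hy, rfl⟩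
    exact hYS y hy
  obtain ⟨Y, hYB, hYm, hYg⟩ := good_fibre D (Y'.map tens) (Isom B) (by
    rintro d hd _ ⟨y, -, rfl⟩
    exact hcomm d hd y) hDg hE (by
    intro a ha b hb ha' hb'
    have ha2 : ∀ x y, B (a x) (a y) = - B x y := (hDE ha).resolve_left ha'
    have hb2 : ∀ x y, B (b x) (b y) = - B x y := (hDE hb).resolve_left hb'
    intro x y
    change B (a (b x)) (a (b y)) = _
    rw [ha2, hb2, neg_neg])
  refine ⟨Y, hYB, ?_, ?_, ?_⟩
  · rw [← hcomm u huD s]
    refine hYm u huD (tens s) ⟨s, hsY, rfl⟩ ?_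
    exact (Isom B).mul_mem huB (h.isom s hs)
  · intro g hg
    rcases hPY g hg with ⟨a, ha, rfl⟩ | ⟨a, ha, rfl⟩
    · have h1 := hYm 1 (one_mem _) (tens a) ⟨a, ha, rfl⟩
      rw [one_mul] at h1
      exact h1 (hPB hg)
    · exact hYm hh hhD (tens a) ⟨a, ha, rfl⟩ (hPB hg)
  · have h1 : zel V (1 : F) = 1 := by
      unfold zel
      rw [if_pos rfl]
    rw [h1]
    exact ⟨one_mem _, fsz_one_iff.2 hYg⟩

end

end Cfsg.Agent.H138.FR
end
end

-- part: H47/Uni/CovPlane
section
prune_inst 0x31100540746202000000050000205c2282000420000800000840020007890c000980082083a00400020200050031002813100020420000000a000000011d00800000040090080008a20088000000000000000000000000000000800000000000008000000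
set_option linter.all false
open scoped Cfsg.Agent.FastGrp

-- part: H47/Uni/Sd
section
/-!
# S4970, UNI-2 (d): group theory (helper47)

* `good_of_sum`: squares in a commutative subgroup `A`, all `∑ ψ(s²)` with `ψ` a linear character of `A` have
  nonnegative real part: no indicator is `-1`;
* `exists_sd`: the group `A ∪ A x ∪ A y ∪ A x y`;
* `exists_pair`: a 2-group acting by conjugation on a set of `2 mod 4` elements closed under `x ↦ z x`.
-/

set_option autoImplicit false

universe u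

namespace Cfsg.Agent.H47.Uni

open Cfsg Cfsg.Agent.H955.FS Cfsg.Agent.H721.FR Cfsg.Agent.H855.FR Cfsg.Agent.Characters.Core

theorem good_of_sum {K : Type u} [Group K] [Fintype K] (A : Subgroup K) (hc : ∀ a b : A, a * b = b * a)
    (hs : ∀ s : K, s * s ∈ A) (h : ∀ ψ : A →* ℂˣ, 0 ≤ (∑ s : K, ((ψ ⟨s * s, hs s⟩ : ℂˣ) : ℂ)).re) :
    FSGood True K := by
  classical
  have hfA : Finite (IrrCharacter A) := finite_irr
  have := Fintype.ofFinite (IrrCharacter A)
  intro χ hχ
  rcases fsi_cases hχ with h1 | h1 | h1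
  · exact Or.inr ⟨trivial, h1⟩
  · exact Or.inl h1
  · exfalso
    rw [fsi_eq_sum] at h1
    have hK : (Nat.card K : ℂ) ≠ 0 := card_ne_zero_complex
    have h2 : ∑ s : K, χ (s * s) = - (Nat.card K : ℂ) := by
      calc ∑ s : K, χ (s * s) = (Nat.card K : ℂ) * ((Nat.card K : ℂ)⁻¹ * ∑ s : K, χ (s * s)) := by
            rw [← mul_assoc, mul_inv_cancel₀ hK, one_mul]
        _ = _ := by rw [h1]; ring
    obtain ⟨m, hm⟩ := exists_nat_comb (isCharacter_comp A.subtype (isIrr_isCharacter hχ))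
    have h3 : ∀ s : K, χ (s * s) = ∑ lam : IrrCharacter A, (m lam : ℂ) * (lam : A → ℂ) ⟨s * s, hs s⟩ := by
      intro s
      have h4 := congrFun hm ⟨s * s, hs s⟩
      rw [Function.comp_apply] at h4
      have h5 : (A.subtype ⟨s * s, hs s⟩ : K) = s * s := rfl
      rw [h5] at h4
      rw [h4, Finset.sum_apply]
      refine Finset.sum_congr rfl fun lam _ => ?_
      rw [Pi.smul_apply, nsmul_eq_mul]
    have h4 : ∑ s : K, χ (s * s) = ∑ lam : IrrCharacter A, (m lam : ℂ) * ∑ s : K, (lam : A → ℂ) ⟨s * s, hs s⟩ := by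
      rw [Finset.sum_congr rfl fun s _ => h3 s, Finset.sum_comm]
      refine Finset.sum_congr rfl fun lam _ => ?_
      rw [Finset.mul_sum]
    have h5 : 0 ≤ (∑ s : K, χ (s * s)).re := by
      rw [h4, Complex.re_sum]
      refine Finset.sum_nonneg fun lam _ => ?_
      obtain ⟨f, hf⟩ := Characters.CCBasic.exists_hom_of_comm hc lam.2
      have h6 : ∑ s : K, (lam : A → ℂ) ⟨s * s, hs s⟩ = ∑ s : K, ((f ⟨s * s, hs s⟩ : ℂˣ) : ℂ) :=
        Finset.sum_congr rfl fun s _ => by rw [hf]
      rw [h6]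
      have h7 := h f
      have h8 : ((m lam : ℂ) * ∑ s : K, ((f ⟨s * s, hs s⟩ : ℂˣ) : ℂ)).re =
          (m lam : ℝ) * (∑ s : K, ((f ⟨s * s, hs s⟩ : ℂˣ) : ℂ)).re := by
        rw [Complex.mul_re, Complex.natCast_re, Complex.natCast_im, zero_mul, sub_zero]
      rw [h8]
      exact mul_nonneg (Nat.cast_nonneg _) h7
    rw [h2] at h5
    have h9 : (- (Nat.card K : ℂ)).re = - (Nat.card K : ℝ) := by simp
    rw [h9] at h5
    have h10 : (0 : ℝ) < Nat.card K := by exact_mod_cast Nat.card_pos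
    linarith

/-- the sum of a linear character -/
theorem sum_lin {A : Type u} [Group A] [Fintype A] (f : A →* ℂˣ) :
    ∑ a : A, ((f a : ℂˣ) : ℂ) = Nat.card A ∧ (∀ a, f a = 1) ∨ ∑ a : A, ((f a : ℂˣ) : ℂ) = 0 := by
  classical
  by_cases h : ∀ a, f a = 1
  · left
    refine ⟨?_, h⟩
    rw [Finset.sum_congr rfl fun a _ => by rw [h a]]
    simp
  · right
    push Not at h
    obtain ⟨b, hb⟩ := h
    have h1 : ((f b : ℂˣ) : ℂ) * ∑ a : A, ((f a : ℂˣ) : ℂ) = ∑ a : A, ((f a : ℂˣ) : ℂ) := by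
      rw [Finset.mul_sum, ← Equiv.sum_comp (Equiv.mulLeft b) (fun a => ((f a : ℂˣ) : ℂ))]
      refine Finset.sum_congr rfl fun a _ => ?_
      rw [Equiv.coe_mulLeft, map_mul, Units.val_mul]
    have h2 : (((f b : ℂˣ) : ℂ) - 1) * ∑ a : A, ((f a : ℂˣ) : ℂ) = 0 := by
      rw [sub_mul, h1, one_mul, sub_self]
    rcases mul_eq_zero.1 h2 with h3 | h3
    · exfalso
      apply hb
      apply Units.ext
      rw [Units.val_one]
      exact sub_eq_zero.1 h3
    · exact h3

/-- **four cosets** -/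
theorem good_sd {K : Type u} [Group K] [Finite K] (A : Subgroup K) (hc : ∀ a b : A, a * b = b * a) {x y : K}
    (hx : ∀ a ∈ A, x * a * x⁻¹ ∈ A) (hy : ∀ a ∈ A, y * a * y⁻¹ = a⁻¹) (hy2 : y * y = 1) (hx2 : x * x ∈ A)
    {m : ℕ} (hw : (x * y) * (x * y) = (x * x) ^ (2 * m)) (hw2 : ((x * y) * (x * y)) ^ 2 = 1)
    (hxA : x ∉ A) (hyA : y ∉ A) (hxyA : x * y ∉ A)
    (hcov : ∀ s : K, s ∈ A ∨ s * x⁻¹ ∈ A ∨ s * y⁻¹ ∈ A ∨ s * (x * y)⁻¹ ∈ A) : FSGood True K := by
  classical
  have := Fintype.ofFinite K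
  have hfA : Fintype A := Fintype.ofFinite A
  set w := (x * y) * (x * y) with hwd
  have hwA : w ∈ A := by rw [hw]; exact A.pow_mem hx2 _
  have hyAi : ∀ a ∈ A, y * a * y⁻¹ ∈ A := fun a ha => by rw [hy a ha]; exact A.inv_mem ha
  have hyi : y⁻¹ = y := inv_eq_of_mul_eq_one_left hy2
  let r : Fin 4 → K := ![1, x, y, x * y]
  have hr : ∀ i, ∀ a ∈ A, r i * a * (r i)⁻¹ ∈ A := by
    intro i a ha
    fin_cases i
    · show 1 * a * 1⁻¹ ∈ A
      simpa using ha
    · exact hx a ha
    · exact hyAi a ha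
    · show x * y * a * (x * y)⁻¹ ∈ A
      have h1 : x * y * a * (x * y)⁻¹ = x * (y * a * y⁻¹) * x⁻¹ := by group
      rw [h1]
      exact hx _ (hyAi a ha)
  let Φ : Fin 4 × A → K := fun z => (z.2 : K) * r z.1
  have hsurj : Function.Surjective Φ := by
    intro s
    rcases hcov s with h | h | h | h
    · exact ⟨(0, ⟨s, h⟩), by show s * 1 = s; rw [mul_one]⟩
    · exact ⟨(1, ⟨_, h⟩), by show s * x⁻¹ * x = s; group⟩
    · exact ⟨(2, ⟨_, h⟩), by show s * y⁻¹ * y = s; group⟩
    · exact ⟨(3, ⟨_, h⟩), by show s * (x * y)⁻¹ * (x * y) = s; group⟩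
  have hne : ∀ i j, i ≠ j → r i * (r j)⁻¹ ∉ A := by
    have key : ∀ i j, i < j → r i * (r j)⁻¹ ∉ A := by
      intro i j hij h
      fin_cases i <;> fin_cases j <;> simp only [Fin.lt_def] at hij <;> (try omega)
      · have h1 : (1 * x⁻¹ : K) ∈ A := h
        rw [one_mul] at h1
        exact hxA (by simpa using A.inv_mem h1)
      · have h1 : (1 * y⁻¹ : K) ∈ A := h
        rw [one_mul] at h1
        exact hyA (by simpa using A.inv_mem h1)
      · have h1 : (1 * (x * y)⁻¹ : K) ∈ A := h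
        rw [one_mul] at h1
        exact hxyA (by simpa only [inv_inv] using A.inv_mem h1)
      · have h1 : (x * y⁻¹ : K) ∈ A := h
        rw [hyi] at h1
        exact hxyA h1
      · have h1 : (x * (x * y)⁻¹ : K) ∈ A := h
        have h2 : x * (x * y)⁻¹ = x * y⁻¹ * x⁻¹ := by group
        rw [h2] at h1
        -- `x y⁻¹ x⁻¹ ∈ A` and `x² ∈ A`
        have h3 := hx _ h1
        have h4 : x * (x * y⁻¹ * x⁻¹) * x⁻¹ = (x * x) * y⁻¹ * (x * x)⁻¹ := by group
        rw [h4] at h3
        have h5 : y⁻¹ ∈ A := by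
          have h6 := A.mul_mem (A.mul_mem (A.inv_mem hx2) h3) hx2
          have h7 : (x * x)⁻¹ * ((x * x) * y⁻¹ * (x * x)⁻¹) * (x * x) = y⁻¹ := by group
          rwa [h7] at h6
        exact hyA (by simpa using A.inv_mem h5)
      · have h1 : (y * (x * y)⁻¹ : K) ∈ A := h
        have h2 : y * (x * y)⁻¹ = x⁻¹ := by group
        rw [h2] at h1
        exact hxA (by simpa using A.inv_mem h1)
    intro i j hij
    rcases lt_or_gt_of_ne hij with h | h
    · exact key i j h
    · intro h1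
      apply key j i h
      have h2 : r j * (r i)⁻¹ = (r i * (r j)⁻¹)⁻¹ := by group
      rw [h2]
      exact A.inv_mem h1
  have hinj : Function.Injective Φ := by
    rintro ⟨i, a⟩ ⟨j, b⟩ h
    have h1 : (a : K) * r i = b * r j := h
    by_cases hij : i = j
    · subst hij
      rw [Prod.mk.injEq]
      exact ⟨rfl, Subtype.ext (mul_right_cancel h1)⟩
    · exfalso
      apply hne i j hij
      have h2 : r i * (r j)⁻¹ = (a : K)⁻¹ * b := by
        have h3 : r i = (a : K)⁻¹ * (b * r j) := by rw [← h1]; group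
        rw [h3]; group
      rw [h2]
      exact A.mul_mem (A.inv_mem a.2) b.2
  have hsq : ∀ (i : Fin 4) (a : A), ((a : K) * r i) * ((a : K) * r i) = a * (r i * a * (r i)⁻¹) * (r i * r i) := by
    intro i a
    group
  have hrr : ∀ i, r i * r i ∈ A := by
    intro i
    fin_cases i
    · show (1 : K) * 1 ∈ A
      rw [one_mul]; exact A.one_mem
    · exact hx2
    · show y * y ∈ A
      rw [hy2]; exact A.one_mem
    · exact hwA
  have hs : ∀ s : K, s * s ∈ A := by
    intro s
    obtain ⟨⟨i, a⟩, rfl⟩ := hsurj s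
    show (a : K) * r i * (a * r i) ∈ A
    rw [hsq]
    exact A.mul_mem (A.mul_mem a.2 (hr i a a.2)) (hrr i)
  refine good_of_sum A hc hs fun ψ => ?_
  -- the linear characters of the four cosets
  let cj : Fin 4 → A →* A := fun i =>
    { toFun := fun a => ⟨r i * a * (r i)⁻¹, hr i a a.2⟩
      map_one' := Subtype.ext (by show r i * ((1 : A) : K) * (r i)⁻¹ = 1; simp)
      map_mul' := fun a b => Subtype.ext (by
        show r i * ((a * b : A) : K) * (r i)⁻¹ = r i * a * (r i)⁻¹ * (r i * b * (r i)⁻¹)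
        rw [Subgroup.coe_mul]; group) }
  let φ : Fin 4 → A →* ℂˣ := fun i => ψ * ψ.comp (cj i)
  have hφ : ∀ i a, φ i a = ψ a * ψ (cj i a) := fun i a => rfl
  have hsum : ∑ s : K, ((ψ ⟨s * s, hs s⟩ : ℂˣ) : ℂ) =
      ∑ i : Fin 4, (ψ ⟨r i * r i, hrr i⟩ : ℂ) * ∑ a : A, ((φ i a : ℂˣ) : ℂ) := by
    rw [← Function.Bijective.sum_comp ⟨hinj, hsurj⟩ (fun s => ((ψ ⟨s * s, hs s⟩ : ℂˣ) : ℂ)), Fintype.sum_prod_type]
    refine Finset.sum_congr rfl fun i _ => ?_
    rw [Finset.mul_sum]
    refine Finset.sum_congr rfl fun a _ => ?_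
    rw [hφ, ← Units.val_mul]
    congr 1
    rw [← map_mul, ← map_mul]
    congr 1
    apply Subtype.ext
    show (a : K) * r i * (a * r i) = r i * r i * (a * (r i * a * (r i)⁻¹))
    rw [hsq]
    have h1 := hc (a * cj i a) ⟨r i * r i, hrr i⟩
    exact congrArg Subtype.val h1
  have hcard : (0 : ℝ) ≤ Nat.card A := Nat.cast_nonneg _
  -- values
  have h0 : ψ ⟨r 0 * r 0, hrr 0⟩ = 1 := by
    have : (⟨r 0 * r 0, hrr 0⟩ : A) = 1 := Subtype.ext (by show (1 : K) * 1 = 1; rw [one_mul])
    rw [this, map_one]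
  have h2 : ψ ⟨r 2 * r 2, hrr 2⟩ = 1 := by
    have : (⟨r 2 * r 2, hrr 2⟩ : A) = 1 := Subtype.ext (by show y * y = 1; exact hy2)
    rw [this, map_one]
  have hφ2 : ∀ a, φ 2 a = 1 := by
    intro a
    rw [hφ, ← map_mul]
    have h3 : a * cj 2 a = 1 := by
      apply Subtype.ext
      show (a : K) * (y * a * y⁻¹) = 1
      rw [hy a a.2, mul_inv_cancel]
    rw [h3, map_one]
  have hs2 : ∑ a : A, ((φ 2 a : ℂˣ) : ℂ) = Nat.card A := by
    rw [Finset.sum_congr rfl fun a _ => by rw [hφ2 a]]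
    simp only [_root_.Units.val_one, _root_.Finset.sum_const, _root_.Finset.card_univ, _root_.nsmul_eq_mul, _root_.mul_one, _root_.Nat.card_eq_fintype_card]
  have hw3 : (⟨r 3 * r 3, hrr 3⟩ : A) = (⟨r 1 * r 1, hrr 1⟩ : A) ^ (2 * m) := Subtype.ext hw
  have hpm : ∀ u : ℂˣ, u ^ 2 = 1 → (u : ℂ) = 1 ∨ (u : ℂ) = -1 := by
    intro u hu
    have h3 : (u : ℂ) ^ 2 = 1 := by rw [← Units.val_pow_eq_pow_val, hu, Units.val_one]
    exact mul_self_eq_one_iff.1 (by rw [← pow_two]; exact h3)
  rw [hsum, Fin.sum_univ_four, h0, h2, hs2, Units.val_one, one_mul, one_mul]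
  have e0 : (0 : ℝ) ≤ (∑ a : A, ((φ 0 a : ℂˣ) : ℂ)).re := by
    rcases sum_lin (φ 0) with ⟨h, -⟩ | h
    · rw [h, Complex.natCast_re]; exact hcard
    · rw [h, Complex.zero_re]
  have ew : ((ψ ⟨r 3 * r 3, hrr 3⟩ : ℂˣ) : ℂ) = 1 ∨ ((ψ ⟨r 3 * r 3, hrr 3⟩ : ℂˣ) : ℂ) = -1 := by
    apply hpm
    rw [← map_pow]
    have : (⟨r 3 * r 3, hrr 3⟩ : A) ^ 2 = 1 := Subtype.ext hw2
    rw [this, map_one]
  rcases sum_lin (φ 1) with ⟨h, h'⟩ | h
  · have h3 : (ψ ⟨r 1 * r 1, hrr 1⟩) ^ 2 = 1 := by
      have h4 := h' ⟨r 1 * r 1, hrr 1⟩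
      rw [hφ] at h4
      have h5 : cj 1 ⟨r 1 * r 1, hrr 1⟩ = ⟨r 1 * r 1, hrr 1⟩ := by
        apply Subtype.ext
        show x * (x * x) * x⁻¹ = x * x
        group
      rw [h5] at h4
      rw [pow_two]
      exact h4
    have h4 : ψ ⟨r 3 * r 3, hrr 3⟩ = 1 := by
      rw [hw3, map_pow, pow_mul, h3, one_pow]
    rw [h4, Units.val_one, one_mul, h]
    have e3 : (0 : ℝ) ≤ (∑ a : A, ((φ 3 a : ℂˣ) : ℂ)).re := by
      rcases sum_lin (φ 3) with ⟨h, -⟩ | h
      · rw [h, Complex.natCast_re]; exact hcard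
      · rw [h, Complex.zero_re]
    rcases hpm _ h3 with h5 | h5
    · rw [h5, one_mul, Complex.add_re, Complex.add_re, Complex.add_re, Complex.natCast_re]
      linarith only [e0, e3]
    · rw [h5, Complex.add_re, Complex.add_re, Complex.add_re, neg_one_mul, Complex.neg_re, Complex.natCast_re]
      linarith only [e0, e3]
  · rw [h, mul_zero, add_zero, Complex.add_re, Complex.add_re, Complex.natCast_re]
    rcases sum_lin (φ 3) with ⟨h3, -⟩ | h3
    · rw [h3]
      rcases ew with h4 | h4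
      · rw [h4, one_mul, Complex.natCast_re]; linarith only [e0]
      · rw [h4, neg_one_mul, Complex.neg_re, Complex.natCast_re]; linarith only [e0]
    · rw [h3, mul_zero, Complex.zero_re]; linarith only [e0]

/-- the group `A ∪ A x ∪ A y ∪ A x y` in an ambient group -/
theorem exists_sd {Γ : Type u} [Group Γ] (A : Subgroup Γ) [Finite A] (hc : ∀ a ∈ A, ∀ b ∈ A, a * b = b * a) {x y : Γ}
    (hx : ∀ a ∈ A, x * a * x⁻¹ ∈ A) (hx' : ∀ a ∈ A, x⁻¹ * a * x ∈ A) (hy : ∀ a ∈ A, y * a * y⁻¹ = a⁻¹)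
    (hy2 : y * y = 1) (hx2 : x * x ∈ A) {m : ℕ} (hw : (x * y) * (x * y) = (x * x) ^ (2 * m))
    (hw2 : ((x * y) * (x * y)) ^ 2 = 1) (hxA : x ∉ A) (hyA : y ∉ A) (hxyA : x * y ∉ A) :
    ∃ Y : Subgroup Γ, A ≤ Y ∧ x ∈ Y ∧ y ∈ Y ∧
      (∀ s ∈ Y, s ∈ A ∨ s * x⁻¹ ∈ A ∨ s * y⁻¹ ∈ A ∨ s * (x * y)⁻¹ ∈ A) ∧ FSZs Y 1 := by
  have hyi : y⁻¹ = y := inv_eq_of_mul_eq_one_left hy2
  set E := ext A x hx hx2 hx' with hE
  have hAE : A ≤ E := fun a ha => Or.inl ha
  have hxE : x ∈ E := Or.inr hx2
  have hwA : (x * y) * (x * y) ∈ A := by rw [hw]; exact A.pow_mem hx2 _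
  have hyx : y * x * y⁻¹ ∈ E := by
    have h1 : y * x * y⁻¹ = x⁻¹ * ((x * y) * (x * y)) * (y * y)⁻¹ := by group
    rw [h1, hy2, inv_one, mul_one]
    exact E.mul_mem (E.inv_mem hxE) (hAE hwA)
  have hEform : ∀ e ∈ E, e ∈ A ∨ ∃ a ∈ A, e = a * x := by
    rintro e (he | he)
    · exact Or.inl he
    · right
      refine ⟨e * x * (x * x)⁻¹, A.mul_mem he (A.inv_mem hx2), ?_⟩
      group
  have hyE : ∀ e ∈ E, y * e * y⁻¹ ∈ E := by
    intro e he
    rcases hEform e he with he | ⟨a, ha, rfl⟩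
    · rw [hy e he]
      exact hAE (A.inv_mem he)
    · have h1 : y * (a * x) * y⁻¹ = (y * a * y⁻¹) * (y * x * y⁻¹) := by group
      rw [h1, hy a ha]
      exact E.mul_mem (hAE (A.inv_mem ha)) hyx
  have hyE' : ∀ e ∈ E, y⁻¹ * e * y ∈ E := by
    intro e he
    have h1 := hyE e he
    rw [hyi] at h1 ⊢
    exact h1
  have hy2E : y * y ∈ E := by rw [hy2]; exact E.one_mem
  set Y := ext E y hyE hy2E hyE' with hY
  have hEY : E ≤ Y := fun a ha => Or.inl ha
  have hyY : y ∈ Y := Or.inr hy2E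
  have hcov : ∀ s ∈ Y, s ∈ A ∨ s * x⁻¹ ∈ A ∨ s * y⁻¹ ∈ A ∨ s * (x * y)⁻¹ ∈ A := by
    rintro s (hs | hs)
    · rcases hEform s hs with h | ⟨a, ha, rfl⟩
      · exact Or.inl h
      · right; left
        rw [mul_inv_cancel_right]
        exact ha
    · rcases hEform _ hs with h | ⟨a, ha, h⟩
      · right; right; left
        rw [hyi]; exact h
      · right; right; right
        have h1 : s * (x * y)⁻¹ = (s * y⁻¹) * x⁻¹ := by group
        rw [h1, hyi, h, mul_inv_cancel_right]
        exact ha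
  have hfin : Finite Y := by
    have h5 : (Y : Set Γ) ⊆ (A : Set Γ) ∪ ((fun a => a * x) '' (A : Set Γ) ∪ ((fun a => a * y) '' (A : Set Γ) ∪
        (fun a => a * (x * y)) '' (A : Set Γ))) := by
      intro s hs
      rcases hcov s hs with h | h | h | h
      · exact Or.inl h
      · exact Or.inr (Or.inl ⟨_, h, by group⟩)
      · exact Or.inr (Or.inr (Or.inl ⟨_, h, by group⟩))
      · exact Or.inr (Or.inr (Or.inr ⟨_, h, by group⟩))
    have hfA : (A : Set Γ).Finite := Set.toFinite _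
    exact ((hfA.union ((hfA.image _).union ((hfA.image _).union (hfA.image _)))).subset h5).to_subtype
  refine ⟨Y, hAE.trans hEY, hEY hxE, hyY, hcov, Y.one_mem, ?_⟩
  have h1 : (⟨1, Y.one_mem⟩ : Y) = 1 := rfl
  rw [h1, fsz_one_iff]
  have hAY : A ≤ Y := hAE.trans hEY
  refine good_sd (A.subgroupOf Y) (x := ⟨x, hEY hxE⟩) (y := ⟨y, hyY⟩) (m := m) ?_ ?_ ?_ ?_ ?_ ?_ ?_ hxA hyA hxyA ?_
  · intro a b
    exact Subtype.ext (Subtype.ext (hc _ a.2 _ b.2))
  · intro a ha
    exact hx _ ha
  · intro a ha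
    exact Subtype.ext (hy _ ha)
  · exact Subtype.ext hy2
  · exact hx2
  · exact Subtype.ext hw
  · exact Subtype.ext hw2
  · intro s
    exact hcov s s.2

/-- a 2-group permutes a set of pairs `{x, z x}` of odd size -/
theorem exists_pair {Γ : Type u} [Group Γ] {z : Γ} (hzc : ∀ g, g * z = z * g) (hz2 : z * z = 1) (hz1 : z ≠ 1)
    (P : Subgroup Γ) (hP : IsPGroup 2 P) (X : Finset Γ) (hzX : ∀ x ∈ X, z * x ∈ X)
    (hPX : ∀ g ∈ P, ∀ x ∈ X, g * x * g⁻¹ ∈ X) (hcard : X.card % 4 = 2) :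
    ∃ x ∈ X, ∀ g ∈ P, g * x * g⁻¹ = x ∨ g * x * g⁻¹ = z * x := by
  classical
  let pr : Γ → Finset Γ := fun x => {x, z * x}
  have hpr : ∀ x y, pr x = pr y ↔ x = y ∨ x = z * y := by
    intro x y
    constructor
    · intro h
      have h1 : x ∈ pr y := by rw [← h]; exact Finset.mem_insert_self _ _
      rcases Finset.mem_insert.1 h1 with h2 | h2
      · exact Or.inl h2
      · exact Or.inr (Finset.mem_singleton.1 h2)
    · rintro (rfl | rfl)
      · rfl
      · show ({z * y, z * (z * y)} : Finset Γ) = {y, z * y}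
        rw [← mul_assoc, hz2, one_mul]
        exact Finset.pair_comm _ _
  have hzx : ∀ x : Γ, z * x ≠ x := fun x h => hz1 (mul_eq_right.1 h)
  let S : Finset (Finset Γ) := X.image pr
  have hfib : ∀ s ∈ S, (X.filter (fun x => pr x = s)).card = 2 := by
    intro s hs
    obtain ⟨x, hx, rfl⟩ := Finset.mem_image.1 hs
    have h1 : X.filter (fun y => pr y = pr x) = {x, z * x} := by
      ext y
      rw [Finset.mem_filter, hpr, Finset.mem_insert, Finset.mem_singleton]
      constructor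
      · exact fun h => h.2
      · rintro (rfl | rfl)
        · exact ⟨hx, Or.inl rfl⟩
        · exact ⟨hzX _ hx, Or.inr rfl⟩
    rw [h1, Finset.card_pair (hzx x).symm]
  have hS : X.card = S.card * 2 := by
    rw [Finset.card_eq_sum_card_image pr X, Finset.sum_congr rfl hfib, Finset.sum_const, smul_eq_mul]
  have hodd : ¬ 2 ∣ S.card := by omega
  -- the action
  have hcj : ∀ (g x : Γ), (pr x).image (fun y => g * y * g⁻¹) = pr (g * x * g⁻¹) := by
    intro g x
    show ({x, z * x} : Finset Γ).image _ = {g * x * g⁻¹, z * (g * x * g⁻¹)}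
    rw [Finset.image_insert, Finset.image_singleton]
    congr 2
    rw [← mul_assoc g z x, hzc g]
    group
  have hact : ∀ g ∈ P, ∀ s ∈ S, s.image (fun y => g * y * g⁻¹) ∈ S := by
    intro g hg s hs
    obtain ⟨x, hx, rfl⟩ := Finset.mem_image.1 hs
    rw [hcj]
    exact Finset.mem_image_of_mem _ (hPX g hg x hx)
  let act : MulAction P {s // s ∈ S} :=
    { smul := fun g s => ⟨s.1.image (fun y => (g : Γ) * y * (g : Γ)⁻¹), hact g g.2 s.1 s.2⟩
      one_smul := fun s => Subtype.ext (by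
        show s.1.image (fun y => (1 : Γ) * y * (1 : Γ)⁻¹) = s.1
        simp)
      mul_smul := fun g h s => Subtype.ext (by
        show s.1.image (fun y => ((g * h : P) : Γ) * y * ((g * h : P) : Γ)⁻¹) =
          (s.1.image (fun y => (h : Γ) * y * (h : Γ)⁻¹)).image (fun y => (g : Γ) * y * (g : Γ)⁻¹)
        rw [Finset.image_image]
        congr 1
        funext y
        rw [Function.comp_apply, Subgroup.coe_mul]
        group) }
  have hc2 : ¬ 2 ∣ Nat.card {s // s ∈ S} := by
    rw [Nat.card_eq_fintype_card, Fintype.card_coe]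
    exact hodd
  have : Fact (Nat.Prime 2) := ⟨Nat.prime_two⟩
  obtain ⟨s, hs⟩ := hP.nonempty_fixed_point_of_prime_not_dvd_card {s // s ∈ S} hc2
  obtain ⟨x, hx, hxs⟩ := Finset.mem_image.1 s.2
  refine ⟨x, hx, fun g hg => ?_⟩
  have h1 : (⟨g, hg⟩ : P) • s = s := hs ⟨g, hg⟩
  have h2 : s.1.image (fun y => g * y * g⁻¹) = s.1 := congrArg Subtype.val h1
  rw [← hxs, hcj, hpr] at h2
  exact h2

end Cfsg.Agent.H47.Uni
end

-- part: H47/Uni/Plane
section
/-!
# S4970, UNI-2 (d): the symplectic plane over a field with `q = 3 mod 4` (helper47)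
-/

set_option autoImplicit false

universe u

namespace Cfsg.Agent.H47.Uni

open Cfsg Cfsg.Agent.H955.FS Cfsg.Agent.H721.FR Cfsg.Agent.H855.FR Module

variable {F M : Type u} [Field F] [AddCommGroup M] [Module F M]

/-! ### bases of a plane -/

theorem li_iff {v w : M} (hv : v ≠ 0) : LinearIndependent F ![v, w] ↔ w ∉ Submodule.span F {v} := by
  rw [LinearIndependent.pair_iff' hv]
  constructor
  · intro h hw
    obtain ⟨a, ha⟩ := Submodule.mem_span_singleton.1 hw
    exact h a ha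
  · intro h a ha
    exact h (Submodule.mem_span_singleton.2 ⟨a, ha⟩)

theorem exists_coords [FiniteDimensional F M] (h2 : finrank F M = 2) {v w : M} (h : LinearIndependent F ![v, w]) (x : M) :
    ∃ s t : F, x = s • v + t • w := by
  have h1 : Submodule.span F (Set.range ![v, w]) = ⊤ := by
    apply h.span_eq_top_of_card_eq_finrank'
    rw [h2]; simp
  have h3 : x ∈ Submodule.span F (Set.range ![v, w]) := by rw [h1]; exact Submodule.mem_top
  rw [Matrix.range_cons, Matrix.range_cons, Matrix.range_empty, Set.union_empty, Set.singleton_union] at h3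
  obtain ⟨s, t, hst⟩ := Submodule.mem_span_pair.1 h3
  exact ⟨s, t, hst.symm⟩

theorem ext_lin [FiniteDimensional F M] {W : Type u} [AddCommGroup W] [Module F W] (h2 : finrank F M = 2) {v w : M}
    (h : LinearIndependent F ![v, w]) {f g : M →ₗ[F] W} (hv : f v = g v) (hw : f w = g w) : f = g := by
  ext x
  obtain ⟨s, t, rfl⟩ := exists_coords h2 h x
  rw [map_add, map_add, map_smul, map_smul, map_smul, map_smul, hv, hw]

theorem exists_lin [FiniteDimensional F M] (h2 : finrank F M = 2) {v w : M} (h : LinearIndependent F ![v, w]) (a b : M) :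
    ∃ f : M →ₗ[F] M, f v = a ∧ f w = b := by
  let bs : Basis (Fin 2) F M := basisOfLinearIndependentOfCardEqFinrank h (by rw [h2]; simp)
  have hbs : ⇑bs = ![v, w] := coe_basisOfLinearIndependentOfCardEqFinrank h _
  refine ⟨bs.constr F ![a, b], ?_, ?_⟩
  · have h1 := bs.constr_basis F ![a, b] 0
    rw [hbs] at h1
    exact h1
  · have h1 := bs.constr_basis F ![a, b] 1
    rw [hbs] at h1
    exact h1

/-- the two forms agree if they are alternating and agree on a basis -/
theorem eq_of_alt [FiniteDimensional F M] (h2 : finrank F M = 2) {v w : M} (h : LinearIndependent F ![v, w])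
    {β γ : M →ₗ[F] M →ₗ[F] F} (hβ : ∀ x, β x x = 0) (hγ : ∀ x, γ x x = 0) (hvw : β v w = γ v w) (hwv : β w v = γ w v)
    (x y : M) : β x y = γ x y := by
  obtain ⟨s, t, rfl⟩ := exists_coords h2 h x
  obtain ⟨s', t', rfl⟩ := exists_coords h2 h y
  simp only [map_add, map_smul, LinearMap.add_apply, LinearMap.smul_apply, hβ, hγ, hvw, hwv, smul_zero, zero_add,
    add_zero]

/-- a symplectic plane over a field in which `-1` is not a square -/
structure Pl (β : M →ₗ[F] M →ₗ[F] F) : Prop where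
  two : (2 : F) ≠ 0
  ns : ¬ IsSquare (-1 : F)
  alt : ∀ x y, β x y = - β y x
  nd : ∀ x, (∀ y, β x y = 0) → x = 0
  dim : finrank F M = 2

namespace Pl

variable {β : M →ₗ[F] M →ₗ[F] F}

theorem self (h : Pl β) (x : M) : β x x = 0 := by
  have h1 := h.alt x x
  have h2 : (2 : F) * β x x = 0 := by linear_combination h1
  exact (mul_eq_zero.1 h2).resolve_left h.two

theorem exists_ne (h : Pl β) : ∃ v : M, v ≠ 0 := by
  have : Nontrivial M := Module.nontrivial_of_finrank_pos (R := F) (by rw [h.dim]; norm_num)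
  exact _root_.exists_ne 0

variable {J : M ≃ₗ[F] M}

theorem JJ (hJ : J * J = LinearEquiv.neg F) (x : M) : J (J x) = - x := by
  have := LinearEquiv.congr_fun hJ x
  simpa using this

theorem li (h : Pl β) (hJ : J * J = LinearEquiv.neg F) {v : M} (hv : v ≠ 0) : LinearIndependent F ![v, J v] := by
  rw [li_iff hv]
  intro h1
  obtain ⟨a, ha⟩ := Submodule.mem_span_singleton.1 h1
  have h2 := JJ hJ v
  rw [← ha, map_smul, ← ha, smul_smul] at h2
  have h3 : (a * a + 1) • v = 0 := by rw [add_smul, one_smul, h2, neg_add_cancel]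
  have h4 := (smul_eq_zero.1 h3).resolve_right hv
  exact h.ns ⟨a, by linear_combination -h4⟩

variable [FiniteDimensional F M]

theorem isom (h : Pl β) (hJ : J * J = LinearEquiv.neg F) (x y : M) : β (J x) (J y) = β x y := by
  obtain ⟨v, hv⟩ := h.exists_ne
  refine eq_of_alt h.dim (h.li hJ hv) (β := β.compl₁₂ (J : M →ₗ[F] M) (J : M →ₗ[F] M)) (γ := β) ?_ h.self ?_ ?_ x y
  · intro x
    exact h.self _
  · show β (J v) (J (J v)) = β v (J v)
    rw [JJ hJ, map_neg, h.alt v]
  · show β (J (J v)) (J v) = β (J v) v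
    rw [JJ hJ, map_neg, LinearMap.neg_apply, h.alt (J v)]

theorem skew (h : Pl β) (hJ : J * J = LinearEquiv.neg F) (x y : M) : β (J x) y = - β x (J y) := by
  have h1 := h.isom hJ x (J y)
  rw [JJ hJ, map_neg] at h1
  rw [← h1, neg_neg]

theorem ne (h : Pl β) (hJ : J * J = LinearEquiv.neg F) {v : M} (hv : v ≠ 0) : β v (J v) ≠ 0 := by
  intro h1
  apply hv
  apply h.nd
  intro y
  obtain ⟨s, t, rfl⟩ := exists_coords h.dim (h.li hJ hv) y
  rw [map_add, map_smul, map_smul, h.self, h1, smul_zero, smul_zero, add_zero]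

/-- `s + t J` multiplies the form by `s² + t²` -/
theorem mul (h : Pl β) (hJ : J * J = LinearEquiv.neg F) (s t : F) (x y : M) :
    β (s • x + t • J x) (s • y + t • J y) = (s * s + t * t) * β x y := by
  simp only [map_add, map_smul, LinearMap.add_apply, LinearMap.smul_apply, h.isom hJ, h.skew hJ, smul_eq_mul]
  ring

/-- the centraliser of `J` -/
theorem form (h : Pl β) (hJ : J * J = LinearEquiv.neg F) {g : M ≃ₗ[F] M} (hg : g * J = J * g) :
    ∃ s t : F, ∀ x, g x = s • x + t • J x := by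
  obtain ⟨v, hv⟩ := h.exists_ne
  obtain ⟨s, t, hst⟩ := exists_coords h.dim (h.li hJ hv) (g v)
  refine ⟨s, t, fun x => ?_⟩
  have h1 : (g : M →ₗ[F] M) = s • LinearMap.id + t • (J : M →ₗ[F] M) := by
    apply ext_lin h.dim (h.li hJ hv)
    · show g v = s • v + t • J v
      exact hst
    · show g (J v) = s • J v + t • J (J v)
      have h2 : g (J v) = J (g v) := LinearEquiv.congr_fun hg v
      rw [h2, hst, map_add, map_smul, map_smul]
  exact LinearMap.congr_fun h1 x

/-- multiplier of an element `s + t J` -/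
theorem form' (h : Pl β) (hJ : J * J = LinearEquiv.neg F) {g : M ≃ₗ[F] M} (hg : g * J = J * g) {δ : F}
    (hδ : ∀ x y, β (g x) (g y) = δ * β x y) : ∃ s t : F, (∀ x, g x = s • x + t • J x) ∧ s * s + t * t = δ := by
  obtain ⟨s, t, hst⟩ := h.form hJ hg
  refine ⟨s, t, hst, ?_⟩
  obtain ⟨v, hv⟩ := h.exists_ne
  have h1 := hδ v (J v)
  rw [hst, hst, h.mul hJ] at h1
  exact mul_right_cancel₀ (h.ne hJ hv) h1

theorem comm (h : Pl β) (hJ : J * J = LinearEquiv.neg F) {g g' : M ≃ₗ[F] M} (hg : g * J = J * g)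
    (hg' : g' * J = J * g') : g * g' = g' * g := by
  obtain ⟨s, t, hst⟩ := h.form hJ hg
  ext x
  show g (g' x) = g' (g x)
  have h1 : g' (J x) = J (g' x) := LinearEquiv.congr_fun hg' x
  rw [hst, hst, map_add, map_smul, map_smul, h1]

/-- an element of norm `s² + t²` -/
theorem exists_elt (hJ : J * J = LinearEquiv.neg F) {s t : F} (hst : s * s + t * t ≠ 0) :
    ∃ g : M ≃ₗ[F] M, (∀ x, g x = s • x + t • J x) ∧ g * J = J * g := by
  set n := s * s + t * t with hn
  have key : ∀ (s t : F), s * s + t * t = n → ∀ x : M,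
      n⁻¹ • (s • (s • x + t • J x) - t • J (s • x + t • J x)) = x := by
    intro s t hst' x
    rw [map_add, map_smul, map_smul, JJ hJ]
    have h1 : s • (s • x + t • J x) - t • (s • J x + t • -x) = (s * s + t * t) • x := by
      module
    rw [h1, hst', smul_smul, inv_mul_cancel₀ hst, one_smul]
  let g : M ≃ₗ[F] M := LinearEquiv.ofLinear (s • LinearMap.id + t • (J : M →ₗ[F] M))
    (n⁻¹ • (s • LinearMap.id - t • (J : M →ₗ[F] M)))
    (by
      ext x
      show s • (n⁻¹ • (s • x - t • J x)) + t • J (n⁻¹ • (s • x - t • J x)) = x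
      have h1 := key s (-t) (by rw [hn]; ring) x
      have h2 : s • (n⁻¹ • (s • x - t • J x)) + t • J (n⁻¹ • (s • x - t • J x)) =
          n⁻¹ • (s • (s • x + (-t) • J x) - (-t) • J (s • x + (-t) • J x)) := by
        rw [map_smul, map_sub, map_smul, map_smul, map_add, map_smul, map_smul]
        module
      rw [h2, h1])
    (by
      ext x
      exact key s t rfl x)
  refine ⟨g, fun x => rfl, ?_⟩
  ext x
  show s • J x + t • J (J x) = J (s • x + t • J x)
  rw [map_add, map_smul, map_smul]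

/-- an involution which anticommutes with `J` -/
theorem exists_anti (h : Pl β) (hJ : J * J = LinearEquiv.neg F) :
    ∃ y : M ≃ₗ[F] M, y * y = 1 ∧ (∀ x, y (J x) = - J (y x)) ∧ ∀ a b, β (y a) (y b) = - β a b := by
  obtain ⟨v, hv⟩ := h.exists_ne
  obtain ⟨f, hf1, hf2⟩ := exists_lin h.dim (h.li hJ hv) v (- J v)
  have hff : f ∘ₗ f = LinearMap.id := by
    apply ext_lin h.dim (h.li hJ hv)
    · show f (f v) = v
      rw [hf1, hf1]
    · show f (f (J v)) = J v
      rw [hf2, map_neg, hf2, neg_neg]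
  let y : M ≃ₗ[F] M := LinearEquiv.ofLinear f f hff hff
  have hy : ∀ x, y x = f x := fun x => rfl
  refine ⟨y, ?_, ?_, ?_⟩
  · ext x
    exact LinearMap.congr_fun hff x
  · have h1 : f ∘ₗ (J : M →ₗ[F] M) = - ((J : M →ₗ[F] M) ∘ₗ f) := by
      apply ext_lin h.dim (h.li hJ hv)
      · show f (J v) = - J (f v)
        rw [hf1, hf2]
      · show f (J (J v)) = - J (f (J v))
        rw [JJ hJ, map_neg, hf1, hf2, map_neg, JJ hJ, neg_neg]
    intro x
    exact LinearMap.congr_fun h1 x
  · intro a b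
    refine eq_of_alt h.dim (h.li hJ hv) (β := β.compl₁₂ f f) (γ := - β) ?_ ?_ ?_ ?_ a b
    · intro x
      exact h.self _
    · intro x
      show - β x x = 0
      rw [h.self, neg_zero]
    · show β (f v) (f (J v)) = - β v (J v)
      rw [hf1, hf2, map_neg]
    · show β (f (J v)) (f v) = - β (J v) v
      rw [hf1, hf2, map_neg, LinearMap.neg_apply]

end Pl

end Cfsg.Agent.H47.Uni
end

-- part: H47/Uni/Count
section
/-!
# S4970, UNI-2 (d): counting (helper47)
-/

set_option autoImplicit false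

universe u

namespace Cfsg.Agent.H47.Uni

open Cfsg Cfsg.Agent.H955.FS Cfsg.Agent.H721.FR Cfsg.Agent.H855.FR Module

variable {F M : Type u} [Field F] [AddCommGroup M] [Module F M]

namespace Pl

variable {β : M →ₗ[F] M →ₗ[F] F}

/-- a complex structure with prescribed value -/
theorem exists_J [FiniteDimensional F M] (h : Pl β) {v w : M} (hvw : LinearIndependent F ![v, w]) :
    ∃ J : M ≃ₗ[F] M, J * J = LinearEquiv.neg F ∧ J v = w := by
  obtain ⟨f, hf1, hf2⟩ := exists_lin h.dim hvw w (- v)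
  have hff : f ∘ₗ f = - LinearMap.id := by
    apply ext_lin h.dim hvw
    · show f (f v) = - v
      rw [hf1, hf2]
    · show f (f w) = - w
      rw [hf2, map_neg, hf1]
  have hff' : ∀ x, f (f x) = - x := fun x => LinearMap.congr_fun hff x
  let J : M ≃ₗ[F] M := LinearEquiv.ofLinearMap f (- f)
    (by ext x; show f (- f x) = x; rw [map_neg, hff', neg_neg])
    (by ext x; show - f (f x) = x; rw [hff', neg_neg])
  refine ⟨J, ?_, hf1⟩
  ext x
  exact hff' x

theorem card_J [Finite F] [FiniteDimensional F M] (h : Pl β) :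
    Nat.card {J : M ≃ₗ[F] M // J * J = LinearEquiv.neg F} = Nat.card F * (Nat.card F - 1) := by
  classical
  have hfM : Finite M := Module.finite_of_finite F
  obtain ⟨v, hv⟩ := h.exists_ne
  have e : {J : M ≃ₗ[F] M // J * J = LinearEquiv.neg F} ≃ {w : M // w ∉ Submodule.span F {v}} := by
    refine Equiv.ofBijective (fun J => ⟨J.1 v, (li_iff hv).1 (h.li J.2 hv)⟩) ⟨?_, ?_⟩
    · intro J J' hJJ
      have h1 : J.1 v = J'.1 v := congrArg Subtype.val hJJ
      apply Subtype.ext
      apply LinearEquiv.toLinearMap_injective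
      apply ext_lin h.dim (h.li J.2 hv)
      · exact h1
      · show J.1 (J.1 v) = J'.1 (J.1 v)
        rw [JJ J.2, h1, JJ J'.2]
    · intro w
      obtain ⟨J, hJ, hJv⟩ := h.exists_J ((li_iff hv).2 w.2)
      exact ⟨⟨J, hJ⟩, Subtype.ext hJv⟩
  rw [Nat.card_congr e]
  have h1 : Nat.card {w : M // w ∈ Submodule.span F {v}} + Nat.card {w : M // w ∉ Submodule.span F {v}} = Nat.card M := by
    rw [← Nat.card_sum]
    exact Nat.card_congr (Equiv.sumCompl (fun w => w ∈ Submodule.span F {v}))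
  have h2 : Nat.card M = Nat.card F ^ 2 := by
    rw [Module.natCard_eq_pow_finrank (K := F), h.dim]
  have h3 : Nat.card {w : M // w ∈ Submodule.span F {v}} = Nat.card F := by
    have h4 : finrank F (Submodule.span F {v}) = 1 := finrank_span_singleton hv
    have h5 : Nat.card (Submodule.span F {v}) = Nat.card F ^ finrank F (Submodule.span F {v}) :=
      Module.natCard_eq_pow_finrank
    rw [h4, pow_one] at h5
    exact h5
  rw [h2, h3] at h1
  have h6 : Nat.card F ^ 2 = Nat.card F * (Nat.card F - 1) + Nat.card F := by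
    have h7 : 0 < Nat.card F := Nat.card_pos
    obtain ⟨n, hn⟩ := Nat.exists_eq_succ_of_ne_zero h7.ne'
    rw [hn, Nat.succ_sub_one, Nat.succ_eq_add_one]
    ring
  omega

/-- an element of norm `-1` -/
theorem pow_card [Finite F] [FiniteDimensional F M] (h : Pl β) (hq : Nat.card F % 4 = 3) {J : M ≃ₗ[F] M}
    (hJ : J * J = LinearEquiv.neg F) {g : M ≃ₗ[F] M} {s t : F} (hg : ∀ x, g x = s • x + t • J x)
    (hst : s * s + t * t = -1) : g ^ (Nat.card F + 1) = LinearEquiv.neg F := by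
  have hfF := Fintype.ofFinite F
  have : Nontrivial M := Module.nontrivial_of_finrank_pos (R := F) (by rw [h.dim]; norm_num)
  obtain ⟨n, hp, hcard⟩ := FiniteField.card F (ringChar F)
  rw [← Nat.card_eq_fintype_card] at hcard
  have : Fact (ringChar F).Prime := ⟨hp⟩
  have hchar : CharP (Module.End F M) (ringChar F) :=
    charP_of_injective_algebraMap (FaithfulSMul.algebraMap_injective F (Module.End F M)) (ringChar F)
  let JE : Module.End F M := (J : M →ₗ[F] M)
  have hJE : JE * JE = -1 := by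
    ext x
    exact JJ hJ x
  let G : Module.End F M := algebraMap F (Module.End F M) s + algebraMap F (Module.End F M) t * JE
  have hG : ∀ x, G x = g x := by
    intro x
    rw [hg]
    rfl
  have hc : Commute (algebraMap F (Module.End F M) s) (algebraMap F (Module.End F M) t * JE) :=
    Algebra.commutes s _
  have hc2 : Commute (algebraMap F (Module.End F M) t) JE := Algebra.commutes t _
  have hJ4 : JE ^ (Nat.card F) = - JE := by
    have h1 : Nat.card F = 4 * (Nat.card F / 4) + 3 := by omega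
    have h2 : JE ^ 4 = 1 := by
      have : JE ^ 4 = (JE * JE) * (JE * JE) := by noncomm_ring
      rw [this, hJE]
      noncomm_ring
    rw [h1, pow_add, pow_mul, h2, one_pow, one_mul]
    have : JE ^ 3 = (JE * JE) * JE := by noncomm_ring
    rw [this, hJE]
    noncomm_ring
  have hGq : G ^ (Nat.card F) = algebraMap F (Module.End F M) s - algebraMap F (Module.End F M) t * JE := by
    have h1 : G ^ (Nat.card F) = algebraMap F (Module.End F M) s ^ (Nat.card F) +
        (algebraMap F (Module.End F M) t * JE) ^ (Nat.card F) := by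
      rw [hcard]
      exact add_pow_char_pow_of_commute _ _ hc
    rw [h1, hc2.mul_pow, hJ4, ← map_pow, ← map_pow, Nat.card_eq_fintype_card, FiniteField.pow_card,
      FiniteField.pow_card]
    noncomm_ring
  have hG1 : G ^ (Nat.card F + 1) = -1 := by
    rw [pow_succ, hGq]
    ext x
    show (algebraMap F (Module.End F M) s - algebraMap F (Module.End F M) t * JE) (G x) = - x
    rw [hG, hg]
    show s • (s • x + t • J x) - t • J (s • x + t • J x) = - x
    rw [map_add, map_smul, map_smul, JJ hJ]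
    have h1 : s • (s • x + t • J x) - t • (s • J x + t • -x) = (s * s + t * t) • x := by
      module
    rw [h1, hst, neg_one_smul]
  have hpow : ∀ (k : ℕ) (x : M), (g ^ k) x = (G ^ k) x := by
    intro k
    induction k with
    | zero => intro x; rfl
    | succ k ih =>
      intro x
      rw [pow_succ, pow_succ]
      show (g ^ k) (g x) = (G ^ k) (G x)
      rw [ih, hG]
  ext x
  rw [hpow, hG1]
  rfl

/-- two squares -/
theorem exists_norm (F : Type u) [Field F] [Finite F] : ∃ s t : F, s * s + t * t = -1 := by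
  have hfF := Fintype.ofFinite F
  obtain ⟨n, hp, hcard⟩ := FiniteField.card F (ringChar F)
  have : NeZero (ringChar F) := ⟨hp.ne_zero⟩
  obtain ⟨s, t, h⟩ := CharP.sq_add_sq F (ringChar F) (-1)
  refine ⟨(s : F), (t : F), ?_⟩
  push_cast at h
  rw [← h]
  ring

end Pl

end Cfsg.Agent.H47.Uni
end

-- part: H47/Uni/CovPlane
section
/-!
# S4970, UNI-2 (d): `k` even, `q = 3 mod 4`, `dim M = 2` (helper47)
-/

set_option autoImplicit false

universe u

namespace Cfsg.Agent.H47.Uni

open Cfsg Cfsg.Agent.H955.FS Cfsg.Agent.H721.FR Cfsg.Agent.H855.FR Module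

variable {F V : Type u} [Field F] [AddCommGroup V] [Module F V]

theorem neg_mul_eq {W : Type u} [AddCommGroup W] [Module F W] (g : W ≃ₗ[F] W) :
    g * LinearEquiv.neg F = LinearEquiv.neg F * g := by
  ext x
  simp only [_root_.LinearEquiv.mul_apply, _root_.LinearEquiv.coe_neg, _root_.Pi.neg_apply, _root_.id_eq, _root_.map_neg]

theorem neg_sq {W : Type u} [AddCommGroup W] [Module F W] :
    (LinearEquiv.neg F : W ≃ₗ[F] W) * LinearEquiv.neg F = 1 := by
  ext x
  simp only [_root_.LinearEquiv.mul_apply, _root_.LinearEquiv.coe_neg, _root_.Pi.neg_apply, _root_.id_eq, _root_.neg_neg, _root_.LinearEquiv.coe_one]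

/-- the torus `⟨c⟩ × (centraliser of J in Isom β)` -/
def torus {M : Submodule F V} (c : V ≃ₗ[F] V) (β : M →ₗ[F] M →ₗ[F] F) (tens : (M ≃ₗ[F] M) →* (V ≃ₗ[F] V))
    (hct : ∀ a, tens a * c = c * tens a) (J : M ≃ₗ[F] M) : Subgroup (V ≃ₗ[F] V) where
  carrier := {g | ∃ (i : ℤ) (a : M ≃ₗ[F] M), a ∈ Isom β ∧ a * J = J * a ∧ g = c ^ i * tens a}
  one_mem' := ⟨0, 1, (Isom β).one_mem, by rw [one_mul, mul_one], by simp⟩
  mul_mem' := by
    rintro _ _ ⟨i, a, ha, haJ, rfl⟩ ⟨j, b, hb, hbJ, rfl⟩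
    refine ⟨i + j, a * b, (Isom β).mul_mem ha hb, by rw [mul_assoc, hbJ, ← mul_assoc, haJ, mul_assoc], ?_⟩
    have h1 : tens a * c ^ j = c ^ j * tens a := (Commute.zpow_right (show Commute (tens a) c from hct a) j).eq
    rw [map_mul, zpow_add]
    calc c ^ i * tens a * (c ^ j * tens b) = c ^ i * (tens a * c ^ j) * tens b := by group
      _ = _ := by rw [h1]; group
  inv_mem' := by
    rintro _ ⟨i, a, ha, haJ, rfl⟩
    refine ⟨-i, a⁻¹, (Isom β).inv_mem ha, ?_, ?_⟩
    · exact (Commute.inv_left (show Commute a J from haJ)).eq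
    · have h1 : tens a⁻¹ * c ^ (-i) = c ^ (-i) * tens a⁻¹ :=
        (Commute.zpow_right (show Commute (tens a⁻¹) c from hct _) (-i)).eq
      rw [← h1, mul_inv_rev, map_inv, zpow_neg]

/-- **(d)** -/
theorem cov_plane [Finite F] [FiniteDimensional F V] {B : V →ₗ[F] V →ₗ[F] F} {ε : F} (hF : Fm B ε) {c : V ≃ₗ[F] V}
    {k : ℕ} (hk : Even k) (hk0 : k ≠ 0) (hq : Nat.card F % 4 = 3) {M : Submodule F V} (hM : finrank F M = 2)
    {β : M →ₗ[F] M →ₗ[F] F} {tens : (M ≃ₗ[F] M) →* (V ≃ₗ[F] V)} {hh : V ≃ₗ[F] V} (h : Dt B ε c k M β tens hh)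
    (hinj : Function.Injective tens)
    (hmul : ∀ b : M ≃ₗ[F] M, (∀ x y, β (b x) (b y) = - β x y) → ∀ x y, B (tens b x) (tens b y) = - B x y)
    (hc : c ∈ Isom B) (hc1 : c ≠ 1) (ho : Odd (orderOf c)) {P : Subgroup (V ≃ₗ[F] V)} (h2P : IsPGroup 2 P)
    (hP : ∀ g ∈ P, InP k M β tens hh g) : Cov B ε c P := by
  classical
  have hε : ε = 1 := by
    rcases hF.eps with h1 | ⟨-, h1⟩
    · exact h1
    · omega
  subst hε
  have hk1 : ((-1 : F)) ^ (k - 1) = -1 := by
    obtain ⟨j, rfl⟩ := hk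
    refine Odd.neg_one_pow ⟨j - 1, ?_⟩
    omega
  have hns : ¬ IsSquare (-1 : F) := by
    have := Fintype.ofFinite F
    rw [FiniteField.isSquare_neg_one_iff, ← Nat.card_eq_fintype_card, not_not]
    exact hq
  have hpl : Pl β := ⟨hF.two, hns, fun x y => by rw [h.sym, hk1]; ring, h.nd, hM⟩
  have hfV : Finite V := Module.finite_of_finite F
  have hfM : Finite M := Module.finite_of_finite F
  have hf1 : Finite (M ≃ₗ[F] M) := finite_equiv
  have := Fintype.ofFinite {J : M ≃ₗ[F] M // J * J = LinearEquiv.neg F}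
  set z : V ≃ₗ[F] V := LinearEquiv.neg F with hz
  have htz : tens (LinearEquiv.neg F) = z := by rw [neg_eq_smul, h.tens_smul, hz, neg_eq_smul]
  have hhi : hh⁻¹ = hh := inv_eq_of_mul_eq_one_left h.hh2
  have hVne : ∃ v : V, v ≠ 0 := by
    obtain ⟨v, hv⟩ := hpl.exists_ne
    exact ⟨v, fun h => hv (Subtype.ext h)⟩
  have hz1 : z ≠ 1 := by
    intro h1
    obtain ⟨v, hv⟩ := hVne
    have h2 := LinearEquiv.congr_fun h1 v
    have h3 : - v = v := h2
    have h4 : (2 : F) • v = 0 := by rw [two_smul]; nth_rewrite 1 [← h3]; rw [neg_add_cancel]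
    exact hv ((smul_eq_zero.1 h4).resolve_left hF.two)
  -- conjugation on `tens`
  have hconj : ∀ g ∈ P, ∃ a : M ≃ₗ[F] M, (∀ J, g * tens J * g⁻¹ = tens (a * J * a⁻¹)) ∧
      ((a ∈ Isom β ∧ g = tens a) ∨ ((∀ x y, β (a x) (a y) = - β x y) ∧ g = hh * tens a)) := by
    intro g hg
    rcases hP g hg with ⟨a, ha, rfl⟩ | ⟨b, hb, rfl⟩
    · exact ⟨a, fun J => by rw [map_mul, map_mul, map_inv], Or.inl ⟨ha, rfl⟩⟩
    · refine ⟨b, fun J => ?_, Or.inr ⟨fun x y => by rw [hb, hk1]; ring, rfl⟩⟩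
      have h1 : hh * tens b * tens J * (hh * tens b)⁻¹ = hh * tens (b * J * b⁻¹) * hh⁻¹ := by
        rw [map_mul, map_mul, map_inv]; group
      rw [h1, ← h.hht, mul_inv_cancel_right]
  -- the pair
  let X : Finset (V ≃ₗ[F] V) := Finset.univ.image (fun J : {J : M ≃ₗ[F] M // J * J = LinearEquiv.neg F} => tens J.1)
  have hXc : X.card % 4 = 2 := by
    have h1 : X.card = Nat.card {J : M ≃ₗ[F] M // J * J = LinearEquiv.neg F} := by
      rw [Finset.card_image_of_injective _ (fun J J' hJJ => Subtype.ext (hinj hJJ)), Finset.card_univ,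
        Nat.card_eq_fintype_card]
    rw [h1, hpl.card_J]
    obtain ⟨n, hn⟩ : ∃ n, Nat.card F = 4 * n + 3 := ⟨Nat.card F / 4, by omega⟩
    rw [hn, Nat.mul_mod]
    have h2 : (4 * n + 3) % 4 = 3 := by omega
    have h3 : (4 * n + 3 - 1) % 4 = 2 := by (clear * -; omega)
    rw [h2, h3]
  have hmem : ∀ {g : V ≃ₗ[F] V}, g ∈ X ↔ ∃ J : M ≃ₗ[F] M, J * J = LinearEquiv.neg F ∧ tens J = g := by
    intro g
    rw [Finset.mem_image]
    constructor
    · rintro ⟨J, -, rfl⟩
      exact ⟨J.1, J.2, rfl⟩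
    · rintro ⟨J, hJ, rfl⟩
      exact ⟨⟨J, hJ⟩, Finset.mem_univ _, rfl⟩
  obtain ⟨JV, hJV, hPJ⟩ := exists_pair (z := z) (fun g => neg_mul_eq g) neg_sq hz1 P h2P X
    (by
      intro g hg
      obtain ⟨J, hJ, rfl⟩ := hmem.1 hg
      refine hmem.2 ⟨LinearEquiv.neg F * J, ?_, by rw [map_mul, htz]⟩
      rw [mul_assoc, ← mul_assoc J, neg_mul_eq J, mul_assoc, ← mul_assoc (LinearEquiv.neg F) (LinearEquiv.neg F),
        neg_sq, one_mul, hJ])
    (by
      intro g hg x hx
      obtain ⟨J, hJ, rfl⟩ := hmem.1 hx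
      obtain ⟨a, ha, -⟩ := hconj g hg
      rw [ha]
      refine hmem.2 ⟨_, ?_, rfl⟩
      have h1 : a * J * a⁻¹ * (a * J * a⁻¹) = a * (J * J) * a⁻¹ := by group
      rw [h1, hJ, neg_mul_eq, mul_inv_cancel_right])
    hXc
  obtain ⟨J, hJ, rfl⟩ := hmem.1 hJV
  -- the elements
  obtain ⟨s₀, t₀, hst₀⟩ := Pl.exists_norm F
  obtain ⟨g₀, hg₀, hg₀J⟩ := Pl.exists_elt hJ (s := s₀) (t := t₀) (by
    rw [hst₀]; exact neg_ne_zero.2 one_ne_zero)
  obtain ⟨y₀, hy₀2, hy₀J, hy₀β⟩ := hpl.exists_anti hJ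
  have hg₀β : ∀ x y, β (g₀ x) (g₀ y) = - β x y := by
    intro x y
    rw [hg₀, hg₀, hpl.mul hJ, hst₀, neg_one_mul]
  have hy₀J' : ∀ x, y₀ (J x) = - J (y₀ x) := hy₀J
  have hyy : ∀ x, y₀ (y₀ x) = x := fun x => LinearEquiv.congr_fun hy₀2 x
  have hy₀i : y₀⁻¹ = y₀ := inv_eq_of_mul_eq_one_left hy₀2
  -- conjugation of the torus by `y₀`
  have hinv : ∀ a : M ≃ₗ[F] M, a ∈ Isom β → a * J = J * a → y₀ * a * y₀⁻¹ = a⁻¹ := by
    intro a ha haJ
    obtain ⟨s, t, hst, hn⟩ := hpl.form' hJ haJ (δ := 1) (fun x y => by rw [one_mul]; exact ha x y)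
    rw [eq_comm, inv_eq_iff_mul_eq_one, hy₀i]
    refine LinearEquiv.ext fun x => ?_
    show a (y₀ (a (y₀ x))) = x
    rw [hst (y₀ x), map_add, map_smul, map_smul, hy₀J, hyy, hst, map_add, map_smul, map_smul, map_neg, Pl.JJ hJ]
    have h1 : s • (s • x + t • -J x) + t • (s • J x + t • - -x) = (s * s + t * t) • x := by module
    rw [h1, hn, one_smul]
  have hgy : (g₀ * y₀) * (g₀ * y₀) = LinearEquiv.neg F := by
    refine LinearEquiv.ext fun x => ?_
    show g₀ (y₀ (g₀ (y₀ x))) = - x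
    rw [hg₀ (y₀ x), map_add, map_smul, map_smul, hy₀J, hyy, hg₀, map_add, map_smul, map_smul, map_neg, Pl.JJ hJ]
    have h1 : s₀ • (s₀ • x + t₀ • -J x) + t₀ • (s₀ • J x + t₀ • - -x) = (s₀ * s₀ + t₀ * t₀) • x := by module
    rw [h1, hst₀, neg_one_smul]
  set A := torus c β tens h.ct J with hA
  have htA : ∀ a : M ≃ₗ[F] M, a ∈ Isom β → a * J = J * a → tens a ∈ A :=
    fun a ha haJ => ⟨0, a, ha, haJ, by simp⟩
  have hcA : c ∈ A := ⟨1, 1, (Isom β).one_mem, by rw [one_mul, mul_one], by simp⟩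
  have hfA : Finite A := by
    have hfc : (Set.range fun k : ℤ => c ^ k).Finite := by
      have h3 : IsOfFinOrder c := by
        rw [← orderOf_pos_iff]
        exact ho.pos
      exact h3.finite_zpowers
    have h5 : (A : Set (V ≃ₗ[F] V)) ⊆ Set.image2 (fun a b => a * b) (Set.range fun k : ℤ => c ^ k)
        (Set.range fun a => tens a) := by
      rintro _ ⟨i, a, -, -, rfl⟩
      exact ⟨c ^ i, ⟨i, rfl⟩, tens a, ⟨a, rfl⟩, rfl⟩
    exact ((hfc.image2 _ (Set.finite_range _)).subset h5).to_subtype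
  have hAc : ∀ a ∈ A, a * c = c * a := by
    rintro _ ⟨i, a, -, -, rfl⟩
    have h1 : Commute (tens a) c := h.ct a
    exact (((Commute.refl c).zpow_left i).mul_left h1).eq
  have hAJ : ∀ a ∈ A, a * tens J = tens J * a := by
    rintro _ ⟨i, a, -, haJ, rfl⟩
    have h1 : Commute c (tens J) := (h.ct J).symm
    have h2 : Commute (tens a) (tens J) := by
      show tens a * tens J = tens J * tens a
      rw [← map_mul, haJ, map_mul]
    exact ((h1.zpow_left i).mul_left h2).eq
  have hAA : ∀ a ∈ A, ∀ b ∈ A, a * b = b * a := by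
    rintro _ ⟨i, a, ha, haJ, rfl⟩ b hb
    have h1 : Commute c b := (hAc b hb).symm
    have h2 : Commute (tens a) b := by
      obtain ⟨j, b', hb', hbJ, rfl⟩ := hb
      have h3 : Commute (tens a) (tens b') := by
        show tens a * tens b' = tens b' * tens a
        rw [← map_mul, hpl.comm hJ haJ hbJ, map_mul]
      exact ((show Commute (tens a) c from h.ct a).zpow_right j).mul_right h3
    exact ((h1.zpow_left i).mul_left h2).eq
  have hAB : A ≤ Isom B := by
    rintro _ ⟨i, a, ha, -, rfl⟩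
    exact (Isom B).mul_mem ((Isom B).zpow_mem hc i) (h.isom a ha)
  -- conjugation by `hh * tens b`
  have hcj : ∀ (b : M ≃ₗ[F] M) (i : ℤ) (a : M ≃ₗ[F] M), (hh * tens b) * (c ^ i * tens a) * (hh * tens b)⁻¹ =
      c ^ (-i) * tens (b * a * b⁻¹) := by
    intro b i a
    have h1 : tens b * c ^ i * (tens b)⁻¹ = c ^ i := by
      rw [(Commute.zpow_right (show Commute (tens b) c from h.ct b) i).eq, mul_inv_cancel_right]
    have h2 : hh * c ^ i * hh⁻¹ = c ^ (-i) := by
      rw [← conj_zpow, h.hhc, inv_zpow, zpow_neg]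
    have h3 : hh * tens (b * a * b⁻¹) * hh⁻¹ = tens (b * a * b⁻¹) := by
      rw [← h.hht, mul_inv_cancel_right]
    calc (hh * tens b) * (c ^ i * tens a) * (hh * tens b)⁻¹
        = hh * (tens b * c ^ i * (tens b)⁻¹) * (tens b * tens a * (tens b)⁻¹) * hh⁻¹ := by group
      _ = hh * c ^ i * tens (b * a * b⁻¹) * hh⁻¹ := by rw [h1, map_mul, map_mul, map_inv]
      _ = (hh * c ^ i * hh⁻¹) * (hh * tens (b * a * b⁻¹) * hh⁻¹) := by group
      _ = _ := by rw [h2, h3]
  have hcc : c⁻¹ ≠ c := by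
    intro h1
    have h4 : c ^ 2 = 1 := by
      rw [pow_two]
      calc c * c = c * c⁻¹ := by rw [h1]
        _ = 1 := mul_inv_cancel c
    have h5 : orderOf c ∣ 2 := orderOf_dvd_of_pow_eq_one h4
    rcases (Nat.dvd_prime Nat.prime_two).1 h5 with h6 | h6
    · exact hc1 (orderOf_eq_one_iff.1 h6)
    · rw [h6] at ho
      exact absurd ho (by decide)
  have hnA : ∀ b : M ≃ₗ[F] M, hh * tens b ∉ A := by
    intro b hb
    have h1 := hAc _ hb
    have h2 := hcj b 1 1
    rw [map_one, mul_one, mul_one, mul_inv_cancel, map_one, mul_one, zpow_one, zpow_neg, zpow_one, h1,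
      mul_inv_cancel_right] at h2
    exact hcc h2.symm
  have hxx : hh * tens g₀ * (hh * tens g₀) = tens (g₀ * g₀) := by
    have h1 : hh * tens g₀ * (hh * tens g₀) = hh * (tens g₀ * hh) * tens g₀ := by group
    rw [h1, h.hht, ← mul_assoc, h.hh2, one_mul, map_mul]
  have hxy : hh * tens g₀ * (hh * tens y₀) = tens (g₀ * y₀) := by
    have h1 : hh * tens g₀ * (hh * tens y₀) = hh * (tens g₀ * hh) * tens y₀ := by group
    rw [h1, h.hht, ← mul_assoc, h.hh2, one_mul, map_mul]
  have hyy2 : hh * tens y₀ * (hh * tens y₀) = 1 := by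
    have h1 : hh * tens y₀ * (hh * tens y₀) = hh * (tens y₀ * hh) * tens y₀ := by group
    rw [h1, h.hht, ← mul_assoc, h.hh2, one_mul, ← map_mul, hy₀2, map_one]
  obtain ⟨m, hm⟩ : ∃ m, Nat.card F + 1 = 2 * (2 * m) := ⟨(Nat.card F + 1) / 4, by omega⟩
  have hwt : hh * tens g₀ * (hh * tens y₀) * (hh * tens g₀ * (hh * tens y₀)) = z := by
    rw [hxy, ← map_mul, hgy, htz]
  obtain ⟨Y, hAY, hxY, hyY, hcov, hFY⟩ := exists_sd A hAA (x := hh * tens g₀) (y := hh * tens y₀) (m := m)
    (by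
      rintro _ ⟨i, a, ha, haJ, rfl⟩
      rw [hcj]
      have h1 : g₀ * a * g₀⁻¹ = a := by rw [hpl.comm hJ hg₀J haJ, mul_inv_cancel_right]
      rw [h1]
      exact ⟨-i, a, ha, haJ, rfl⟩)
    (by
      rintro _ ⟨i, a, ha, haJ, rfl⟩
      refine ⟨-i, a, ha, haJ, ?_⟩
      have h1 := hcj g₀ (-i) a
      have h2 : g₀ * a * g₀⁻¹ = a := by rw [hpl.comm hJ hg₀J haJ, mul_inv_cancel_right]
      rw [h2, neg_neg] at h1
      rw [← h1]
      group)
    (by
      rintro _ ⟨i, a, ha, haJ, rfl⟩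
      rw [hcj, hinv a ha haJ, map_inv, zpow_neg]
      have h1 : Commute (c ^ i) (tens a) := ((show Commute (tens a) c from h.ct a).zpow_right i).symm
      rw [mul_inv_rev, h1.inv_inv.eq])
    hyy2
    (by
      rw [hxx]
      refine htA _ ?_ ?_
      · intro x y
        show β (g₀ (g₀ x)) (g₀ (g₀ y)) = β x y
        rw [hg₀β, hg₀β, neg_neg]
      · rw [mul_assoc, hg₀J, ← mul_assoc, hg₀J, mul_assoc])
    (by
      rw [hwt, hxx, ← map_pow, ← pow_two, ← pow_mul, ← hm, hpl.pow_card hq hJ hg₀ hst₀, htz])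
    (by rw [hwt, pow_two]; exact neg_sq)
    (hnA g₀) (hnA y₀)
    (by
      rw [hxy]
      intro h1
      have h2 := hAJ _ h1
      rw [← map_mul, ← map_mul] at h2
      have h3 := hinj h2
      obtain ⟨v, hv⟩ := hpl.exists_ne
      have h4 : g₀ (y₀ (J (y₀ v))) = J (g₀ (y₀ (y₀ v))) := LinearEquiv.congr_fun h3 (y₀ v)
      have h5 : g₀ (J v) = J (g₀ v) := LinearEquiv.congr_fun hg₀J v
      rw [hy₀J, hyy, map_neg, h5] at h4
      have h6 : (2 : F) • J (g₀ v) = 0 := by rw [two_smul]; nth_rewrite 1 [← h4]; rw [neg_add_cancel]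
      have h7 := (smul_eq_zero.1 h6).resolve_left hF.two
      rw [LinearEquiv.map_eq_zero_iff, LinearEquiv.map_eq_zero_iff] at h7
      exact hv h7)
  have hxB : ∀ b : M ≃ₗ[F] M, (∀ x y, β (b x) (b y) = - β x y) → hh * tens b ∈ Isom B := by
    intro b hb x y
    show B (hh (tens b x)) (hh (tens b y)) = B x y
    rw [h.hhB, hk1, hmul b hb]
    ring
  refine ⟨Y, ?_, hAY hcA, ?_, ?_⟩
  · intro s hs
    have hx := hxB g₀ hg₀β
    have hy := hxB y₀ hy₀β
    have key : ∀ r ∈ Isom B, s * r⁻¹ ∈ A → s ∈ Isom B := by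
      intro r hr h1
      have h2 := (Isom B).mul_mem (hAB h1) hr
      rwa [inv_mul_cancel_right] at h2
    rcases hcov s hs with h1 | h1 | h1 | h1
    · exact hAB h1
    · exact key _ hx h1
    · exact key _ hy h1
    · exact key _ ((Isom B).mul_mem hx hy) h1
  · intro g hg
    obtain ⟨a, hconja, hab⟩ := hconj g hg
    -- the action on `J`
    have hJa : a * J = J * a ∨ a * J = LinearEquiv.neg F * J * a := by
      rcases hPJ g hg with h1 | h1
      · left
        rw [hconja] at h1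
        have h2 := hinj h1
        rw [mul_inv_eq_iff_eq_mul] at h2
        exact h2
      · right
        rw [hconja, ← htz, ← map_mul] at h1
        have h2 := hinj h1
        rw [mul_inv_eq_iff_eq_mul] at h2
        exact h2
    have hy₀c : ∀ b : M ≃ₗ[F] M, b * J = LinearEquiv.neg F * J * b → b * y₀⁻¹ * J = J * (b * y₀⁻¹) := by
      intro b hb
      rw [hy₀i]
      ext x
      show ((b (y₀ (J x)) : M) : V) = ((J (b (y₀ x)) : M) : V)
      congr 1
      rw [hy₀J, map_neg]
      have h1 : b (J (y₀ x)) = - J (b (y₀ x)) := LinearEquiv.congr_fun hb (y₀ x)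
      rw [h1, neg_neg]
    have hgi : g₀⁻¹ * J = J * g₀⁻¹ := (Commute.inv_left (show Commute g₀ J from hg₀J)).eq
    have hβi : ∀ {b : M ≃ₗ[F] M}, (∀ x y, β (b x) (b y) = - β x y) → ∀ x y, β (b⁻¹ x) (b⁻¹ y) = - β x y := by
      intro b hb x y
      have h1 := hb (b⁻¹ x) (b⁻¹ y)
      have h2 : ∀ x, b (b⁻¹ x) = x := fun x => LinearEquiv.apply_symm_apply b x
      rw [h2, h2] at h1
      rw [h1, neg_neg]
    have hβm : ∀ {b b' : M ≃ₗ[F] M}, (∀ x y, β (b x) (b y) = - β x y) → (∀ x y, β (b' x) (b' y) = - β x y) →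
        b * b' ∈ Isom β := by
      intro b b' hb hb' x y
      show β (b (b' x)) (b (b' y)) = β x y
      rw [hb, hb', neg_neg]
    rcases hab with ⟨ha, rfl⟩ | ⟨ha, rfl⟩
    · rcases hJa with h1 | h1
      · exact hAY (htA a ha h1)
      · -- `a = (a y₀⁻¹ g₀⁻¹) (g₀ y₀)`
        have h2 := hy₀c a h1
        have h3 : ∀ x y, β ((a * y₀⁻¹) x) ((a * y₀⁻¹) y) = - β x y := by
          intro x y
          show β (a (y₀⁻¹ x)) (a (y₀⁻¹ y)) = _
          rw [ha, hβi hy₀β]
        have h4 : a * y₀⁻¹ * g₀⁻¹ ∈ Isom β := hβm h3 (hβi hg₀β)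
        have h5 : a * y₀⁻¹ * g₀⁻¹ * J = J * (a * y₀⁻¹ * g₀⁻¹) := by
          rw [mul_assoc (a * y₀⁻¹), hgi, ← mul_assoc, h2, mul_assoc J]
        have h6 : tens a = tens (a * y₀⁻¹ * g₀⁻¹) * (hh * tens g₀ * (hh * tens y₀)) := by
          rw [hxy, ← map_mul]
          congr 1
          group
        rw [h6]
        exact Y.mul_mem (hAY (htA _ h4 h5)) (Y.mul_mem hxY hyY)
    · rcases hJa with h1 | h1
      · have h4 : a * g₀⁻¹ ∈ Isom β := hβm ha (hβi hg₀β)
        have h5 : a * g₀⁻¹ * J = J * (a * g₀⁻¹) := by rw [mul_assoc, hgi, ← mul_assoc, h1, mul_assoc]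
        have h6 : hh * tens a = tens (a * g₀⁻¹) * (hh * tens g₀) := by
          rw [← mul_assoc, h.hht, mul_assoc, ← map_mul, inv_mul_cancel_right]
        rw [h6]
        exact Y.mul_mem (hAY (htA _ h4 h5)) hxY
      · have h2 := hy₀c a h1
        have h4 : a * y₀⁻¹ ∈ Isom β := hβm ha (hβi hy₀β)
        have h6 : hh * tens a = tens (a * y₀⁻¹) * (hh * tens y₀) := by
          rw [← mul_assoc, h.hht, mul_assoc, ← map_mul, inv_mul_cancel_right]
        rw [h6]
        exact Y.mul_mem (hAY (htA _ h4 h2)) hyY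
  · have h1 : zel V (1 : F) = 1 := by
      unfold zel
      rw [if_pos rfl]
    rw [h1]
    exact hFY

end Cfsg.Agent.H47.Uni
end
end
end
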